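import Cfsg.Agent.Gun.Hyp

/-!
# Hermitian spaces over a finite field and their isometry groups (S4793 project)

`FD F`: the field data `|F| = q ^ 2`, `σ x = x ^ q`.  `HS D V`: a nondegenerate hermitian form `B`
(linear in the first slot).  `S.U`: the isometry group; `S.PS X`: the isometries `g` with `(g - 1) V ≤ X`
(the pointwise stabiliser of `X^⊥`): reflection group for an anisotropic line, transvection group for an
isotropic line.  `S.rk x γ : w ↦ w + γ B(w,x) x`, `S.eich x u μ`: Eichler maps (both are `1` when the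
parameters are not admissible).
-/

set_option autoImplicit false
set_option linter.unusedSectionVars false
set_option linter.unusedVariables false
set_option linter.style.haveILetI false

namespace Cfsg.Hst

open Module Submodule

universe u v

/-- A finite field with `q ^ 2` elements and its involution. -/
structure FD (F : Type u) [Field F] where
  q : ℕ
  σ : F →+* F
  card : Nat.card F = q ^ 2
  σ_eq : ∀ x, σ x = x ^ q

variable {F : Type u} [Field F] [Finite F] {V : Type v} [AddCommGroup V] [Module F V]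

namespace FD

variable (D : FD F)

theorem two_le : 2 ≤ D.q := by
  exact Gun.one_lt_q D.card

@[simp] theorem σσ (x : F) : D.σ (D.σ x) = x := by
  rw [D.σ_eq, D.σ_eq, Gun.pow_q_pow_q D.card]

theorem exists_ne : ∃ c : F, D.σ c ≠ c := by
  simpa only [D.σ_eq] using Gun.exists_pow_q_ne D.card

theorem card_fixed : Nat.card {t : F // D.σ t = t} = D.q := by
  simpa only [D.σ_eq] using Gun.card_fixed_q D.card

theorem exists_trace {t : F} (ht : D.σ t = t) : ∃ a : F, a + D.σ a = t := by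
  simpa only [D.σ_eq] using Gun.exists_trace_eq D.card (by rw [← D.σ_eq, ht])

theorem exists_norm {t : F} (ht : D.σ t = t) : ∃ a : F, a * D.σ a = t := by
  simpa only [D.σ_eq] using Gun.exists_norm_eq D.card (by rw [← D.σ_eq, ht])

theorem exists_sub {b : F} (hb : b + D.σ b = 0) : ∃ c : F, c - D.σ c = b := by
  obtain ⟨a, ha⟩ := D.exists_trace (map_one D.σ)
  refine ⟨a * b, ?_⟩
  rw [map_mul]
  linear_combination b * ha - D.σ a * hb

/-- The group of norm one elements. -/
def mu : Subgroup Fˣ where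
  carrier := {a | (a : F) * D.σ a = 1}
  mul_mem' {a b} ha hb := by
    simp only [Set.mem_ofPred_eq, Units.val_mul, map_mul] at *
    linear_combination (b : F) * D.σ b * ha + hb
  one_mem' := by simp
  inv_mem' {a} ha := by
    simp only [Set.mem_ofPred_eq, Units.val_inv_eq_inv_val, map_inv₀] at *
    rw [← mul_inv, ha, inv_one]

theorem mem_mu {a : Fˣ} : a ∈ D.mu ↔ (a : F) * D.σ a = 1 := Iff.rfl

theorem mu_norm (a : D.mu) : (a.1 : F) * D.σ a.1 = 1 := a.2

theorem exists_mu {c : F} (hc : c * D.σ c = 1) : ∃ a : D.mu, (a.1 : F) = c :=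
  ⟨⟨Units.mk0 c (by rintro rfl; simp at hc), hc⟩, rfl⟩

theorem card_mu : Nat.card D.mu = D.q + 1 := by
  classical
  have h2 := D.two_le
  have hc : Nat.card Fˣ = (D.q + 1) * (D.q - 1) := Gun.card_units_q D.card
  have he : D.mu = (powMonoidHom (D.q + 1) : Fˣ →* Fˣ).ker := by
    ext a
    rw [mem_mu, MonoidHom.mem_ker, powMonoidHom_apply, D.σ_eq, ← pow_succ', ← Units.val_pow_eq_pow_val,
      Units.val_eq_one]
  rw [he, IsCyclic.card_powMonoidHom_ker, hc, Nat.gcd_eq_right (dvd_mul_right _ _)]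

/-- A nontrivial additive character that is trivial on the fixed field. -/
theorem exists_psi : ∃ ψ : AddChar F ℂ, ψ ≠ 1 ∧ ∀ z, ψ (D.σ z) = ψ (-z) := by
  obtain ⟨ψ, t, ht⟩ := Gun.exists_addChar_trace D.card
  obtain ⟨d, hd0, hd⟩ := Gun.exists_pow_q_eq_neg D.card
  rw [← D.σ_eq] at ht hd
  refine ⟨ψ.compAddMonoidHom
    { toFun := fun z => d * z + D.σ (d * z), map_zero' := by simp
      map_add' := fun a b => by simp only [mul_add, map_add]; ring }, fun h => ht ?_, fun z => ?_⟩
  · have := DFunLike.congr_fun h (d⁻¹ * t)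
    simpa [mul_inv_cancel_left₀ hd0, mul_inv_cancel_left₀ ((map_ne_zero D.σ).2 hd0)] using this
  · simp only [AddChar.compAddMonoidHom_apply, AddMonoidHom.coe_mk, ZeroHom.coe_mk, map_mul, σσ, hd,
      map_neg]
    congr 1
    ring

/-- Sesquilinear forms, linear in the first slot. -/
abbrev Form (V : Type v) [AddCommGroup V] [Module F V] : Type _ := V →ₗ[F] V →ₛₗ[D.σ] F

/-- Hermitian forms (possibly degenerate). -/
def IsHerm (h : D.Form V) : Prop := ∀ u v, h v u = D.σ (h u v)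

/-- Polarisation: a sesquilinear form vanishing on the diagonal is zero. -/
theorem polar (β : D.Form V) (h : ∀ v, β v v = 0) : β = 0 := by
  obtain ⟨c, hc⟩ := D.exists_ne
  ext u v
  have h1 := h (u + v)
  have h2 := h (u + c • v)
  simp only [map_add, LinearMap.add_apply, map_smul, map_smulₛₗ, LinearMap.smul_apply, smul_eq_mul,
    h] at h1 h2
  have : (D.σ c - c) * β u v = 0 := by linear_combination h2 - c * h1
  simpa using (mul_eq_zero.1 this).resolve_left (sub_ne_zero.2 hc)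

variable {D}

theorem IsHerm.σ_self {h : D.Form V} (hh : D.IsHerm h) (v : V) : D.σ (h v v) = h v v :=
  (hh v v).symm

/-- A plane contains a nonzero isotropic vector. -/
theorem IsHerm.exists_iso {h : D.Form V} (hh : D.IsHerm h) {x y : V} (hx : x ≠ 0)
    (hy : y ∉ span F {x}) : ∃ a b : F, a • x + b • y ≠ 0 ∧ h (a • x + b • y) (a • x + b • y) = 0 := by
  by_cases hxx : h x x = 0
  · exact ⟨1, 0, by simpa using hx, by simpa using hxx⟩
  · have hfix : D.σ (h x y * h y x / (h x x * h x x) - h y y / h x x) =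
        h x y * h y x / (h x x * h x x) - h y y / h x x := by
      simp only [map_sub, map_div₀, map_mul, hh.σ_self, ← hh x y, ← hh y x, mul_comm]
    obtain ⟨c, hc⟩ := D.exists_norm hfix
    refine ⟨c - h y x / h x x, 1, fun h0 => hy ?_, ?_⟩
    · rw [one_smul] at h0
      rw [eq_neg_of_add_eq_zero_right h0]
      exact neg_mem (smul_mem _ _ (mem_span_singleton_self x))
    · simp only [map_add, LinearMap.add_apply, map_smul, map_smulₛₗ, LinearMap.smul_apply,
        smul_eq_mul, map_sub, map_div₀, hh.σ_self, ← hh y x, map_one, one_mul]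
      field_simp at hc ⊢
      linear_combination hc

end FD

/-- A nondegenerate hermitian space. -/
structure HS (D : FD F) (V : Type v) [AddCommGroup V] [Module F V] where
  B : D.Form V
  herm : D.IsHerm B
  nondeg : ∀ u, (∀ w, B w u = 0) → u = 0

namespace HS

variable {D : FD F} [Finite V] (S : HS D V)

theorem symm0 {u v : V} (h : S.B u v = 0) : S.B v u = 0 := by rw [S.herm u v, h, map_zero]

theorem σ_B (u v : V) : D.σ (S.B u v) = S.B v u := (S.herm u v).symm

theorem ext_right {u v : V} (h : ∀ w, S.B w u = S.B w v) : u = v :=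
  sub_eq_zero.1 (S.nondeg _ fun w => by rw [map_sub, h, sub_self])

theorem ext_left {u v : V} (h : ∀ w, S.B u w = S.B v w) : u = v :=
  S.ext_right fun w => by rw [S.herm u w, h, S.σ_B]

theorem isHerm : Gun.IsHerm D.q (fun u v => S.B u v) :=
  ⟨fun u v w => by simp, fun a u v => by simp, fun u v => by rw [S.herm u v, D.σ_eq]⟩

theorem nondeg' (u : V) (hu : ∀ v, S.B u v = 0) : u = 0 := S.nondeg u fun w => S.symm0 (hu w)

/-- Every linear functional is `B(·, v)`. -/
theorem exists_rep (f : V →ₗ[F] F) : ∃ v, ∀ w, f w = S.B w v := by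
  obtain ⟨x, hx⟩ := S.isHerm.exists_lin_eq D.card S.nondeg' f
  exact ⟨x, fun w => by rw [← hx]; rfl⟩

/-- The isometry group. -/
def U : Subgroup (V ≃ₗ[F] V) where
  carrier := {g | ∀ u v, S.B (g u) (g v) = S.B u v}
  mul_mem' {a b} ha hb u v := by
    rw [LinearEquiv.mul_apply, LinearEquiv.mul_apply, ha, hb]
  one_mem' u v := rfl
  inv_mem' {a} ha u v := by
    rw [← ha]
    simp

instance : Finite (V ≃ₗ[F] V) := Finite.of_injective (fun g => (g : V → V)) DFunLike.coe_injective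

variable {S}

theorem U.iso (g : S.U) (u v : V) : S.B (g.1 u) (g.1 v) = S.B u v := g.2 u v

theorem U.ext {g h : S.U} (e : ∀ v, g.1 v = h.1 v) : g = h := Subtype.ext (LinearEquiv.ext e)

@[simp] theorem U.mul_apply (g h : S.U) (v : V) : (g * h).1 v = g.1 (h.1 v) := rfl

@[simp] theorem U.one_apply (v : V) : (1 : S.U).1 v = v := rfl

@[simp] theorem U.apply_inv (g : S.U) (v : V) : g.1 ((g⁻¹).1 v) = v := by
  rw [← U.mul_apply, mul_inv_cancel, U.one_apply]

@[simp] theorem U.inv_apply (g : S.U) (v : V) : (g⁻¹).1 (g.1 v) = v := by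
  rw [← U.mul_apply, inv_mul_cancel, U.one_apply]

theorem U.iso_inv (g : S.U) (u v : V) : S.B (g.1 u) v = S.B u ((g⁻¹).1 v) := by
  conv_lhs => rw [← U.apply_inv g v, U.iso]

variable (S)

/-- An isometric endomorphism as an element of the isometry group. -/
noncomputable def mkU (T : End F V) (hT : ∀ u v, S.B (T u) (T v) = S.B u v) : S.U :=
  ⟨LinearEquiv.ofBijective T (by
    have hi : Function.Injective T := (injective_iff_map_eq_zero T).2 fun u hu =>
      S.nondeg u fun w => by rw [← hT, hu, map_zero]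
    exact ⟨hi, Finite.injective_iff_surjective.1 hi⟩), hT⟩

@[simp] theorem mkU_apply (T : End F V) (hT : ∀ u v, S.B (T u) (T v) = S.B u v) (v : V) :
    (S.mkU T hT).1 v = T v := rfl

/-- `g - 1` as an endomorphism. -/
def sub1 (g : S.U) : End F V := (g.1 : V →ₗ[F] V) - 1

@[simp] theorem sub1_apply (g : S.U) (v : V) : S.sub1 g v = g.1 v - v := rfl

/-- The orthogonal complement. -/
def perp (X : Submodule F V) : Submodule F V where
  carrier := {w | ∀ x ∈ X, S.B w x = 0}
  add_mem' {a b} ha hb x hx := by rw [map_add, LinearMap.add_apply, ha x hx, hb x hx, add_zero]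
  zero_mem' x hx := by simp
  smul_mem' c w hw x hx := by rw [map_smul, LinearMap.smul_apply, hw x hx, smul_zero]

variable {S}

theorem mem_perp {X : Submodule F V} {w : V} : w ∈ S.perp X ↔ ∀ x ∈ X, S.B w x = 0 := Iff.rfl

theorem mem_perp_span {s : Set V} {w : V} : w ∈ S.perp (span F s) ↔ ∀ x ∈ s, S.B w x = 0 :=
  ⟨fun h x hx => h x (subset_span hx), fun h x hx =>
    (span_le (p := LinearMap.ker (S.B w))).2 h hx⟩

theorem mem_perp_one {x w : V} : w ∈ S.perp (span F {x}) ↔ S.B w x = 0 := by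
  simp [mem_perp_span]

theorem perp_anti {X Y : Submodule F V} (h : X ≤ Y) : S.perp Y ≤ S.perp X :=
  fun w hw x hx => hw x (h hx)

theorem perp_sup (X Y : Submodule F V) : S.perp (X ⊔ Y) = S.perp X ⊓ S.perp Y := by
  exact S.isHerm.perp_sup D.card X Y

variable (S)

theorem perp_eq_gun (X : Submodule F V) : S.perp X = S.isHerm.perp X := rfl

theorem finrank_perp (X : Submodule F V) : finrank F (S.perp X) + finrank F X = finrank F V := by
  rw [add_comm]
  exact S.isHerm.finrank_add_finrank_perp D.card S.nondeg' X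

@[simp] theorem perp_perp (X : Submodule F V) : S.perp (S.perp X) = X := by
  exact S.isHerm.perp_perp D.card S.nondeg' X

theorem perp_ker_sub1 (g : S.U) :
    S.perp (LinearMap.range (S.sub1 g)) = LinearMap.ker (S.sub1 g) := by
  exact S.isHerm.perp_range_sub_one D.card S.nondeg' (g := (g.1 : V →ₗ[F] V)) g.2 g.1.surjective

/-- A subspace all of whose vectors are isotropic is totally isotropic. -/
theorem le_perp_of_iso {X : Submodule F V} (h : ∀ x ∈ X, S.B x x = 0) : X ≤ S.perp X := by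
  intro x hx y hy
  have := D.polar (S.B.domRestrict₁₂ X X) fun v => h v v.2
  exact LinearMap.congr_fun (LinearMap.congr_fun this ⟨x, hx⟩) ⟨y, hy⟩

/-- The restriction of the form to a nondegenerate subspace. -/
def res (X : Submodule F V) (hX : X ⊓ S.perp X = ⊥) : HS D X where
  B := S.B.domRestrict₁₂ X X
  herm u v := S.herm u v
  nondeg u hu := by
    have : u.1 ∈ X ⊓ S.perp X := ⟨u.2, fun x hx => S.symm0 (hu ⟨x, hx⟩)⟩
    rw [hX] at this
    exact Subtype.ext this

@[simp] theorem res_B (X : Submodule F V) (hX : X ⊓ S.perp X = ⊥) (u v : X) :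
    (S.res X hX).B u v = S.B u v := rfl

theorem isCompl_perp {X : Submodule F V} (hX : X ⊓ S.perp X = ⊥) : IsCompl X (S.perp X) := by
  refine S.isHerm.isCompl_perp D.card S.nondeg' fun u hu h => ?_
  have : u ∈ X ⊓ S.perp X := ⟨hu, h⟩
  rwa [hX] at this

/-- The isometries with `(g - 1) V ≤ X`. -/
def PS (X : Submodule F V) : Subgroup S.U where
  carrier := {g | ∀ w, g.1 w - w ∈ X}
  mul_mem' {a b} ha hb w := by
    have := X.add_mem (ha (b.1 w)) (hb w)
    rwa [sub_add_sub_cancel] at this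
  one_mem' w := by simp
  inv_mem' {a} ha w := by
    have := X.neg_mem (ha ((a⁻¹).1 w))
    rwa [U.apply_inv, neg_sub] at this

/-- The isometries acting trivially on `I` and on `I^⊥ / I`. -/
def QI (I : Submodule F V) : Subgroup S.U where
  carrier := {g | (∀ v ∈ I, g.1 v = v) ∧ ∀ w ∈ S.perp I, g.1 w - w ∈ I}
  mul_mem' {a b} ha hb := by
    refine ⟨fun v hv => by rw [U.mul_apply, hb.1 v hv, ha.1 v hv], fun w hw => ?_⟩
    have h1 := ha.1 _ (hb.2 w hw)
    rw [map_sub] at h1
    have := I.add_mem (hb.2 w hw) (ha.2 w hw)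
    rwa [← h1, sub_add_sub_cancel] at this
  one_mem' := ⟨fun v hv => rfl, fun w hw => by simp⟩
  inv_mem' {a} ha := by
    refine ⟨fun v hv => by conv_lhs => rw [← ha.1 v hv, U.inv_apply], fun w hw => ?_⟩
    have h1 := ha.2 w hw
    have h2 : (a⁻¹).1 (a.1 w - w) = a.1 w - w := by
      conv_lhs => rw [← ha.1 _ h1, U.inv_apply]
    rw [map_sub, U.inv_apply] at h2
    have := I.neg_mem h1
    rwa [← h2, neg_sub] at this

variable {S}

theorem mem_PS {X : Submodule F V} {g : S.U} : g ∈ S.PS X ↔ ∀ w, g.1 w - w ∈ X := Iff.rfl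

theorem mem_PS_range {X : Submodule F V} {g : S.U} :
    g ∈ S.PS X ↔ LinearMap.range (S.sub1 g) ≤ X :=
  ⟨fun h => by rintro _ ⟨w, rfl⟩; exact h w, fun h w => h ⟨w, rfl⟩⟩

theorem mem_PS_perp {X : Submodule F V} {g : S.U} :
    g ∈ S.PS X ↔ ∀ w ∈ S.perp X, g.1 w = w := by
  rw [mem_PS_range]
  constructor
  · intro h w hw
    have := perp_anti h hw
    rwa [perp_ker_sub1, LinearMap.mem_ker, sub1_apply, sub_eq_zero] at this
  · intro h
    rw [← S.perp_perp X, ← S.perp_perp (LinearMap.range _), perp_ker_sub1]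
    exact perp_anti fun w hw => by rw [LinearMap.mem_ker, sub1_apply, h w hw, sub_self]

theorem PS_mono {X Y : Submodule F V} (h : X ≤ Y) : S.PS X ≤ S.PS Y := fun g hg w => h (hg w)

theorem mem_QI {I : Submodule F V} {g : S.U} :
    g ∈ S.QI I ↔ (∀ v ∈ I, g.1 v = v) ∧ ∀ w ∈ S.perp I, g.1 w - w ∈ I := Iff.rfl

theorem PS_le_QI {I : Submodule F V} (hI : I ≤ S.perp I) : S.PS I ≤ S.QI I := by
  exact fun g hg => ⟨fun v hv => mem_PS_perp.1 hg v (hI hv), fun w _ => hg w⟩

theorem PS_comm {I : Submodule F V} (hI : I ≤ S.perp I) {a b : S.U} (ha : a ∈ S.PS I)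
    (hb : b ∈ S.PS I) : a * b = b * a := by
  refine U.ext fun w => ?_
  have h1 := mem_PS_perp.1 ha _ (hI (hb w))
  have h2 := mem_PS_perp.1 hb _ (hI (ha w))
  rw [map_sub] at h1 h2
  rw [U.mul_apply, U.mul_apply]
  linear_combination (norm := module) h1 - h2

/-- Elements moving only along orthogonal subspaces commute. -/
theorem PS_comm_perp {X Y : Submodule F V} (h : X ≤ S.perp Y) {a b : S.U} (ha : a ∈ S.PS X)
    (hb : b ∈ S.PS Y) : a * b = b * a := by
  refine U.ext fun w => ?_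
  have h1 := mem_PS_perp.1 ha _ (fun x hx => S.symm0 (h hx _ (hb w)))
  have h2 := mem_PS_perp.1 hb _ (h (ha w))
  rw [map_sub] at h1 h2
  rw [U.mul_apply, U.mul_apply]
  linear_combination (norm := module) h1 - h2

theorem inv_mem_of_mem {X : Submodule F V} {u : S.U} (hu : ∀ x ∈ X, u.1 x ∈ X) {x : V}
    (hx : x ∈ X) : (u⁻¹).1 x ∈ X := by
  have hs : Function.Surjective (fun y : X => (⟨u.1 y, hu y y.2⟩ : X)) :=
    Finite.injective_iff_surjective.1 fun a b h => Subtype.ext (u.1.injective (congrArg Subtype.val h))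
  obtain ⟨y, hy⟩ := hs ⟨x, hx⟩
  have : x = u.1 y := (congrArg Subtype.val hy).symm
  rw [this, U.inv_apply]
  exact y.2

theorem conj_mem_PS {X : Submodule F V} {u a : S.U} (hu : ∀ x ∈ X, u.1 x ∈ X) (ha : a ∈ S.PS X) :
    u⁻¹ * a * u ∈ S.PS X := by
  intro w
  have := inv_mem_of_mem hu (ha (u.1 w))
  rwa [map_sub, U.inv_apply] at this

theorem conj_mem_QI {I : Submodule F V} {u a : S.U} (hu : ∀ x ∈ I, u.1 x ∈ I) (ha : a ∈ S.QI I) :
    u⁻¹ * a * u ∈ S.QI I := by
  refine ⟨fun v hv => by rw [U.mul_apply, U.mul_apply, ha.1 _ (hu v hv), U.inv_apply], fun w hw => ?_⟩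
  have h1 : u.1 w ∈ S.perp I := fun x hx => by rw [U.iso_inv, hw _ (inv_mem_of_mem hu hx)]
  have := inv_mem_of_mem hu (ha.2 _ h1)
  rwa [map_sub, U.inv_apply] at this

theorem conj_mem_PS_one {x : V} {u a : S.U} (ha : a ∈ S.PS (span F {x})) :
    u * a * u⁻¹ ∈ S.PS (span F {u.1 x}) := by
  intro w
  obtain ⟨c, hc⟩ := mem_span_singleton.1 (ha ((u⁻¹).1 w))
  refine mem_span_singleton.2 ⟨c, ?_⟩
  rw [← map_smul, hc, map_sub, U.apply_inv]
  rfl

variable (S)

/-- Admissible parameters of a rank one isometry. -/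
def AdmR (x : V) (γ : F) : Prop := γ + D.σ γ + γ * D.σ γ * S.B x x = 0

/-- Admissible parameters of an Eichler map. -/
def Adm (x u : V) (μ : F) : Prop := S.B x x = 0 ∧ S.B u x = 0 ∧ μ + D.σ μ + S.B u u = 0

/-- The endomorphism `w ↦ w + γ B(w,x) x`. -/
def rkL (x : V) (γ : F) : End F V := 1 + (γ • S.B.flip x).smulRight x

theorem rkL_apply (x : V) (γ : F) (w : V) : S.rkL x γ w = w + (γ * S.B w x) • x := rfl

theorem rkL_iso {x : V} {γ : F} (h : S.AdmR x γ) (u v : V) :
    S.B (S.rkL x γ u) (S.rkL x γ v) = S.B u v := by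
  simp only [rkL_apply, map_add, LinearMap.add_apply, map_smul, map_smulₛₗ, LinearMap.smul_apply,
    smul_eq_mul, map_mul, σ_B]
  unfold AdmR at h
  linear_combination S.B u x * S.B x v * h

/-- The endomorphism `w ↦ w + B(w,x) u + (μ B(w,x) - B(w,u)) x`. -/
def eichL (x u : V) (μ : F) : End F V :=
  1 + (S.B.flip x).smulRight u + (μ • S.B.flip x - S.B.flip u).smulRight x

theorem eichL_apply (x u : V) (μ : F) (w : V) :
    S.eichL x u μ w = w + S.B w x • u + (μ * S.B w x - S.B w u) • x := rfl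

theorem eichL_iso {x u : V} {μ : F} (h : S.Adm x u μ) (v w : V) :
    S.B (S.eichL x u μ v) (S.eichL x u μ w) = S.B v w := by
  obtain ⟨h1, h2, h3⟩ := h
  simp only [eichL_apply, map_add, LinearMap.add_apply, map_smul, map_smulₛₗ, LinearMap.smul_apply,
    smul_eq_mul, map_mul, map_sub, σ_B, h1, h2, S.symm0 h2]
  linear_combination S.B v x * S.B x w * h3

open Classical in
/-- The rank one isometry `w ↦ w + γ B(w,x) x` (a reflection or a transvection). -/
noncomputable def rk (x : V) (γ : F) : S.U :=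
  if h : S.AdmR x γ then S.mkU (S.rkL x γ) (S.rkL_iso h) else 1

open Classical in
/-- The Eichler isometry `w ↦ w + B(w,x) u + (μ B(w,x) - B(w,u)) x`. -/
noncomputable def eich (x u : V) (μ : F) : S.U :=
  if h : S.Adm x u μ then S.mkU (S.eichL x u μ) (S.eichL_iso h) else 1

variable {S}

theorem rk_apply {x : V} {γ : F} (h : S.AdmR x γ) (w : V) :
    (S.rk x γ).1 w = w + (γ * S.B w x) • x := by
  rw [rk, dif_pos h]; rfl

theorem eich_apply {x u : V} {μ : F} (h : S.Adm x u μ) (w : V) :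
    (S.eich x u μ).1 w = w + S.B w x • u + (μ * S.B w x - S.B w u) • x := by
  rw [eich, dif_pos h]; rfl

theorem rk_of_not {x : V} {γ : F} (h : ¬ S.AdmR x γ) : S.rk x γ = 1 := by rw [rk, dif_neg h]

theorem eich_of_not {x u : V} {μ : F} (h : ¬ S.Adm x u μ) : S.eich x u μ = 1 := by
  rw [eich, dif_neg h]

theorem exists_adm {x u : V} (hx : S.B x x = 0) (hu : S.B u x = 0) : ∃ μ, S.Adm x u μ := by
  obtain ⟨μ, h⟩ := D.exists_trace (t := -S.B u u) (by rw [map_neg, σ_B])
  exact ⟨μ, hx, hu, by rw [h, neg_add_cancel]⟩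

theorem rk_mem_PS (x : V) (γ : F) : S.rk x γ ∈ S.PS (span F {x}) := by
  by_cases h : S.AdmR x γ
  · intro w
    rw [rk_apply h, add_sub_cancel_left]
    exact smul_mem _ _ (mem_span_singleton_self x)
  · rw [rk_of_not h]; exact one_mem _

theorem exists_rk_of_mem_PS {x : V} {g : S.U} (hg : g ∈ S.PS (span F {x})) :
    ∃ γ, S.AdmR x γ ∧ g = S.rk x γ := by
  by_cases hx : x = 0
  · have h0 : S.AdmR x 0 := by simp [AdmR]
    refine ⟨0, h0, U.ext fun w => ?_⟩
    have := hg w
    rw [hx, span_zero_singleton, mem_bot, sub_eq_zero] at this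
    rw [this, rk_apply h0, zero_mul, zero_smul, add_zero]
  · obtain ⟨w₀, hw₀⟩ : ∃ w₀, S.B w₀ x = 1 := S.isHerm.exists_eq_left D.card S.nondeg' hx 1
    obtain ⟨γ, hγ⟩ := mem_span_singleton.1 (hg w₀)
    have key : ∀ w, g.1 w = w + (γ * S.B w x) • x := fun w => by
      have h1 := mem_PS_perp.1 hg (w - S.B w x • w₀) (mem_perp_one.2 (by simp [hw₀]))
      rw [map_sub, map_smul, eq_add_of_sub_eq hγ.symm] at h1
      linear_combination (norm := module) h1
    have ha : S.AdmR x γ := by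
      have := U.iso g w₀ w₀
      have hw₁ : S.B x w₀ = 1 := by rw [← σ_B, hw₀, map_one]
      simp only [key, map_add, LinearMap.add_apply, map_smul, map_smulₛₗ, LinearMap.smul_apply,
        smul_eq_mul, hw₀, hw₁, mul_one] at this
      unfold AdmR
      linear_combination this
    exact ⟨γ, ha, U.ext fun w => by rw [key, rk_apply ha]⟩

theorem eich_zero {x : V} (hx : S.B x x = 0) (μ : F) : S.eich x 0 μ = S.rk x μ := by
  have e : S.Adm x 0 μ ↔ S.AdmR x μ := by simp [Adm, AdmR, hx]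
  by_cases h : S.AdmR x μ
  · exact U.ext fun w => by simp [rk_apply h, eich_apply (e.2 h)]
  · rw [rk_of_not h, eich_of_not (mt e.1 h)]

theorem Adm.add {x u u' : V} {μ μ' : F} (h : S.Adm x u μ) (h' : S.Adm x u' μ') :
    S.Adm x (u + u') (μ + μ' - S.B u' u) := by
  refine ⟨h.1, by simp [h.2.1, h'.2.1], ?_⟩
  simp only [map_add, LinearMap.add_apply, map_sub, σ_B]
  linear_combination h.2.2 + h'.2.2

theorem eich_mul {x u u' : V} {μ μ' : F} (h : S.Adm x u μ) (h' : S.Adm x u' μ') :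
    S.eich x u μ * S.eich x u' μ' = S.eich x (u + u') (μ + μ' - S.B u' u) := by
  refine U.ext fun w => ?_
  rw [U.mul_apply, eich_apply (h.add h'), eich_apply h, eich_apply h']
  simp only [map_add, LinearMap.add_apply, map_smul, LinearMap.smul_apply, smul_eq_mul, h.1, h'.2.1,
    S.symm0 h.2.1]
  module

theorem eich_conj (g : S.U) (x u : V) (μ : F) :
    g * S.eich x u μ * g⁻¹ = S.eich (g.1 x) (g.1 u) μ := by
  have e : S.Adm (g.1 x) (g.1 u) μ ↔ S.Adm x u μ := by simp only [Adm, U.iso]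
  by_cases h : S.Adm x u μ
  · refine U.ext fun w => ?_
    rw [U.mul_apply, U.mul_apply, eich_apply h, eich_apply (e.2 h)]
    simp only [map_add, map_smul, U.apply_inv, ← U.iso g ((g⁻¹).1 w)]
  · rw [eich_of_not h, eich_of_not (mt e.1 h), mul_one, mul_inv_cancel]

theorem rk_conj (g : S.U) (x : V) (γ : F) : g * S.rk x γ * g⁻¹ = S.rk (g.1 x) γ := by
  have e : S.AdmR (g.1 x) γ ↔ S.AdmR x γ := by simp only [AdmR, U.iso]
  by_cases h : S.AdmR x γ
  · refine U.ext fun w => ?_
    rw [U.mul_apply, U.mul_apply, rk_apply h, rk_apply (e.2 h)]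
    simp only [map_add, map_smul, U.apply_inv, ← U.iso g ((g⁻¹).1 w)]
  · rw [rk_of_not h, rk_of_not (mt e.1 h), mul_one, mul_inv_cancel]

theorem eich_smul {x u : V} {μ : F} (c : F) (h : S.Adm x (D.σ c • u) (c * D.σ c * μ))
    (h' : S.Adm (c • x) u μ) : S.eich (c • x) u μ = S.eich x (D.σ c • u) (c * D.σ c * μ) := by
  refine U.ext fun w => ?_
  rw [eich_apply h, eich_apply h']
  simp only [map_smulₛₗ, smul_eq_mul, FD.σσ]
  module

theorem rk_smul (c : F) (x : V) (γ : F) : S.rk (c • x) γ = S.rk x (c * D.σ c * γ) := by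
  by_cases hc : c = 0
  · have h0 : S.AdmR x 0 := by simp [AdmR]
    have h1 : S.rk x 0 = 1 := U.ext fun w => by simp [rk_apply h0]
    rw [hc, zero_smul, zero_mul, zero_mul, h1]
    by_cases h : S.AdmR 0 γ
    · exact U.ext fun w => by simp [rk_apply h]
    · exact rk_of_not h
  · have hN : c * D.σ c ≠ 0 := mul_ne_zero hc ((map_ne_zero _).2 hc)
    have e : S.AdmR (c • x) γ ↔ S.AdmR x (c * D.σ c * γ) := by
      simp only [AdmR, map_smul, map_smulₛₗ, LinearMap.smul_apply, smul_eq_mul, map_mul, FD.σσ]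
      constructor
      · intro h; linear_combination c * D.σ c * h
      · intro h; exact mul_left_cancel₀ hN (by linear_combination h)
    by_cases h : S.AdmR (c • x) γ
    · refine U.ext fun w => ?_
      rw [rk_apply h, rk_apply (e.1 h)]
      simp only [map_smulₛₗ, smul_eq_mul]
      module
    · rw [rk_of_not h, rk_of_not (mt e.2 h)]

theorem eich_add_smul {x u : V} {μ : F} (c : F) (h : S.Adm x u (μ + c - D.σ c)) :
    S.Adm x (u + c • x) μ ∧ S.eich x (u + c • x) μ = S.eich x u (μ + c - D.σ c) := by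
  have h' : S.Adm x (u + c • x) μ := by
    obtain ⟨h1, h2, h3⟩ := h
    refine ⟨h1, by simp [h1, h2], ?_⟩
    simp only [map_add, map_sub, FD.σσ, LinearMap.add_apply, map_smul, map_smulₛₗ,
      LinearMap.smul_apply, smul_eq_mul, h1, h2, S.symm0 h2] at h3 ⊢
    linear_combination h3
  refine ⟨h', U.ext fun w => ?_⟩
  rw [eich_apply h, eich_apply h']
  simp only [map_add, map_smulₛₗ, smul_eq_mul]
  module

theorem eich_mem_PS {X : Submodule F V} {x u : V} (hx : x ∈ X) (hu : u ∈ X) (μ : F) :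
    S.eich x u μ ∈ S.PS X := by
  by_cases h : S.Adm x u μ
  · intro w
    rw [eich_apply h, add_assoc, add_sub_cancel_left]
    exact add_mem (smul_mem _ _ hu) (smul_mem _ _ hx)
  · rw [eich_of_not h]; exact one_mem _

theorem eich_mem_QI {I : Submodule F V} (hI : I ≤ S.perp I) {x u : V} (hx : x ∈ I)
    (hu : u ∈ S.perp I) (μ : F) : S.eich x u μ ∈ S.QI I := by
  by_cases h : S.Adm x u μ
  · refine ⟨fun v hv => ?_, fun w hw => ?_⟩
    · simp [eich_apply h, hI hv x hx, S.symm0 (hu v hv)]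
    · rw [eich_apply h, hw x hx, zero_smul, add_zero, add_sub_cancel_left]
      exact smul_mem _ _ hx
  · rw [eich_of_not h]; exact one_mem _

/-- Eichler maps at `x` are transitive on the vectors with given norm and given nonzero product
with `x`. -/
theorem exists_eich_apply_eq {x v w : V} (hx : S.B x x = 0) (hvw : S.B v v = S.B w w)
    (h1 : S.B v x = S.B w x) (h0 : S.B v x ≠ 0) :
    ∃ u μ, S.Adm x u μ ∧ u ∈ span F {x, v, w} ∧ (S.eich x u μ).1 v = w := by
  have h0' : S.B x v ≠ 0 := fun h => h0 (S.symm0 h)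
  have h1' : S.B x w = S.B x v := by rw [← σ_B, ← h1, σ_B]
  have ha : S.Adm x ((S.B v x)⁻¹ • (w - v)) (S.B v ((S.B v x)⁻¹ • (w - v)) / S.B v x) := by
    refine ⟨hx, by simp [h1], ?_⟩
    simp only [map_sub, map_smul, map_smulₛₗ, LinearMap.smul_apply, LinearMap.sub_apply, smul_eq_mul,
      map_div₀, map_mul, map_inv₀, σ_B]
    field_simp
    linear_combination -hvw
  refine ⟨_, _, ha, smul_mem _ _ (sub_mem (subset_span (by simp)) (subset_span (by simp))), ?_⟩
  rw [eich_apply ha, div_mul_cancel₀ _ h0, sub_self, zero_smul, add_zero, smul_inv_smul₀ h0,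
    add_sub_cancel]

/-- `PS X` is generated by rank one isometries (induction on the rank of `g - 1`; take `w` with
`B(gw - w, w) ≠ 0` (`polar`), `x = gw - w`, `γ = B(w,x)⁻¹`, pass to `(rk x γ)⁻¹ * g`). -/
theorem PS_le_of_rk {X : Submodule F V} {H : Subgroup S.U}
    (h : ∀ x ∈ X, ∀ γ, S.AdmR x γ → S.rk x γ ∈ H) : S.PS X ≤ H := by
  intro g hg
  induction hn : finrank F (LinearMap.range (S.sub1 g)) using Nat.strong_induction_on
    generalizing g with
  | _ n ih =>
  by_cases h1 : ∀ w, S.B (S.sub1 g w) w = 0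
  · have h2 := D.polar (S.B.comp (S.sub1 g)) h1
    have : g = 1 := U.ext fun w => sub_eq_zero.1 (S.nondeg' _ fun v =>
      LinearMap.congr_fun (LinearMap.congr_fun h2 w) v)
    rw [this]; exact one_mem _
  push Not at h1
  obtain ⟨w, hw⟩ := h1
  set x := S.sub1 g w with hx
  have hw' : S.B w x ≠ 0 := fun h => hw (S.symm0 h)
  have hgw : g.1 w = w + x := by rw [hx, sub1_apply, add_sub_cancel]
  have ha : S.AdmR x (S.B w x)⁻¹ := by
    have := U.iso g w w
    simp only [hgw, map_add, LinearMap.add_apply] at this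
    simp only [AdmR, map_inv₀, σ_B]
    field_simp
    linear_combination this
  set r := S.rk x (S.B w x)⁻¹ with hr
  have hrw : r.1 w = g.1 w := by rw [hr, rk_apply ha, inv_mul_cancel₀ hw', one_smul, hgw]
  have hrX : ∀ Y : Submodule F V, x ∈ Y → r ∈ S.PS Y := fun Y hY =>
    PS_mono ((span_singleton_le_iff_mem _ _).2 hY) (rk_mem_PS _ _)
  have hlt : LinearMap.range (S.sub1 (r⁻¹ * g)) < LinearMap.range (S.sub1 g) := by
    refine lt_of_le_of_ne (mem_PS_range.1 (mul_mem (inv_mem (hrX _ ⟨w, rfl⟩))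
      (mem_PS_range.2 le_rfl))) fun e => hw' ?_
    have h3 : w ∈ LinearMap.ker (S.sub1 (r⁻¹ * g)) := by
      rw [LinearMap.mem_ker, sub1_apply, U.mul_apply, ← hrw, U.inv_apply, sub_self]
    rw [← perp_ker_sub1, e] at h3
    exact h3 x ⟨w, rfl⟩
  have := ih _ (hn ▸ finrank_lt_finrank_of_lt hlt) (mul_mem (inv_mem (hrX X (hg w))) hg) rfl
  have h4 := mul_mem (h x (hg w) _ ha) this
  rwa [← hr, mul_inv_cancel_left] at h4

theorem PS_top : S.PS ⊤ = ⊤ := eq_top_iff.2 fun g _ w => trivial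

variable (S)

/-- The determinant. -/
noncomputable def detU : S.U →* Fˣ := LinearEquiv.det.comp S.U.subtype

theorem detU_rk {x : V} {γ : F} (h : S.AdmR x γ) :
    (S.detU (S.rk x γ) : F) = 1 + γ * S.B x x := by
  have : ((S.rk x γ).1 : V →ₗ[F] V) = LinearMap.transvection (γ • S.B.flip x) x :=
    LinearMap.ext fun w => by simp [rk_apply h, LinearMap.transvection.apply]
  rw [detU, MonoidHom.comp_apply, LinearEquiv.coe_det, Subgroup.coe_subtype, this,
    LinearMap.transvection.det]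
  simp

theorem detU_mem (g : S.U) : S.detU g ∈ D.mu := by
  refine PS_le_of_rk (X := ⊤) (H := D.mu.comap S.detU) (fun x _ γ h => ?_) (fun w => trivial)
  rw [Subgroup.mem_comap, FD.mem_mu, detU_rk S h]
  simp only [map_add, map_one, map_mul, σ_B]
  unfold AdmR at h
  linear_combination S.B x x * h

/-- The scalars of norm one. -/
noncomputable def sc : D.mu →* S.U where
  toFun z := S.mkU ((z.1 : F) • 1) fun u v => by
    have := D.mu_norm z
    simp only [LinearMap.smul_apply, Module.End.one_apply, map_smul, map_smulₛₗ, smul_eq_mul]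
    linear_combination S.B u v * this
  map_one' := U.ext fun v => by simp
  map_mul' a b := U.ext fun v => by simp [smul_smul, mul_comm]

@[simp] theorem sc_apply (z : D.mu) (v : V) : (S.sc z).1 v = (z.1 : F) • v := rfl

theorem sc_comm (z : D.mu) (g : S.U) : S.sc z * g = g * S.sc z := U.ext fun v => by simp

theorem sc_injective [Nontrivial V] : Function.Injective S.sc := by
  intro a b h
  obtain ⟨v, hv⟩ := exists_ne (0 : V)
  have : (a.1 : F) • v = (b.1 : F) • v := by rw [← sc_apply, h, sc_apply]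
  exact Subtype.ext (Units.ext (smul_left_injective F hv this))

theorem detU_sc (z : D.mu) : S.detU (S.sc z) = z.1 ^ finrank F V := by
  refine Units.ext ?_
  have : ((S.sc z).1 : V →ₗ[F] V) = (z.1 : F) • LinearMap.id := rfl
  rw [detU, MonoidHom.comp_apply, LinearEquiv.coe_det, Subgroup.coe_subtype, this,
    LinearMap.det_smul]
  simp

/-- The reflection with axis `e` and eigenvalue `a`. -/
noncomputable def rf (e : V) (a : D.mu) : S.U := S.rk e (((a.1 : F) - 1) / S.B e e)

variable {S}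

theorem admR_rf {e : V} (he : S.B e e ≠ 0) (a : D.mu) :
    S.AdmR e (((a.1 : F) - 1) / S.B e e) := by
  have := D.mu_norm a
  simp only [AdmR, map_div₀, map_sub, map_one, σ_B]
  field_simp
  linear_combination this

theorem rf_self {e : V} (he : S.B e e ≠ 0) (a : D.mu) : (S.rf e a).1 e = (a.1 : F) • e := by
  rw [rf, rk_apply (admR_rf he a), div_mul_cancel₀ _ he]
  module

theorem rf_perp {e w : V} (hw : S.B w e = 0) (a : D.mu) : (S.rf e a).1 w = w := by
  exact mem_PS_perp.1 (rk_mem_PS _ _) w (mem_perp_one.2 hw)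

theorem rf_mem (e : V) (a : D.mu) : S.rf e a ∈ S.PS (span F {e}) := rk_mem_PS _ _

theorem detU_rf {e : V} (he : S.B e e ≠ 0) (a : D.mu) : S.detU (S.rf e a) = a.1 := by
  refine Units.ext ?_
  rw [rf, detU_rk S (admR_rf he a), div_mul_cancel₀ _ he, add_sub_cancel]

/-- The reflection group with axis `e` is the group of norm one elements. -/
theorem exists_rfEquiv {e : V} (he : S.B e e ≠ 0) :
    ∃ φ : D.mu ≃* S.PS (span F {e}), ∀ a, (φ a).1 = S.rf e a := by
  have he0 : e ≠ 0 := by rintro rfl; simp at he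
  have hext : ∀ g g' : S.U, g ∈ S.PS (span F {e}) → g' ∈ S.PS (span F {e}) → g.1 e = g'.1 e →
      g = g' := fun g g' hg hg' h => U.ext fun w => by
    have hp : w - (S.B w e / S.B e e) • e ∈ S.perp (span F {e}) :=
      mem_perp_one.2 (by simp [div_mul_cancel₀ _ he])
    have h1 := mem_PS_perp.1 hg _ hp
    have h2 := mem_PS_perp.1 hg' _ hp
    rw [map_sub, map_smul] at h1 h2
    rw [eq_add_of_sub_eq h1, eq_add_of_sub_eq h2, h]
  let f : D.mu →* S.PS (span F {e}) := MonoidHom.mk' (fun a => ⟨S.rf e a, rf_mem e a⟩) fun a b =>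
    Subtype.ext (hext _ _ (rf_mem _ _) (mul_mem (rf_mem _ _) (rf_mem _ _)) (by
      simp [rf_self he, smul_smul, mul_comm]))
  refine ⟨MulEquiv.ofBijective f ⟨fun a b h => ?_, fun g => ?_⟩, fun a => rfl⟩
  · have : S.detU (S.rf e a) = S.detU (S.rf e b) := congrArg (fun x => S.detU x.1) h
    rw [detU_rf he, detU_rf he] at this
    exact Subtype.ext this
  · obtain ⟨c, hc⟩ := mem_span_singleton.1 (g.2 e)
    have h1 : g.1.1 e = (1 + c) • e := by rw [add_smul, hc, one_smul, add_sub_cancel]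
    have h2 := U.iso g.1 e e
    simp only [h1, map_smul, map_smulₛₗ, LinearMap.smul_apply, smul_eq_mul] at h2
    obtain ⟨a, ha⟩ := D.exists_mu (c := 1 + c) (mul_right_cancel₀ he (by linear_combination h2))
    exact ⟨a, Subtype.ext (hext _ _ (rf_mem _ _) g.2 (by
      change (S.rf e a).1 e = _
      rw [rf_self he, ha, h1]))⟩

theorem finrank_ker_sub1_rf {e : V} (he : S.B e e ≠ 0) {a : D.mu} (ha : a ≠ 1) :
    finrank F (LinearMap.ker (S.sub1 (S.rf e a))) + 1 = finrank F V := by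
  have he0 : e ≠ 0 := by rintro rfl; simp at he
  have ha' : (a.1 : F) - 1 ≠ 0 := fun h => ha (Subtype.ext (Units.ext (sub_eq_zero.1 h)))
  have : LinearMap.ker (S.sub1 (S.rf e a)) = S.perp (span F {e}) := by
    ext w
    rw [LinearMap.mem_ker, sub1_apply, rf, rk_apply (admR_rf he a), add_sub_cancel_left,
      mem_perp_one]
    simp [he0, he, ha']
  rw [this, ← S.finrank_perp (span F {e}), finrank_span_singleton he0]

variable (S)

/-- The subgroup generated by all Eichler maps. -/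
def NN : Subgroup S.U := Subgroup.closure {g | ∃ x u μ, g = S.eich x u μ}

theorem eich_mem_NN (x u : V) (μ : F) : S.eich x u μ ∈ S.NN :=
  Subgroup.subset_closure ⟨x, u, μ, rfl⟩

instance NN_normal : S.NN.Normal := by
  refine ⟨fun n hn g => ?_⟩
  have : S.NN ≤ S.NN.comap (MulAut.conj g).toMonoidHom := (Subgroup.closure_le _).2 (by
    rintro _ ⟨x, u, μ, rfl⟩
    change g * _ * g⁻¹ ∈ S.NN
    rw [eich_conj]
    exact S.eich_mem_NN _ _ _)
  exact this hn

/-- `I` is a maximal totally isotropic subspace of `e^⊥`, and `dim V` is odd. -/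
structure MaxIso (e : V) (I : Submodule F V) : Prop where
  aniso : S.B e e ≠ 0
  perp_eq : S.perp I = I ⊔ span F {e}

/-- The Weil character. -/
noncomputable def om (g : S.U) : ℂ :=
  (-1) ^ finrank F V * (-(D.q : ℂ)) ^ finrank F (LinearMap.ker (S.sub1 g))

end HS

end Cfsg.Hst

set_option linter.all false in
theorem Cfsg.Rz.Hst_Basic_0 : True := by
  have := @_root_.Cfsg.Hst.HS.NN.congr_simp.{0, 0}
  have := @_root_.Cfsg.Hst.HS.NN.eq_def.{0, 0}
  have := @_root_.Cfsg.Hst.HS.NN.eq_1.{0, 0}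
  have := @_root_.Cfsg.Hst.HS.NN.fun_cases
  have := @_root_.Cfsg.Hst.HS.sub1.eq_def.{0, 0}
  have := @_root_.Cfsg.Hst.HS.sub1.eq_1.{0, 0}
  have := @_root_.Cfsg.Hst.HS.sub1.fun_cases
  have := @_root_.Cfsg.Hst.HS.rk.congr_simp.{0, 0}
  have := @_root_.Cfsg.Hst.HS.rk.eq_def.{0, 0}
  have := @_root_.Cfsg.Hst.HS.rk.fun_cases.{0, 0}
  have := @_root_.Cfsg.Hst.FD.Form.eq_def.{0, 0}
  have := @_root_.Cfsg.Hst.FD.Form.eq_1.{0, 0}
  have := @_root_.Cfsg.Hst.FD.Form.fun_cases
  have := @_root_.Cfsg.Hst.HS.eich.congr_simp.{0, 0}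
  have := @_root_.Cfsg.Hst.HS.eich.eq_def.{0, 0}
  have := @_root_.Cfsg.Hst.HS.eich.fun_cases.{0, 0}
  have := @_root_.Cfsg.Hst.HS.detU.eq_def.{0, 0}
  have := @_root_.Cfsg.Hst.HS.detU.eq_1.{0, 0}
  have := @_root_.Cfsg.Hst.HS.detU.fun_cases
  have := @_root_.Cfsg.Hst.HS.perp.eq_def.{0, 0}
  have := @_root_.Cfsg.Hst.HS.perp.eq_1.{0, 0}
  have := @_root_.Cfsg.Hst.HS.perp.fun_cases
  have := @_root_.Cfsg.Hst.HS.res.congr_simp.{0, 0}
  have := @_root_.Cfsg.Hst.HS.res.eq_def.{0, 0}
  have := @_root_.Cfsg.Hst.HS.res.eq_1.{0, 0}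
  have := @_root_.Cfsg.Hst.HS.res.fun_cases
  have := @_root_.Cfsg.Hst.HS.QI.congr_simp.{0, 0}
  have := @_root_.Cfsg.Hst.HS.QI.eq_def.{0, 0}
  have := @_root_.Cfsg.Hst.HS.QI.eq_1.{0, 0}
  have := @_root_.Cfsg.Hst.HS.QI.fun_cases
  trivial

set_option linter.all false in
theorem Cfsg.Rz.Hst_Basic_1 : True := by
  have := @_root_.Cfsg.Hst.HS.rf.congr_simp.{0, 0}
  have := @_root_.Cfsg.Hst.HS.rf.eq_def.{0, 0}
  have := @_root_.Cfsg.Hst.HS.rf.eq_1.{0, 0}
  have := @_root_.Cfsg.Hst.HS.rf.fun_cases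
  have := @_root_.Cfsg.Hst.HS.rkL.eq_def.{0, 0}
  have := @_root_.Cfsg.Hst.HS.rkL.eq_1.{0, 0}
  have := @_root_.Cfsg.Hst.HS.rkL.fun_cases
  have := @_root_.Cfsg.Hst.HS.Adm.eq_def.{0, 0}
  have := @_root_.Cfsg.Hst.HS.Adm.eq_1.{0, 0}
  have := @_root_.Cfsg.Hst.HS.Adm.fun_cases
  have := @_root_.Cfsg.Hst.HS.AdmR.eq_def.{0, 0}
  have := @_root_.Cfsg.Hst.HS.AdmR.eq_1.{0, 0}
  have := @_root_.Cfsg.Hst.HS.AdmR.fun_cases
  have := @_root_.Cfsg.Hst.HS.MaxIso.mk.congr_simp.{0, 0}
  have := @_root_.Cfsg.Hst.HS.om.eq_def.{0, 0}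
  have := @_root_.Cfsg.Hst.HS.om.eq_1.{0, 0}
  have := @_root_.Cfsg.Hst.HS.om.fun_cases
  have := @_root_.Cfsg.Hst.HS.PS.congr_simp.{0, 0}
  have := @_root_.Cfsg.Hst.HS.PS.eq_def.{0, 0}
  have := @_root_.Cfsg.Hst.HS.PS.eq_1.{0, 0}
  have := @_root_.Cfsg.Hst.HS.PS.fun_cases
  have := @_root_.Cfsg.Hst.HS.U.eq_def.{0, 0}
  have := @_root_.Cfsg.Hst.HS.U.eq_1.{0, 0}
  have := @_root_.Cfsg.Hst.HS.U.fun_cases
  have := @_root_.Cfsg.Hst.HS.mk.congr_simp.{0, 0}
  have := @_root_.Cfsg.Hst.FD.IsHerm.eq_def.{0, 0}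
  have := @_root_.Cfsg.Hst.FD.IsHerm.eq_1.{0, 0}
  have := @_root_.Cfsg.Hst.FD.IsHerm.fun_cases
  have := @_root_.Cfsg.Hst.HS.eichL.eq_def.{0, 0}
  have := @_root_.Cfsg.Hst.HS.eichL.eq_1.{0, 0}
  trivial

set_option linter.all false in
theorem Cfsg.Rz.Hst_Basic_2 : True := by
  have := @_root_.Cfsg.Hst.HS.eichL.fun_cases
  have := @_root_.Cfsg.Hst.FD.mu.eq_def.{0}
  have := @_root_.Cfsg.Hst.FD.mu.eq_1.{0}
  have := @_root_.Cfsg.Hst.FD.mu.fun_cases
  have := @_root_.Cfsg.Hst.HS.sc.eq_def.{0, 0}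
  have := @_root_.Cfsg.Hst.HS.sc.eq_1.{0, 0}
  have := @_root_.Cfsg.Hst.HS.sc.fun_cases
  have := @_root_.Cfsg.Hst.HS.mkU.eq_def.{0, 0}
  have := @_root_.Cfsg.Hst.HS.mkU.eq_1.{0, 0}
  have := @_root_.Cfsg.Hst.HS.mkU.fun_cases
  have := @_root_.Cfsg.Hst.FD.mk.congr_simp.{0}
  trivial
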