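import Cfsg.Agent.Char.Abelian
import Cfsg.Agent.Char.Eigen
import Cfsg.Agent.Char.MatRep

/-!
# Fixed spaces, eigenspaces and regular orbits (S4793 project; pure representation theory)
-/

set_option autoImplicit false
set_option linter.unusedSectionVars false
set_option linter.unusedVariables false
set_option linter.style.haveILetI false

namespace Cfsg.Hst

open Module

universe u w

variable {G : Type u} [Group G] [Finite G] {W : Type w} [AddCommGroup W] [Module ℂ W]
  [FiniteDimensional ℂ W]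

/-- The fixed space of a subgroup. -/
def fixS (ρ : Representation ℂ G W) (H : Subgroup G) : Submodule ℂ W where
  carrier := {w | ∀ h ∈ H, ρ h w = w}
  add_mem' {a b} ha hb h hh := by rw [map_add, ha h hh, hb h hh]
  zero_mem' h hh := map_zero _
  smul_mem' c w hw h hh := by rw [map_smul, hw h hh]

/-- The eigenspace of a linear character of a subgroup. -/
def eigS (ρ : Representation ℂ G W) (A : Subgroup G) (lam : A →* ℂˣ) : Submodule ℂ W where
  carrier := {w | ∀ a : A, ρ a w = (lam a : ℂ) • w}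
  add_mem' {a b} ha hb h := by rw [map_add, ha h, hb h, smul_add]
  zero_mem' h := by simp
  smul_mem' c w hw h := by rw [map_smul, hw h, smul_comm]

/-- The multiplicity of the trivial character in the restriction to `H`. -/
noncomputable def fd (χ : G → ℂ) (H : Subgroup G) : ℂ := ip (fun h : H => χ h) (fun _ => 1)

variable {ρ : Representation ℂ G W}

theorem mem_fixS {H : Subgroup G} {w : W} : w ∈ fixS ρ H ↔ ∀ h ∈ H, ρ h w = w := Iff.rfl

theorem mem_eigS {A : Subgroup G} {lam : A →* ℂˣ} {w : W} :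
    w ∈ eigS ρ A lam ↔ ∀ a : A, ρ a w = (lam a : ℂ) • w := Iff.rfl

theorem eigS_one (A : Subgroup G) : eigS ρ A 1 = fixS ρ A := by
  ext w
  simp [mem_eigS, mem_fixS]

theorem fixS_anti {H K : Subgroup G} (h : H ≤ K) : fixS ρ K ≤ fixS ρ H :=
  fun w hw g hg => hw g (h hg)

/-- The elements fixing a subspace pointwise. -/
def stabS (ρ : Representation ℂ G W) (Y : Submodule ℂ W) : Subgroup G where
  carrier := {g | ∀ y ∈ Y, ρ g y = y}
  mul_mem' {a b} ha hb y hy := by rw [map_mul, Module.End.mul_apply, hb y hy, ha y hy]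
  one_mem' y hy := by simp
  inv_mem' {a} ha y hy := by
    conv_lhs => rw [← ha y hy, ← Module.End.mul_apply, ← map_mul, inv_mul_cancel, map_one]
    rfl

theorem le_stabS_iff {Y : Submodule ℂ W} {H : Subgroup G} : H ≤ stabS ρ Y ↔ Y ≤ fixS ρ H :=
  ⟨fun h y hy g hg => h hg y hy, fun h g hg y hy => h hy g hg⟩

section prj

variable {A : Type*} [Group A] [Fintype A]

/-- The projector onto the `lam`-eigenspace. -/
noncomputable def prj (σ : Representation ℂ A W) (lam : A →* ℂˣ) : End ℂ W :=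
  (Nat.card A : ℂ)⁻¹ • ∑ a, (((lam a)⁻¹ : ℂˣ) : ℂ) • σ a

variable (σ : Representation ℂ A W) (lam : A →* ℂˣ)

theorem prj_apply (w : W) :
    prj σ lam w = (Nat.card A : ℂ)⁻¹ • ∑ a, (((lam a)⁻¹ : ℂˣ) : ℂ) • σ a w := by
  simp [prj, LinearMap.sum_apply]

theorem mul_prj (b : A) : σ b * prj σ lam = (lam b : ℂ) • prj σ lam := by
  rw [prj, mul_smul_comm, smul_comm (lam b : ℂ)]
  congr 1
  rw [Finset.mul_sum, Finset.smul_sum,
    ← Equiv.sum_comp (Equiv.mulLeft b) (fun a => (lam b : ℂ) • (((lam a)⁻¹ : ℂˣ) : ℂ) • σ a)]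
  refine Finset.sum_congr rfl fun a _ => ?_
  rw [Equiv.coe_mulLeft, map_mul, map_mul, mul_smul_comm, smul_smul, ← Units.val_mul, mul_inv,
    mul_inv_cancel_left]

theorem prj_of_eig {mu : A →* ℂˣ} {w : W} (hw : ∀ a, σ a w = (mu a : ℂ) • w) [Decidable (mu = lam)] :
    prj σ lam w = if mu = lam then w else 0 := by
  rw [prj_apply]
  simp only [hw, smul_smul, ← Finset.sum_smul]
  split_ifs with h
  · subst h
    simp [← Nat.card_eq_fintype_card]
  · have := sum_linear_apply_eq_zero (lam := lam⁻¹ * mu) fun e => h (inv_mul_eq_one.1 e).symm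
    simp only [MonoidHom.mul_apply, MonoidHom.inv_apply, Units.val_mul] at this
    rw [this, mul_zero, zero_smul]

theorem prj_idem : prj σ lam * prj σ lam = prj σ lam := by
  classical
  refine LinearMap.ext fun w => ?_
  rw [Module.End.mul_apply, prj_of_eig σ lam (mu := lam) fun a => by
    rw [← Module.End.mul_apply, mul_prj, LinearMap.smul_apply], if_pos rfl]

theorem trace_prj : LinearMap.trace ℂ W (prj σ lam) = ip σ.character fun a => (lam a : ℂ) := by
  rw [prj, map_smul, map_sum, ip_def, smul_eq_mul]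
  congr 1
  refine Finset.sum_congr rfl fun a _ => ?_
  rw [map_smul, smul_eq_mul, linear_conj_apply, Units.val_inv_eq_inv_val, mul_comm]
  rfl

theorem sum_prj (hA : ∀ a b : A, a * b = b * a) [Fintype (A →* ℂˣ)] : ∑ lam, prj σ lam = 1 := by
  classical
  haveI : IsMulCommutative A := ⟨⟨hA⟩⟩
  obtain ⟨b, f, hb⟩ := rep_exists_eigenbasis_of_comm σ
  refine b.ext fun i => ?_
  rw [LinearMap.sum_apply]
  simp [prj_of_eig σ _ (hb i)]

end prj

theorem ip_eq_finrank_eigS (ρ : Representation ℂ G W) (A : Subgroup G) (lam : A →* ℂˣ) :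
    ip (fun a : A => ρ.character a) (fun a => (lam a : ℂ)) = finrank ℂ (eigS ρ A lam) := by
  classical
  haveI := Fintype.ofFinite A
  have : LinearMap.IsProj (eigS ρ A lam) (prj (ρ.comp A.subtype) lam) :=
    ⟨fun w a => by
      rw [← LinearMap.smul_apply, ← mul_prj]; rfl,
    fun w hw => by rw [prj_of_eig (ρ.comp A.subtype) lam (mu := lam) hw, if_pos rfl]⟩
  rw [← this.trace, trace_prj]
  rfl

theorem iSupIndep_eigS (ρ : Representation ℂ G W) (A : Subgroup G) : iSupIndep (eigS ρ A) := by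
  classical
  haveI := Fintype.ofFinite A
  refine iSupIndep_def.2 fun lam => Submodule.disjoint_def.2 fun w h1 h2 => ?_
  have : (⨆ mu, ⨆ (_ : mu ≠ lam), eigS ρ A mu) ≤ LinearMap.ker (prj (ρ.comp A.subtype) lam) :=
    iSup₂_le fun mu hmu v hv => by
      rw [LinearMap.mem_ker, prj_of_eig (ρ.comp A.subtype) lam (mu := mu) hv, if_neg hmu]
  have h3 := this h2
  rwa [LinearMap.mem_ker, prj_of_eig (ρ.comp A.subtype) lam (mu := lam) h1, if_pos rfl] at h3

theorem exists_lam_of_eig {A : Type*} [Group A] (σ : Representation ℂ A W) {w : W} (hw : w ≠ 0)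
    (h : ∀ a, ∃ c : ℂ, σ a w = c • w) : ∃ lam : A →* ℂˣ, ∀ a, σ a w = (lam a : ℂ) • w := by
  choose c hc using h
  have hm : ∀ a b, c (a * b) = c a * c b := fun a b => smul_left_injective ℂ hw (by
    simp only []
    rw [← hc, map_mul, Module.End.mul_apply, hc, map_smul, hc, smul_smul, mul_comm])
  have h1 : c 1 = 1 := smul_left_injective ℂ hw (by simp only []; rw [← hc]; simp)
  exact ⟨MonoidHom.toHomUnits ⟨⟨c, h1⟩, hm⟩, hc⟩

theorem fd_def (χ : G → ℂ) (H : Subgroup G) [Fintype H] :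
    fd χ H = (Nat.card H : ℂ)⁻¹ * ∑ h : H, χ h := by
  simp [fd, ip_def]

theorem fd_character (ρ : Representation ℂ G W) (H : Subgroup G) :
    fd ρ.character H = finrank ℂ (fixS ρ H) := by
  rw [← eigS_one, ← ip_eq_finrank_eigS]
  rfl

theorem fd_character_eq_zero {H : Subgroup G} : fd ρ.character H = 0 ↔ fixS ρ H = ⊥ := by
  rw [fd_character, Nat.cast_eq_zero, Submodule.finrank_eq_zero]

theorem fd_bot (χ : G → ℂ) : fd χ ⊥ = χ 1 := by
  rw [fd_def, Fintype.sum_unique, show (default : (⊥ : Subgroup G)) = 1 from Subsingleton.elim _ _]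
  simp

theorem fd_conj {χ : G → ℂ} (hχ : IsClassFunction G χ) {H K : Subgroup G} (g : G)
    (h1 : ∀ a ∈ H, g * a * g⁻¹ ∈ K) (h2 : ∀ a ∈ K, g⁻¹ * a * g ∈ H) : fd χ H = fd χ K := by
  haveI := Fintype.ofFinite H
  haveI := Fintype.ofFinite K
  let e : H ≃ K :=
    { toFun := fun a => ⟨_, h1 a a.2⟩
      invFun := fun a => ⟨_, h2 a a.2⟩
      left_inv := fun a => Subtype.ext (by simp [mul_assoc])
      right_inv := fun a => Subtype.ext (by simp [mul_assoc]) }
  rw [fd_def, fd_def, Nat.card_congr e, ← Equiv.sum_comp e]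
  congr 1
  exact Finset.sum_congr rfl fun a _ => (hχ a g).symm

theorem fd_eq_zero_of_le {χ : G → ℂ} (hχ : IsCharacter G χ) {H K : Subgroup G} (h : H ≤ K)
    (h0 : fd χ H = 0) : fd χ K = 0 := by
  obtain ⟨n, ρ, rfl⟩ := hχ
  rw [fd_character_eq_zero] at h0 ⊢
  exact eq_bot_iff.2 (h0 ▸ fixS_anti h)

theorem exists_fd_eq_nat {χ : G → ℂ} (hχ : IsCharacter G χ) (H : Subgroup G) :
    ∃ n : ℕ, fd χ H = n :=
  (hχ.comp H.subtype).exists_ip_eq_nat IsCharacter.one

theorem fd_eq_zero_of_constituent {χ : G → ℂ} (hχ : IsCharacter G χ) (ψ : IrrCharacter G)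
    (h : ip χ ψ.1 ≠ 0) {H : Subgroup G} (h0 : fd χ H = 0) : fd ψ.1 H = 0 := by
  obtain ⟨a, ha⟩ := exists_fd_eq_nat (hχ.sub_irr ψ h) H
  obtain ⟨b, hb⟩ := exists_fd_eq_nat ψ.isCharacter H
  have : fd (χ - ψ.1) H = fd χ H - fd ψ.1 H := ip_sub_left _ _ _
  rw [ha, hb, h0, zero_sub, eq_neg_iff_add_eq_zero, ← Nat.cast_add, Nat.cast_eq_zero] at this
  rw [hb, show b = 0 by omega, Nat.cast_zero]

theorem fd_twist (ρ : Representation ℂ G W) (φ : G →* ℂˣ) (M : Subgroup G) :
    fd ((fun g => ((φ⁻¹ : G →* ℂˣ) g : ℂ)) * ρ.character) M =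
      finrank ℂ (eigS ρ M (φ.comp M.subtype)) := by
  haveI := Fintype.ofFinite M
  rw [← ip_eq_finrank_eigS, fd_def, ip_def]
  congr 1
  refine Finset.sum_congr rfl fun a _ => ?_
  rw [linear_conj_apply, Pi.mul_apply, mul_comm]
  simp

theorem fd_linear_eq_zero (φ : G →* ℂˣ) {H : Subgroup G} {a : G} (ha : a ∈ H) (h : φ a ≠ 1) :
    fd (fun g => (φ g : ℂ)) H = 0 := by
  haveI := Fintype.ofFinite H
  have := sum_linear_apply_eq_zero (lam := φ.comp H.subtype) fun e =>
    h (DFunLike.congr_fun e ⟨a, ha⟩)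
  rw [fd_def]
  exact mul_eq_zero_of_right _ this

theorem fd_linear_eq_one (φ : G →* ℂˣ) {H : Subgroup G} (h : ∀ a ∈ H, φ a = 1) :
    fd (fun g => (φ g : ℂ)) H = 1 := by
  haveI := Fintype.ofFinite H
  rw [fd_def, Finset.sum_congr rfl fun a _ => by rw [h a a.2]]
  simp [← Nat.card_eq_fintype_card]

/-- A subgroup acting commutatively on an invariant subspace has a common eigenvector outside any
proper subspace (`exists_eigenbasis_of_commute` for the restrictions to `Y`). -/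
theorem exists_eig (A : Subgroup G) {Y Y' : Submodule ℂ W} (hinv : ∀ a ∈ A, ∀ y ∈ Y, ρ a y ∈ Y)
    (hcomm : ∀ a ∈ A, ∀ b ∈ A, ∀ y ∈ Y, ρ a (ρ b y) = ρ b (ρ a y)) (hne : ¬ Y ≤ Y') :
    ∃ lam : A →* ℂˣ, ∃ w ∈ Y, w ∉ Y' ∧ w ∈ eigS ρ A lam := by
  let T : A → End ℂ Y := fun a => (ρ a).restrict (hinv a a.2)
  obtain ⟨b, ε, hb⟩ := exists_eigenbasis_of_commute T
    (fun a a' => LinearMap.ext fun y => Subtype.ext (hcomm a a.2 a' a'.2 y y.2))
    (fun a => ⟨orderOf a.1, (orderOf_pos _).ne', by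
      rw [Module.End.pow_restrict]
      exact LinearMap.ext fun y => Subtype.ext (by
        rw [LinearMap.restrict_coe_apply, rep_pow_orderOf]; rfl)⟩)
  obtain ⟨j, hj⟩ : ∃ j, (b j : W) ∉ Y' := by
    by_contra h
    push Not at h
    refine hne fun y hy => ?_
    have := congrArg Y.subtype (b.sum_repr ⟨y, hy⟩)
    rw [map_sum] at this
    rw [← show _ = y from this]
    exact Y'.sum_mem fun j _ => by rw [map_smul]; exact Y'.smul_mem _ (h j)
  obtain ⟨lam, hl⟩ := exists_lam_of_eig (ρ.comp A.subtype) (w := b j)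
    (fun e => hj (e ▸ Y'.zero_mem)) fun a => ⟨ε j a, congrArg Subtype.val (hb j a)⟩
  exact ⟨lam, b j, (b j).2, hj, hl⟩

/-- The conjugate of a linear character. -/
def cjl {A T : Subgroup G} (hn : ∀ t ∈ T, ∀ a ∈ A, t⁻¹ * a * t ∈ A) (lam : A →* ℂˣ) (t : T) :
    A →* ℂˣ :=
  MonoidHom.mk' (fun a => lam ⟨t.1⁻¹ * a * t, hn t t.2 a a.2⟩) fun a b => by
    rw [← map_mul]
    congr 1
    exact Subtype.ext (by simp [mul_assoc])

theorem mem_eigS_cjl {A T : Subgroup G} (hn : ∀ t ∈ T, ∀ a ∈ A, t⁻¹ * a * t ∈ A) (lam : A →* ℂˣ)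
    {w : W} (hw : w ∈ eigS ρ A lam) (t : T) : ρ t w ∈ eigS ρ A (cjl hn lam t) := fun a => by
  have := congrArg (ρ t) (hw ⟨t.1⁻¹ * a * t, hn t t.2 a a.2⟩)
  rw [← Module.End.mul_apply, ← map_mul, ← mul_assoc, mul_inv_cancel_left, map_mul, map_smul] at this
  exact this

/-- Regular orbit lemma: `∑_{t ∈ T} ρ t w ≠ 0` (apply `∑_a conj (lam a) ρ a`). -/
theorem orbit_fixed {A T : Subgroup G} (hn : ∀ t ∈ T, ∀ a ∈ A, t⁻¹ * a * t ∈ A) (lam : A →* ℂˣ)
    {w : W} (hw0 : w ≠ 0) (hw : w ∈ eigS ρ A lam)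
    (hst : ∀ t (ht : t ∈ T), (∀ a : A, lam ⟨t⁻¹ * a * t, hn t ht a a.2⟩ = lam a) → ρ t w = w) :
    fixS ρ T ≠ ⊥ := by
  classical
  haveI := Fintype.ofFinite A
  haveI := Fintype.ofFinite T
  intro h
  have h1 : ∑ t : T, ρ t w ∈ fixS ρ T := fun s hs => by
    rw [map_sum, ← Equiv.sum_comp (Equiv.mulLeft (⟨s, hs⟩ : T)) (fun t : T => ρ t w)]
    exact Finset.sum_congr rfl fun t _ => by simp
  rw [h, Submodule.mem_bot] at h1
  have h2 := congrArg (prj (ρ.comp A.subtype) lam) h1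
  rw [map_sum, map_zero, Finset.sum_congr rfl fun t _ =>
    prj_of_eig (ρ.comp A.subtype) lam (mu := cjl hn lam t) (mem_eigS_cjl hn lam hw t), Finset.sum_congr rfl
      (g := fun t => if cjl hn lam t = lam then w else 0) fun t _ => by
        split_ifs with e
        · exact hst t t.2 fun a => DFunLike.congr_fun e a
        · rfl, ← Finset.sum_filter, Finset.sum_const, ← Nat.cast_smul_eq_nsmul ℂ, smul_eq_zero,
    Nat.cast_eq_zero, Finset.card_eq_zero] at h2
  refine hw0 (h2.resolve_left (Finset.ne_empty_of_mem (a := 1) ?_))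
  rw [Finset.mem_filter]
  exact ⟨Finset.mem_univ _, MonoidHom.ext fun a => by simp [cjl]⟩

/-- Eigenvectors for the distinct conjugates of `lam` are linearly independent. -/
theorem orbit_dim {A T T₀ : Subgroup G} (hn : ∀ t ∈ T, ∀ a ∈ A, t⁻¹ * a * t ∈ A) (lam : A →* ℂˣ)
    {Y : Submodule ℂ W} (hY : ∀ t ∈ T, ∀ y ∈ Y, ρ t y ∈ Y)
    {w : W} (hwY : w ∈ Y) (hw0 : w ≠ 0) (hw : w ∈ eigS ρ A lam)
    (hst : ∀ t (ht : t ∈ T), (∀ a : A, lam ⟨t⁻¹ * a * t, hn t ht a a.2⟩ = lam a) → t ∈ T₀) :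
    Nat.card T ≤ Nat.card T₀ * finrank ℂ Y := by
  classical
  haveI := Fintype.ofFinite T
  haveI := Fintype.ofFinite T₀
  let I := Finset.univ.image (cjl hn lam)
  have h1 : I.card ≤ finrank ℂ Y := by
    have hs : ∀ μ : I, ∃ t, cjl hn lam t = μ := fun μ => by
      obtain ⟨t, -, ht⟩ := Finset.mem_image.1 μ.2
      exact ⟨t, ht⟩
    choose t ht using hs
    have hl : LinearIndependent ℂ fun μ : I => ρ (t μ) w :=
      ((iSupIndep_eigS ρ A).comp Subtype.val_injective).linearIndependent _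
        (fun μ => by rw [Function.comp_apply, ← ht]; exact mem_eigS_cjl hn lam hw _)
        (fun μ e => hw0 (by
          have := congrArg (ρ (t μ).1⁻¹) e
          rwa [← Module.End.mul_apply, ← map_mul, inv_mul_cancel, map_one, map_zero] at this))
    have hl' : LinearIndependent ℂ fun μ : I => (⟨ρ (t μ) w, hY _ (t μ).2 w hwY⟩ : Y) :=
      LinearIndependent.of_comp Y.subtype hl
    simpa using hl'.fintype_card_le_finrank
  have h2 := Finset.card_le_mul_card_image (f := cjl hn lam) Finset.univ (Fintype.card T₀) (by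
    intro μ hμ
    obtain ⟨t', -, rfl⟩ := Finset.mem_image.1 hμ
    rw [← Finset.card_univ]
    refine Finset.card_le_card_of_injOn (fun t => if h : t'.1⁻¹ * t.1 ∈ T₀ then ⟨_, h⟩ else 1)
      (fun _ _ => Finset.mem_coe.2 (Finset.mem_univ _)) ?_
    have key : ∀ t : T, cjl hn lam t = cjl hn lam t' → t'.1⁻¹ * t.1 ∈ T₀ := fun t e => by
      refine hst _ (mul_mem (inv_mem t'.2) t.2) fun a => ?_
      have := DFunLike.congr_fun e ⟨_, hn _ (inv_mem t'.2) a a.2⟩
      simpa [cjl, mul_assoc] using this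
    intro t ht s hs e
    simp only [Finset.coe_filter, Finset.mem_univ, true_and, Set.mem_setOf_eq] at ht hs
    simp only [dif_pos (key t ht), dif_pos (key s hs), Subtype.mk.injEq, mul_right_inj] at e
    exact Subtype.ext e)
  rw [Nat.card_eq_fintype_card, Nat.card_eq_fintype_card]
  exact h2.trans (Nat.mul_le_mul_left _ h1)

theorem card_mul_le_finrank (M : Subgroup G) {c k : ℕ}
    (h : ∀ κ : M →* ℂˣ, c ≤ k * finrank ℂ (eigS ρ M κ)) :
    Nat.card (M →* ℂˣ) * c ≤ k * finrank ℂ W := by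
  classical
  haveI := Fintype.ofFinite (M →* ℂˣ)
  have h1 := LinearMap.finrank_le_finrank_of_injective
    (iSupIndep_eigS ρ M).dfinsupp_lsum_injective
  rw [show finrank ℂ (Π₀ i, eigS ρ M i) = _ from finrank_directSum ℂ fun i => eigS ρ M i] at h1
  refine le_trans ?_ (Nat.mul_le_mul_left k h1)
  rw [Finset.mul_sum, Nat.card_eq_fintype_card, ← Finset.card_univ, ← smul_eq_mul,
    ← Finset.sum_const]
  exact Finset.sum_le_sum fun κ _ => h κ

/-- An eigenbasis for a commutative subgroup computes the fixed spaces of all its subgroups. -/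
theorem exists_eigen_decomp (ρ : Representation ℂ G W) (A : Subgroup G)
    (hA : ∀ a ∈ A, ∀ b ∈ A, a * b = b * a) :
    ∃ lam : Fin (finrank ℂ W) → (A →* ℂˣ), (∀ i, ∃ w, w ≠ 0 ∧ w ∈ eigS ρ A (lam i)) ∧
      ∀ H ≤ A, finrank ℂ (fixS ρ H) = Nat.card {i // ∀ a : A, a.1 ∈ H → lam i a = 1} := by
  classical
  haveI : IsMulCommutative A := ⟨⟨fun a b => Subtype.ext (hA a a.2 b b.2)⟩⟩
  obtain ⟨b, f, hb⟩ := rep_exists_eigenbasis_of_comm (ρ.comp A.subtype)
  refine ⟨f, fun i => ⟨b i, b.ne_zero i, hb i⟩, fun H hH => ?_⟩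
  haveI := Fintype.ofFinite H
  rw [← Nat.cast_inj (R := ℂ), ← fd_character, fd_def, Finset.sum_congr rfl fun (h : H) _ =>
    show ρ.character h = _ from
      trace_eq_sum_of_eigenbasis b (T := ρ h) fun i => hb i ⟨h, hH h.2⟩, Finset.sum_comm,
    Finset.mul_sum, Nat.card_eq_fintype_card (α := {i // ∀ a : A, a.1 ∈ H → f i a = 1}),
    Fintype.card_subtype, Finset.card_filter, Nat.cast_sum]
  refine Finset.sum_congr rfl fun i _ => ?_
  split_ifs with h
  · rw [Finset.sum_congr rfl fun a _ => by rw [h ⟨a, hH a.2⟩ a.2]]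
    simp [← Nat.card_eq_fintype_card]
  · have := sum_linear_apply_eq_zero (lam := (f i).comp (Subgroup.inclusion hH)) fun e =>
      h fun a ha => DFunLike.congr_fun e ⟨a, ha⟩
    rw [Nat.cast_zero]
    exact mul_eq_zero_of_right _ this

theorem fixS_eq_top_of_normal (hρ : ρ.IsIrreducible) (N : Subgroup G) [N.Normal]
    (h : fixS ρ N ≠ ⊥) : fixS ρ N = ⊤ := by
  refine (((rep_isIrreducible_iff ρ).1 hρ).2 (fixS ρ N) fun g v hv n hn => ?_).resolve_left h
  have := congrArg (ρ g) (hv _ (Subgroup.Normal.conj_mem' inferInstance n hn g))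
  rwa [← Module.End.mul_apply, ← map_mul, ← mul_assoc, mul_inv_cancel_left, map_mul] at this

/-- An invariant line in an irreducible representation. -/
theorem exists_linear_of_line (hρ : ρ.IsIrreducible) {w : W} (hw : w ≠ 0)
    (h : ∀ g, ∃ c : ℂ, ρ g w = c • w) :
    ∃ φ : G →* ℂˣ, (ρ.character = fun g => (φ g : ℂ)) ∧ ∀ g, ρ g w = (φ g : ℂ) • w := by
  obtain ⟨φ, hφ⟩ := exists_lam_of_eig ρ hw h
  have h1 : Submodule.span ℂ {w} = ⊤ :=
    (((rep_isIrreducible_iff ρ).1 hρ).2 _ fun g v hv => by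
      obtain ⟨c, rfl⟩ := Submodule.mem_span_singleton.1 hv
      rw [map_smul, hφ]
      exact Submodule.smul_mem _ _ (Submodule.smul_mem _ _ (Submodule.mem_span_singleton_self w))
      ).resolve_left (by simpa using hw)
  refine ⟨φ, funext fun g => ?_, hφ⟩
  have h2 : ρ g = (φ g : ℂ) • (1 : End ℂ W) := LinearMap.ext fun v => by
    obtain ⟨c, rfl⟩ := Submodule.mem_span_singleton.1 (h1 ▸ Submodule.mem_top : v ∈ _)
    rw [map_smul, hφ, LinearMap.smul_apply, smul_comm]; rfl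
  have h3 : finrank ℂ W = 1 := by rw [← finrank_top, ← h1, finrank_span_singleton hw]
  change LinearMap.trace ℂ W (ρ g) = _
  rw [h2, map_smul, LinearMap.trace_one, h3]
  simp

/-- Moebius argument: if `δ` sums to zero over every down-set of `r`, it is orthogonal to every
function of `r` (induction on `X` for the fibre sums). -/
theorem sum_mul_eq_zero_of_downsets {ι L : Type*} [Fintype ι] [PartialOrder L] [Finite L]
    [DecidableLE L] (r : ι → L) (δ : ι → ℂ)
    (h : ∀ X, ∑ g ∈ Finset.univ.filter (fun g => r g ≤ X), δ g = 0) (f : L → ℂ) :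
    ∑ g, δ g * f (r g) = 0 := by
  classical
  haveI := Fintype.ofFinite L
  have key : ∀ X, ∑ g ∈ Finset.univ.filter (fun g => r g = X), δ g = 0 := by
    intro X
    induction X using WellFoundedLT.induction with
    | ind X ih =>
    have h1 := h X
    rw [← Finset.sum_fiberwise (g := r), Finset.sum_eq_single X] at h1
    · rw [← h1, Finset.filter_filter]
      exact Finset.sum_congr (Finset.filter_congr fun g _ => ⟨fun e => ⟨e.le, e⟩, fun e => e.2⟩)
        fun _ _ => rfl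
    · intro Y _ hY
      rw [Finset.filter_filter]
      by_cases hYX : Y ≤ X
      · rw [← ih Y (lt_of_le_of_ne hYX hY)]
        exact Finset.sum_congr (Finset.filter_congr fun g _ =>
          ⟨fun e => e.2, fun e => ⟨e ▸ hYX, e⟩⟩) fun _ _ => rfl
      · exact Finset.sum_eq_zero fun g hg => by
          obtain ⟨-, h1, rfl⟩ := Finset.mem_filter.1 hg
          exact absurd h1 hYX
    · simp
  rw [← Finset.sum_fiberwise (g := r)]
  refine Finset.sum_eq_zero fun X _ => ?_
  rw [Finset.sum_congr rfl fun g hg => by rw [(Finset.mem_filter.1 hg).2], ← Finset.sum_mul, key,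
    zero_mul]

/-- The constituents of the conjugation character. -/
theorem ip_conj_ne_zero_iff {χ : G → ℂ} (hχ : IsCharacter G χ) :
    ip χ (fun g : G => (Nat.card (Subgroup.centralizer ({g} : Set G)) : ℂ)) ≠ 0 ↔
      ∃ h : G, fd χ (Subgroup.centralizer ({h} : Set G)) ≠ 0 := by
  classical
  haveI := Fintype.ofFinite G
  choose n hn using fun h : G => exists_fd_eq_nat hχ (Subgroup.centralizer ({h} : Set G))
  have key : ∑ g : G, χ g * (starRingEnd ℂ) (Nat.card (Subgroup.centralizer ({g} : Set G)) : ℂ) =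
      ((∑ h : G, Nat.card (Subgroup.centralizer ({h} : Set G)) * n h : ℕ) : ℂ) := by
    have h1 : ∀ g : G, χ g * (starRingEnd ℂ) (Nat.card (Subgroup.centralizer ({g} : Set G)) : ℂ) =
        ∑ h : G, if g * h = h * g then χ g else 0 := fun g => by
      rw [map_natCast, ← Finset.sum_filter, Finset.sum_const, nsmul_eq_mul, mul_comm,
        Nat.card_eq_fintype_card, Fintype.card_subtype]
      congr 3
      ext h
      rw [Finset.mem_filter, Finset.mem_filter, Subgroup.mem_centralizer_singleton_iff, eq_comm]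
    rw [Finset.sum_congr rfl fun g _ => h1 g, Finset.sum_comm, Nat.cast_sum]
    refine Finset.sum_congr rfl fun h _ => ?_
    rw [Nat.cast_mul, ← hn, fd_def, mul_inv_cancel_left₀ (natCard_cast_ne_zero _),
      ← Finset.sum_filter]
    exact Finset.sum_subtype _ (fun g => by
      rw [Finset.mem_filter, Subgroup.mem_centralizer_singleton_iff]; simp) χ
  rw [ip_def, key, mul_ne_zero_iff, Nat.cast_ne_zero, Ne, Ne, Finset.sum_eq_zero_iff]
  simp [hn, Nat.card_pos.ne']

/-- Inflation along a surjection. -/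
theorem fd_comp {H : Type*} [Group H] [Finite H] (f : H →* G) (hf : Function.Surjective f)
    (χ : G → ℂ) (K : Subgroup G) : fd (χ ∘ f) (K.comap f) = fd χ K := by
  exact ip_comp_of_surjective (f.subgroupComap K) (f.subgroupComap_surjective_of_surjective K hf)
    (fun k : K => χ k) fun _ => 1

/-- Central components: if `[ω, ω] ≤ |Z|` and every character of the central subgroup `Z` occurs in
`ω`, each constituent is the whole component of its central character.
(`ω_κ g = |Z|⁻¹ ∑_z conj (κ z) ω (s z * g)` is a nonzero character, these are orthogonal with sum `ω`.) -/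
theorem exists_central_components {Z : Type*} [CommGroup Z] [Fintype Z] (s : Z →* G)
    (hs : ∀ z g, s z * g = g * s z) {ω : G → ℂ} (hω : IsCharacter G ω)
    (hle : (ip ω ω).re ≤ Nat.card Z)
    (hocc : ∀ κ : Z →* ℂˣ, ∑ z, ω (s z) * ((κ z)⁻¹ : ℂˣ) ≠ 0) :
    ∃ c : (Z →* ℂˣ) → IrrCharacter G,
      (∀ κ, ip ω (c κ).1 ≠ 0) ∧ (∀ κ z, (c κ).1 (s z) = κ z * (c κ).1 1) ∧
      (∀ κ, (Nat.card Z : ℂ) * (c κ).1 1 = ∑ z, ω (s z) * ((κ z)⁻¹ : ℂˣ)) ∧
      ∀ χ : IrrCharacter G, ip ω χ.1 ≠ 0 → ∃ κ, χ = c κ := by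
  classical
  haveI := Fintype.ofFinite G
  haveI := Fintype.ofFinite (Z →* ℂˣ)
  obtain ⟨n, ρ, rfl⟩ := hω
  let P := prj (ρ.comp s)
  let c : (Z →* ℂˣ) → G → ℂ := fun κ g => LinearMap.trace ℂ _ (ρ g * P κ)
  have hc : ∀ κ, IsCharacter G (c κ) := fun κ =>
    isCharacter_trace_mul_idem ρ _ (prj_idem _ κ) fun g => by
      simp only [P, prj, mul_smul_comm, smul_mul_assoc, Finset.mul_sum, Finset.sum_mul,
        MonoidHom.comp_apply, ← map_mul, hs]
  have hz : ∀ κ z g, c κ (s z * g) = κ z * c κ g := fun κ z g => by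
    simp only [c]
    rw [hs, map_mul ρ, mul_assoc, show ρ (s z) * P κ = _ from mul_prj (ρ.comp s) κ z, mul_smul_comm,
      map_smul, smul_eq_mul]
  have h1 : ∀ κ, (Nat.card Z : ℂ) * c κ 1 = ∑ z, ρ.character (s z) * ((κ z)⁻¹ : ℂˣ) := fun κ => by
    simp only [c]
    rw [map_one, one_mul, trace_prj, ip_def, mul_inv_cancel_left₀ (natCard_cast_ne_zero _)]
    exact Finset.sum_congr rfl fun z _ => by
      rw [linear_conj_apply, Units.val_inv_eq_inv_val]; rfl
  have hsum : ρ.character = ∑ κ, c κ := funext fun g => by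
    rw [Finset.sum_apply, ← map_sum, ← Finset.mul_sum, sum_prj _ mul_comm, mul_one]; rfl
  have horth : ∀ κ κ', κ ≠ κ' → ip (c κ) (c κ') = 0 := fun κ κ' hne => by
    obtain ⟨z, hz'⟩ := DFunLike.ne_iff.1 hne
    by_contra h0
    have : ip (c κ) (c κ') = κ z * (κ' z : ℂ)⁻¹ * ip (c κ) (c κ') := by
      conv_lhs => rw [ip_def, ← Equiv.sum_comp (Equiv.mulLeft (s z))]
      rw [ip_def, mul_left_comm]
      congr 1
      rw [Finset.mul_sum]
      refine Finset.sum_congr rfl fun g _ => ?_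
      rw [Equiv.coe_mulLeft, hz, hz, map_mul, linear_conj_apply]
      ring
    exact hz' (Units.ext ((mul_inv_eq_one₀ (κ' z).ne_zero).1 ((mul_eq_right₀ h0).1 this.symm)))
  have hl : ∀ κ, ip ρ.character (c κ) = ip (c κ) (c κ) := fun κ => by
    conv_lhs => rw [hsum, ip_sum_left]
    rw [Finset.sum_eq_single κ (fun κ' _ h => horth _ _ h) (by simp)]
  choose m hm using fun κ => (hc κ).exists_ip_eq_nat (hc κ)
  have hm1 : ∀ κ, 1 ≤ m κ := fun κ => Nat.one_le_iff_ne_zero.2 fun e => hocc κ (by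
    have := hm κ
    rw [e, Nat.cast_zero, ip_self_eq_zero] at this
    rw [← h1, this, Pi.zero_apply, mul_zero])
  have hle' : ∑ κ, m κ ≤ ∑ κ : Z →* ℂˣ, 1 := by
    have : ip ρ.character ρ.character = ((∑ κ, m κ : ℕ) : ℂ) := by
      conv_lhs => enter [2]; rw [hsum]
      rw [ip_sum_right, Nat.cast_sum]
      exact Finset.sum_congr rfl fun κ _ => by rw [hl, hm]
    rw [this, Complex.natCast_re, Nat.cast_le, ← card_linear_of_commGroup] at hle
    simpa using hle
  have hm' : ∀ κ, ip (c κ) (c κ) = 1 := fun κ => by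
    have := (Finset.sum_eq_sum_iff_of_le (fun κ _ => hm1 κ)).1
      (le_antisymm (Finset.sum_le_sum fun κ _ => hm1 κ) hle') κ (Finset.mem_univ _)
    rw [hm, ← this, Nat.cast_one]
  refine ⟨fun κ => ⟨c κ, (hc κ).isIrr_iff.2 (hm' κ)⟩, fun κ => ?_, fun κ z => ?_, h1,
    fun χ hχ => ?_⟩
  · rw [hl, hm']; exact one_ne_zero
  · simpa using hz κ z 1
  · rw [hsum, ip_sum_left] at hχ
    obtain ⟨κ, -, hκ⟩ := Finset.exists_ne_zero_of_sum_ne_zero hχ
    refine ⟨κ, by_contra fun h => hκ ?_⟩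
    exact IrrCharacter.ip_of_ne (χ := ⟨c κ, (hc κ).isIrr_iff.2 (hm' κ)⟩) (Ne.symm h)

end Cfsg.Hst

set_option linter.all false in
theorem Cfsg.Rz.Hst_Rep_0 : True := by
  have := @_root_.Cfsg.Hst.fixS.eq_def.{0, 0}
  have := @_root_.Cfsg.Hst.fixS.eq_1.{0, 0}
  have := @_root_.Cfsg.Hst.fixS.fun_cases
  have := @_root_.Cfsg.Hst.eigS.eq_def.{0, 0}
  have := @_root_.Cfsg.Hst.eigS.eq_1.{0, 0}
  have := @_root_.Cfsg.Hst.eigS.fun_cases
  have := @_root_.Cfsg.Hst.fd.eq_def.{0}
  have := @_root_.Cfsg.Hst.fd.eq_1.{0}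
  have := @_root_.Cfsg.Hst.fd.fun_cases
  have := @_root_.Cfsg.Hst.stabS.eq_def.{0, 0}
  have := @_root_.Cfsg.Hst.stabS.eq_1.{0, 0}
  have := @_root_.Cfsg.Hst.stabS.fun_cases
  trivial

set_option linter.all false in
theorem Cfsg.Rz.Hst_Rep_1 : True := by
  have := @_root_.Cfsg.Hst.prj.eq_def.{0, 0}
  have := @_root_.Cfsg.Hst.prj.fun_cases
  have := @_root_.Cfsg.Hst.cjl.eq_def.{0}
  have := @_root_.Cfsg.Hst.cjl.fun_cases
  trivial
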