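import Cfsg.Agent.Hst.Zero
import Cfsg.Agent.Hst.Basic
import Cfsg.Agent.Hst.Rep

/-!
# In odd dimension no centraliser has a fixed vector in the Weil representation (S4793 project)
-/

set_option autoImplicit false
set_option linter.unusedSectionVars false
set_option linter.unusedVariables false
set_option linter.style.haveILetI false

namespace Cfsg.Hst

open Module Submodule

universe u v w

variable {F : Type u} [Field F] [Finite F] {V : Type v} [AddCommGroup V] [Module F V]

namespace HS

variable {D : FD F} [Finite V] (S : HS D V)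

/-- The natural representation. -/
def toEnd : S.U →* End F V where
  toFun g := (g.1 : V →ₗ[F] V)
  map_one' := rfl
  map_mul' _ _ := rfl

theorem om_isCharacter' : IsCharacter S.U S.om :=
  Gun.isCharacter_weil D.card S.isHerm S.nondeg' S.toEnd fun g => g.2

theorem exists_fd_om_eq_zero (hn : Odd (finrank F V)) (g : S.U) :
    ∃ A ≤ Subgroup.centralizer ({g} : Set S.U), fd S.om A = 0 := by
  obtain ⟨A, h1, h2⟩ := exists_subgroup_sum_eq_zero S.isHerm D.card S.nondeg' hn S.toEnd
    (fun a b h => U.ext fun v => LinearMap.congr_fun h v) (fun g => g.2)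
    (fun a ha => ⟨S.mkU a ha, rfl⟩) g
  refine ⟨A, h1, ?_⟩
  haveI := Fintype.ofFinite A
  rw [fd_def]
  simp only [om]
  rw [← Finset.mul_sum]
  exact mul_eq_zero_of_right _ (mul_eq_zero_of_right _ h2)

end HS

end Cfsg.Hst

set_option linter.all false in
theorem Cfsg.Rz.Hst_Cent_0 : True := by
  have := @_root_.Cfsg.Hst.HS.toEnd.eq_def.{0, 0}
  have := @_root_.Cfsg.Hst.HS.toEnd.eq_1.{0, 0}
  have := @_root_.Cfsg.Hst.HS.toEnd.fun_cases
  trivial
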