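import Cfsg.Agent.Hst.Geo

/-!
# `PSU n` as the quotient of the full unitary group by the scalars (S4793 project)
-/

set_option autoImplicit false
set_option linter.unusedSectionVars false
set_option linter.unusedVariables false
set_option linter.style.haveILetI false

namespace Cfsg.Hst

open Module Submodule

theorem HS.exists_sc_of_central {F : Type*} [Field F] [Finite F] {V : Type*} [AddCommGroup V]
    [Module F V] {D : FD F} [Finite V] [Nontrivial V] (S : HS D V) {k : S.U}
    (hk : ∀ u, k * u = u * k) : ∃ z, k = S.sc z := by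
  have h1 : ∀ x, ∃ c : F, k.1 x = c • x := fun x => by
    by_cases hx : x = 0
    · exact ⟨0, by simp [hx]⟩
    obtain ⟨γ, hγ0, hγ⟩ : ∃ γ, γ ≠ 0 ∧ S.AdmR x γ := by
      by_cases hxx : S.B x x = 0
      · obtain ⟨c, hc⟩ := D.exists_ne
        exact ⟨c - D.σ c, sub_ne_zero.2 hc.symm, by simp [HS.AdmR, hxx]⟩
      · haveI : Nontrivial D.mu := Finite.one_lt_card_iff_nontrivial.1 (by
          rw [D.card_mu]; have := D.two_le; omega)
        obtain ⟨a, ha⟩ := exists_ne (1 : D.mu)
        exact ⟨_, div_ne_zero (fun h => ha (Subtype.ext (Units.ext (sub_eq_zero.1 h)))) hxx,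
          HS.admR_rf hxx a⟩
    obtain ⟨w, hw⟩ : ∃ w, S.B w x = 1 := S.isHerm.exists_eq_left D.card S.nondeg' hx 1
    have h2 := congrArg (fun g : S.U => g.1 w) (hk (S.rk x γ))
    simp only [HS.U.mul_apply, HS.rk_apply hγ, map_add, map_smul, hw, mul_one, add_right_inj] at h2
    exact ⟨S.B (k.1 w) x, smul_right_injective V hγ0 (by simp only [h2, mul_smul])⟩
  obtain ⟨c, hc⟩ := LinearMap.exists_eq_smul_id_of_forall_notLinearIndependent
    (f := (k.1 : V →ₗ[F] V)) fun v hv => by
      obtain ⟨c, hc⟩ := h1 v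
      have := LinearIndependent.pair_iff.1 hv c (-1) (by simp [hc])
      simp at this
  have hc' : ∀ v, k.1 v = c • v := fun v => LinearMap.congr_fun hc v
  obtain ⟨e, he⟩ := S.exists_aniso
  have := HS.U.iso k e e
  simp only [hc', map_smul, map_smulₛₗ, LinearMap.smul_apply, smul_eq_mul, he] at this
  obtain ⟨z, hz⟩ := D.exists_mu (c := c) (by linear_combination this)
  exact ⟨z, HS.U.ext fun v => by rw [hc', HS.sc_apply, hz]⟩

/-- The projection onto the kernel of the determinant. -/
theorem HS.exists_proj {F : Type*} [Field F] [Finite F] {V : Type*} [AddCommGroup V]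
    [Module F V] {D : FD F} [Finite V] [Nontrivial V] (S : HS D V)
    (hcop : Nat.Coprime (finrank F V) (D.q + 1)) :
    ∃ p : S.U →* S.detU.ker, Function.Surjective p ∧
      ∀ u, p u ∈ Subgroup.center S.detU.ker ↔ ∃ z, u = S.sc z := by
  obtain ⟨m, hm⟩ : ∃ m, ∀ z : D.mu, (z ^ finrank F V) ^ m = z := by
    obtain ⟨m, -, hm⟩ := Nat.exists_mul_mod_eq_one_of_coprime hcop (by have := D.two_le; omega)
    exact ⟨m, fun z => by rw [← pow_mul, ← pow_mod_natCard, D.card_mu, hm, pow_one]⟩
  let r : S.U →* D.mu := (powMonoidHom m).comp (S.detU.codRestrict D.mu S.detU_mem)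
  have hr : ∀ u, S.detU (S.sc (r u)) = S.detU u := fun u => by
    rw [S.detU_sc]
    have := congrArg Subtype.val (hm ⟨S.detU u, S.detU_mem u⟩)
    simp only [Subgroup.coe_pow] at this
    simp only [r, MonoidHom.comp_apply, powMonoidHom_apply, Subgroup.coe_pow,
      MonoidHom.codRestrict_apply]
    rw [← pow_mul, mul_comm, pow_mul, this]
  have hr1 : ∀ u, S.detU u = 1 → r u = 1 := fun u hu => by
    have : S.detU.codRestrict D.mu S.detU_mem u = 1 := Subtype.ext hu
    simp only [r, MonoidHom.comp_apply, this, map_one]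
  have hrz : ∀ z, r (S.sc z) = z := fun z => by
    have : S.detU.codRestrict D.mu S.detU_mem (S.sc z) = z ^ finrank F V :=
      Subtype.ext (S.detU_sc z)
    simp only [r, MonoidHom.comp_apply, this, powMonoidHom_apply, hm]
  let p : S.U →* S.detU.ker := MonoidHom.mk'
    (fun u => ⟨u * S.sc (r u)⁻¹, by rw [MonoidHom.mem_ker, map_mul, map_inv, map_inv, hr,
      mul_inv_cancel]⟩) fun a b => Subtype.ext (by
      change a * b * S.sc (r (a * b))⁻¹ = a * S.sc (r a)⁻¹ * (b * S.sc (r b)⁻¹)
      rw [map_mul, mul_inv, map_mul, mul_assoc, mul_assoc, ← mul_assoc b, ← S.sc_comm _ b,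
        mul_assoc])
  have hp : ∀ u, (p u).1 = u * S.sc (r u)⁻¹ := fun u => rfl
  refine ⟨p, fun k => ⟨k.1, Subtype.ext (by rw [hp, hr1 _ k.2]; simp)⟩, fun u => ⟨fun h => ?_, ?_⟩⟩
  · obtain ⟨z, hz⟩ := S.exists_sc_of_central (k := (p u).1) fun v => by
      have h1 : (p v).1 * (p u).1 = (p u).1 * (p v).1 :=
        congrArg Subtype.val (Subgroup.mem_center_iff.1 h (p v))
      have h2 : v = (p v).1 * S.sc (r v) := by rw [hp, map_inv, inv_mul_cancel_right]
      rw [h2, ← mul_assoc, ← h1, mul_assoc, mul_assoc, S.sc_comm]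
    exact ⟨z * r u, by rw [map_mul, ← hz, hp, map_inv, inv_mul_cancel_right]⟩
  · rintro ⟨z, rfl⟩
    have : p (S.sc z) = 1 := Subtype.ext (by rw [hp, hrz, map_inv, mul_inv_cancel]; rfl)
    rw [this]
    exact one_mem _

/-- `U = SU × Z` as `n` is prime to `q + 1`, and the centre of `SU` is trivial (a central element commutes with all
reflections, so it fixes all anisotropic lines). -/
theorem exists_hom_PSU (n q : ℕ) (F : Type*) [Field F] [Fintype F] (hF : Fintype.card F = q ^ 2)
    (hn : 3 ≤ n) (hcop : Nat.Coprime n (q + 1)) :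
    ∃ (D : FD F) (S : HS D (Fin n → F)), D.q = q ∧ ∃ f : S.U →* PSU n F q,
      Function.Surjective f ∧ ∀ u, f u = 1 ↔ ∃ z, u = S.sc z := by
  classical
  have hF' : Nat.card F = q ^ 2 := by rw [Nat.card_eq_fintype_card, hF]
  obtain ⟨σ, hσ⟩ := Gun.exists_sigma hF'
  let D : FD F := ⟨q, σ, hF', hσ⟩
  have H := Gun.isHerm_hermForm hF' n
  let S : HS D (Fin n → F) :=
    { B := LinearMap.mk₂'ₛₗ (RingHom.id F) D.σ (hermForm n F q) H.add_left H.smul_left
        (H.add_right hF') fun c u v => by rw [H.smul_right hF', ← hσ]; rfl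
      herm := fun u v => (H.symm u v).trans (hσ _).symm
      nondeg := fun u hu => H.nondeg_right hF' (Gun.hermForm_nondeg hF' n) u hu }
  haveI : Nonempty (Fin n) := ⟨⟨0, by omega⟩⟩
  obtain ⟨p, hp1, hp2⟩ := S.exists_proj (by simpa using hcop)
  let j : SU n F q →* S.detU.ker := MonoidHom.mk'
    (fun A => ⟨S.mkU (Matrix.toLin' A.1.1) A.2, Units.ext (by
      rw [HS.detU, MonoidHom.comp_apply, LinearEquiv.coe_det]
      exact (LinearMap.det_toLin' A.1.1).trans A.1.2)⟩) fun A B =>
    Subtype.ext (HS.U.ext fun v => (Matrix.mulVec_mulVec v A.1.1 B.1.1).symm)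
  have hj : Function.Bijective j := by
    refine ⟨fun A B h => Subtype.ext (Subtype.ext (Matrix.toLin'.injective
      (LinearMap.ext fun v => congrArg (fun g : S.detU.ker => g.1.1 v) h))), fun k => ?_⟩
    have hd : (LinearMap.toMatrix' (k.1.1 : (Fin n → F) →ₗ[F] (Fin n → F))).det = 1 := by
      rw [LinearMap.det_toMatrix', ← LinearEquiv.coe_det]
      exact congrArg Units.val k.2
    refine ⟨⟨⟨_, hd⟩, fun u v => ?_⟩, Subtype.ext (HS.U.ext fun v => by simp [j])⟩
    have := HS.U.iso k.1 u v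
    change hermForm n F q (Matrix.mulVec (LinearMap.toMatrix' _) u)
      (Matrix.mulVec (LinearMap.toMatrix' _) v) = _
    rw [LinearMap.toMatrix'_mulVec, LinearMap.toMatrix'_mulVec]
    exact this
  let e := MulEquiv.ofBijective j hj
  refine ⟨D, S, rfl, (QuotientGroup.mk' _).comp (e.symm.toMonoidHom.comp p),
    (QuotientGroup.mk'_surjective _).comp (e.symm.surjective.comp hp1), fun u => ?_⟩
  rw [← hp2, MonoidHom.comp_apply, QuotientGroup.mk'_apply, QuotientGroup.eq_one_iff]
  exact MulEquivClass.apply_mem_center_iff e.symm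

end Cfsg.Hst
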