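import Cfsg.Agent.Hst.Basic

/-!
# The hermitian form of a linear character of `PS I`, `I` totally isotropic (S4793 project)

For fixed `x`, `y ↦ lam (eich x y 0)` is an additive character of `I` (`eich_mul`), hence `ψ ∘ L_x` for a
unique linear functional `L_x` (the functionals `ψ ∘ L` are distinct, count); `h y x = L_x y`.  Semilinearity in `x`
from `eich_smul` and `eich x y 0 * eich y x 0 = 1`.
-/

set_option autoImplicit false
set_option linter.unusedSectionVars false
set_option linter.unusedVariables false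
set_option linter.style.haveILetI false

namespace Cfsg.Hst

open Module Submodule

universe u v w

variable {F : Type u} [Field F] [Finite F] {V : Type v} [AddCommGroup V] [Module F V]

namespace HS

variable {D : FD F} [Finite V] {S : HS D V}

theorem eq_zero_of_psi {ψ : AddChar F ℂ} (hψ : ψ ≠ 1) {a : F} (h : ∀ c, ψ (c * a) = 1) : a = 0 := by
  by_contra ha
  exact hψ (AddChar.ext _ _ fun z => by simpa [div_mul_cancel₀ _ ha] using h (z / a))

theorem eq_of_psi {ψ : AddChar F ℂ} (hψ : ψ ≠ 1) {a b : F} (h : ∀ c, ψ (c * a) = ψ (c * b)) :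
    a = b :=
  sub_eq_zero.1 (eq_zero_of_psi hψ fun c => by
    rw [mul_sub, AddChar.map_sub_eq_div, h, div_self (fun h0 => by
      have := ψ.map_add_eq_mul (c * b) (-(c * b))
      simp [h0] at this)])

/-- Every additive character of a finite `F`-space is `ψ ∘ L`. -/
theorem exists_dual_of_addChar {ψ : AddChar F ℂ} (hψ : ψ ≠ 1) (ξ : V → ℂ) (h0 : ξ 0 = 1)
    (hξ : ∀ u v, ξ (u + v) = ξ u * ξ v) : ∃ L : V →ₗ[F] F, ∀ v, ξ v = ψ (L v) := by
  classical
  haveI := Fintype.ofFinite V
  haveI : Finite (V →ₗ[F] F) := Finite.of_injective _ DFunLike.coe_injective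
  let Φ : (V →ₗ[F] F) → AddChar V ℂ := fun L => ψ.compAddMonoidHom L.toAddMonoidHom
  have hi : Function.Injective Φ := fun L L' e => LinearMap.ext fun v => eq_of_psi hψ fun c => by
    simpa [Φ] using DFunLike.congr_fun e (c • v)
  have hc : Nat.card (V →ₗ[F] F) = Nat.card (AddChar V ℂ) := by
    rw [Nat.card_eq_fintype_card (α := AddChar V ℂ), AddChar.card_eq, ← Nat.card_eq_fintype_card,
      Module.natCard_eq_pow_finrank (K := F) (V := V), Module.natCard_eq_pow_finrank (K := F)]
    exact congrArg _ Subspace.dual_finrank_eq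
  obtain ⟨L, hL⟩ := (hi.bijective_of_nat_card_le hc.ge).2 ⟨ξ, h0, hξ⟩
  exact ⟨L, fun v => (DFunLike.congr_fun hL v).symm⟩

/-- `h` is the form of the character `lam`. -/
structure FormOf (ψ : AddChar F ℂ) (I : Submodule F V) (lam : S.PS I →* ℂˣ) (h : D.Form I) :
    Prop where
  herm : D.IsHerm h
  eq : ∀ x y : I, (lam ⟨S.eich x y 0, eich_mem_PS x.2 y.2 0⟩ : ℂ) = ψ (h y x)

variable {ψ : AddChar F ℂ} {I : Submodule F V} {lam : S.PS I →* ℂˣ} {h : D.Form I}

theorem adm_of_mem (hI : I ≤ S.perp I) {x y : V} (hx : x ∈ I) (hy : y ∈ I) : S.Adm x y 0 :=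
  ⟨hI hx x hx, hI hy x hx, by simp [hI hy y hy]⟩

theorem eich_mul_eich_swap (hI : I ≤ S.perp I) {x y : V} (hx : x ∈ I) (hy : y ∈ I) :
    S.eich x y 0 * S.eich y x 0 = 1 :=
  U.ext fun w => by
    rw [U.mul_apply, eich_apply (adm_of_mem hI hx hy), eich_apply (adm_of_mem hI hy hx)]
    simp [hI hx x hx, hI hy x hx, hI hy y hy, hI hx y hy]

theorem exists_formOf (hψ : ψ ≠ 1) (hσ : ∀ z, ψ (D.σ z) = ψ (-z)) (hI : I ≤ S.perp I)
    (lam : S.PS I →* ℂˣ) : ∃ h : D.Form I, FormOf ψ I lam h := by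
  let l : I → I → ℂ := fun x y => (lam ⟨S.eich x y 0, eich_mem_PS x.2 y.2 0⟩ : ℂ)
  have hl : ∀ x : I, ∃ L : I →ₗ[F] F, ∀ y, l x y = ψ (L y) := fun x => by
    refine exists_dual_of_addChar hψ _ ?_ fun u v => ?_
    · have : S.eich x (0 : I) 0 = 1 := U.ext fun w => by
        simp [eich_apply (adm_of_mem hI x.2 I.zero_mem)]
      simp only [l, this]
      exact congrArg Units.val (map_one lam)
    · simp only [l]
      rw [← Units.val_mul, ← map_mul]
      congr 2
      refine Subtype.ext ?_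
      change _ = S.eich x u 0 * S.eich x v 0
      rw [eich_mul (adm_of_mem hI x.2 u.2) (adm_of_mem hI x.2 v.2), hI v.2 u u.2]
      simp
  choose L hL using hl
  have h1 : ∀ (c : F) (x y : I), L (c • x) y = D.σ c * L x y := fun c x y =>
    eq_of_psi hψ fun d => by
      have e : l (c • x) (d • y) = l x (D.σ c • d • y) := by
        simp only [l]
        congr 3
        have := eich_smul (S := S) (x := x) (u := (d • y : I)) (μ := 0) c
          (by simpa using adm_of_mem hI x.2 (D.σ c • d • y).2) (adm_of_mem hI (c • x).2 (d • y).2)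
        simpa using this
      rw [hL, hL] at e
      simpa [mul_left_comm] using e
  have h2 : ∀ x y : I, L x y = D.σ (L y x) := fun x y => eq_of_psi hψ fun c => by
    have e : l x (c • y) * l (c • y) x = 1 := by
      simp only [l]
      rw [← Units.val_mul, ← map_mul, ← Units.val_one, ← map_one lam]
      congr 2
      exact Subtype.ext (eich_mul_eich_swap hI x.2 (c • y).2)
    rw [hL, hL, h1, map_smul, smul_eq_mul] at e
    have e' := hσ (D.σ c * L y x)
    rw [map_mul, D.σσ, AddChar.map_neg_eq_inv] at e'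
    rw [e', eq_inv_of_mul_eq_one_left e]
  refine ⟨LinearMap.mk₂'ₛₗ (RingHom.id F) D.σ (fun y x => L x y) (fun a b x => map_add _ _ _)
    (fun c a x => map_smul _ _ _) (fun y a b => by rw [h2, map_add, map_add, ← h2, ← h2])
    (fun c y a => h1 c a y), fun u v => h2 u v, fun x y => hL x y⟩

/-- `lam` is trivial on the transvection group of `x` iff `x` is `h`-isotropic
(`rk x (c - σ c) = eich x (c • x) 0`). -/
theorem FormOf.triv_iff (H : FormOf ψ I lam h) (hψ : ψ ≠ 1) (hI : I ≤ S.perp I) (x : I) :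
    (∀ a : S.PS I, a.1 ∈ S.PS (span F {(x : V)}) → lam a = 1) ↔ h x x = 0 := by
  have hx : S.B x x = 0 := hI x.2 x x.2
  have e : ∀ c : F, S.eich x (c • x : I) 0 = S.rk x (c - D.σ c) := fun c => by
    have := (eich_add_smul (S := S) (x := x) (u := 0) (μ := 0) c ⟨hx, by simp, by simp⟩).2
    rw [← eich_zero hx]
    simpa using this
  constructor
  · intro hh
    refine eq_zero_of_psi hψ fun c => ?_
    have := H.eq x (c • x)
    rw [hh _ (by simp only [e]; exact rk_mem_PS _ _)] at this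
    simpa using this.symm
  · intro hh a ha
    obtain ⟨γ, h1, h2⟩ := exists_rk_of_mem_PS ha
    obtain ⟨c, rfl⟩ := D.exists_sub (b := γ) (by simpa [AdmR, hx] using h1)
    have := H.eq x (c • x)
    rw [map_smul, LinearMap.smul_apply, hh, smul_zero, AddChar.map_zero_eq_one] at this
    have ha' : a = ⟨S.eich x (c • x : I) 0, eich_mem_PS x.2 (c • x).2 0⟩ :=
      Subtype.ext (h2.trans (e c).symm)
    rw [ha']
    exact Units.ext this

theorem FormOf.eq_one_iff (H : FormOf ψ I lam h) (hψ : ψ ≠ 1) (hI : I ≤ S.perp I) :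
    lam = 1 ↔ h = 0 := by
  constructor
  · rintro rfl
    exact D.polar h fun x => (H.triv_iff hψ hI x).1 fun a _ => rfl
  · rintro rfl
    have : S.PS I ≤ lam.ker.map (S.PS I).subtype := PS_le_of_rk fun x hx γ _ =>
      ⟨⟨S.rk x γ, PS_mono ((span_singleton_le_iff_mem _ _).2 hx) (rk_mem_PS x γ)⟩,
        (H.triv_iff hψ hI ⟨x, hx⟩).2 rfl _ (rk_mem_PS x γ), rfl⟩
    ext a
    obtain ⟨b, hb, e⟩ := this a.2
    have : b = a := Subtype.ext e
    rw [← this, MonoidHom.mem_ker.1 hb]
    rfl

theorem FormOf.stab (H : FormOf ψ I lam h) (hψ : ψ ≠ 1) {u : S.U} (hu : ∀ x ∈ I, u.1 x ∈ I)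
    (t : End F I) (ht : ∀ x : I, u.1 x = t x)
    (hst : ∀ a : S.PS I, lam ⟨u⁻¹ * a * u, conj_mem_PS hu a.2⟩ = lam a) (x y : I) :
    h (t x) (t y) = h x y := by
  refine eq_of_psi hψ fun c => ?_
  have h1 := H.eq (t y) (t (c • x))
  rw [← hst] at h1
  have h2 := H.eq y (c • x)
  have e : u⁻¹ * S.eich (t y) (t (c • x)) 0 * u = S.eich y (c • x : I) 0 := by
    rw [← ht, ← ht, ← eich_conj]
    group
  simp only [e] at h1
  rw [h1] at h2
  simpa using h2

end HS

end Cfsg.Hst

set_option linter.all false in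
theorem Cfsg.Rz.Hst_Form_0 : True := by
  have := @_root_.Cfsg.Hst.HS.FormOf.mk.congr_simp.{0, 0}
  trivial
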