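import Cfsg.Agent.Hst.Basic

/-!
# Geometry of hermitian spaces (S4793 project)
-/

set_option autoImplicit false
set_option linter.unusedSectionVars false
set_option linter.unusedVariables false
set_option linter.style.haveILetI false

namespace Cfsg.Hst

open Module Submodule

universe u v

variable {F : Type u} [Field F] [Finite F] {V : Type v} [AddCommGroup V] [Module F V]

namespace HS

variable {D : FD F} [Finite V] (S : HS D V)

theorem exists_aniso [Nontrivial V] : ∃ e, S.B e e = 1 := by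
  obtain ⟨v, hv⟩ := S.isHerm.exists_aniso D.card S.nondeg'
  obtain ⟨a, ha⟩ := D.exists_norm (t := (S.B v v)⁻¹) (by rw [map_inv₀, σ_B])
  refine ⟨a • v, ?_⟩
  simp only [map_smul, map_smulₛₗ, LinearMap.smul_apply, smul_eq_mul]
  rw [← mul_assoc, mul_comm (D.σ a), ha, inv_mul_cancel₀ hv]

theorem nondeg_one {e : V} (he : S.B e e ≠ 0) : span F {e} ⊓ S.perp (span F {e}) = ⊥ := by
  refine eq_bot_iff.2 fun x hx => ?_
  obtain ⟨c, rfl⟩ := mem_span_singleton.1 hx.1
  have := mem_perp_one.1 hx.2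
  rw [map_smul, LinearMap.smul_apply, smul_eq_mul, mul_eq_zero] at this
  rw [this.resolve_right he, zero_smul]
  exact zero_mem _

theorem nondeg_perp {X : Submodule F V} (hX : X ⊓ S.perp X = ⊥) :
    S.perp X ⊓ S.perp (S.perp X) = ⊥ := by
  rw [perp_perp, inf_comm, hX]

theorem exists_on (n : ℕ) : ∀ (V : Type v) [AddCommGroup V] [Module F V] [Finite V] (S : HS D V),
    finrank F V = n → ∃ b : Fin n → V, ∀ i j, S.B (b i) (b j) = if i = j then 1 else 0 := by
  induction n with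
  | zero => exact fun V _ _ _ S _ => ⟨Fin.elim0, fun i => i.elim0⟩
  | succ n ih =>
    intro V _ _ _ S hn
    haveI : Nontrivial V := nontrivial_of_finrank_pos (R := F) (by omega)
    obtain ⟨e, he⟩ := S.exists_aniso
    have h1 := S.finrank_perp (span F {e})
    rw [finrank_span_singleton (by rintro rfl; simp at he)] at h1
    obtain ⟨b, hb⟩ := ih _ (S.res _ (S.nondeg_perp (S.nondeg_one (he ▸ one_ne_zero)))) (by omega)
    have h2 : ∀ i, S.B (b i) e = 0 := fun i => mem_perp_one.1 (b i).2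
    refine ⟨Fin.cons e fun i => b i, fun i j => ?_⟩
    refine Fin.cases ?_ (fun i => ?_) i <;> refine Fin.cases ?_ (fun j => ?_) j
    · simpa using he
    · simpa [(Fin.succ_ne_zero j).symm] using S.symm0 (h2 j)
    · simpa using h2 i
    · simpa using hb i j

/-- Orthonormal bases (induction on the dimension, pass to `S.res (perp (span {e}))`). -/
theorem exists_onb : ∃ b : Basis (Fin (finrank F V)) F V,
    ∀ i j, S.B (b i) (b j) = if i = j then 1 else 0 := by
  obtain ⟨b, hb⟩ := exists_on _ V S rfl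
  have h1 : LinearIndependent F b := Fintype.linearIndependent_iff.2 fun c hc j => by
    simpa [hb] using congrArg (S.B.flip (b j)) hc
  exact ⟨basisOfLinearIndependentOfCardEqFinrank' b h1 (by simp), by simpa using hb⟩

theorem exists_isometry {V' : Type*} [AddCommGroup V'] [Module F V'] [Finite V'] (S' : HS D V')
    (h : finrank F V = finrank F V') : ∃ f : V ≃ₗ[F] V', ∀ u v, S'.B (f u) (f v) = S.B u v := by
  obtain ⟨b, hb⟩ := S.exists_onb
  obtain ⟨b', hb'⟩ := S'.exists_onb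
  refine ⟨b.equiv b' (finCongr h), fun u v => ?_⟩
  have : (S'.B.comp (b.equiv b' (finCongr h)).toLinearMap).compl₂
      (b.equiv b' (finCongr h)).toLinearMap = S.B :=
    LinearMap.ext_basis b b fun i j => by simp [hb, hb']
  exact LinearMap.congr_fun (LinearMap.congr_fun this u) v

theorem exists_add {X : Submodule F V} (hX : X ⊓ S.perp X = ⊥) (v : V) :
    ∃ (x : X) (w : S.perp X), v = x + w := by
  obtain ⟨x, w, h, -⟩ := existsUnique_add_of_isCompl (S.isCompl_perp hX) v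
  exact ⟨x, w, h.symm⟩

theorem U_ext_perp {X : Submodule F V} (hX : X ⊓ S.perp X = ⊥) {g g' : S.U}
    (h1 : ∀ x : X, g.1 x = g'.1 x) (h2 : ∀ w : S.perp X, g.1 w = g'.1 w) : g = g' :=
  U.ext fun v => by
    obtain ⟨x, w, rfl⟩ := S.exists_add hX v
    rw [map_add, map_add, h1, h2]

/-- Gluing isometries on `X` and on `X^⊥`. -/
theorem exists_glue {X : Submodule F V} (hX : X ⊓ S.perp X = ⊥) (φ : X →ₗ[F] V)
    (ψ : S.perp X →ₗ[F] V) (hφ : ∀ u v, S.B (φ u) (φ v) = S.B u v)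
    (hψ : ∀ u v, S.B (ψ u) (ψ v) = S.B u v) (h : ∀ u v, S.B (ψ u) (φ v) = 0) :
    ∃ g : S.U, (∀ x : X, g.1 x = φ x) ∧ ∀ w : S.perp X, g.1 w = ψ w := by
  refine ⟨S.mkU (LinearMap.ofIsCompl (S.isCompl_perp hX) φ ψ) fun u v => ?_,
    LinearMap.ofIsCompl_apply_left _, LinearMap.ofIsCompl_apply_right _⟩
  obtain ⟨x, w, rfl⟩ := S.exists_add hX u
  obtain ⟨x', w', rfl⟩ := S.exists_add hX v
  simp only [map_add, LinearMap.add_apply, LinearMap.ofIsCompl_apply_left,
    LinearMap.ofIsCompl_apply_right, hφ, hψ, h, S.symm0 (h _ _), w.2 _ x'.2, S.symm0 (w'.2 _ x.2)]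

/-- Witt's theorem for nondegenerate subspaces. -/
theorem witt {X Y : Submodule F V} (hX : X ⊓ S.perp X = ⊥) (f : X ≃ₗ[F] Y)
    (hf : ∀ u v : X, S.B (f u) (f v) = S.B u v) : ∃ g : S.U, ∀ x : X, g.1 x = f x := by
  have hY : Y ⊓ S.perp Y = ⊥ := eq_bot_iff.2 fun y hy => by
    obtain ⟨x, hx⟩ := f.surjective ⟨y, hy.1⟩
    have : x.1 ∈ X ⊓ S.perp X := ⟨x.2, fun x' hx' => by
      rw [← hf x ⟨x', hx'⟩, hx]
      exact hy.2 _ (f _).2⟩
    rw [hX] at this
    rw [← show (f x : V) = y from congrArg Subtype.val hx, show x = 0 from Subtype.ext this, map_zero]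
    exact zero_mem _
  obtain ⟨f', hf'⟩ := (S.res _ (S.nondeg_perp hX)).exists_isometry (S.res _ (S.nondeg_perp hY)) (by
    have h1 := S.finrank_perp X
    have h2 := S.finrank_perp Y
    have h3 := f.finrank_eq
    omega)
  obtain ⟨g, hg, -⟩ := S.exists_glue hX (Y.subtype ∘ₗ f.toLinearMap)
    ((S.perp Y).subtype ∘ₗ f'.toLinearMap) hf hf' fun u v => (f' u).2 _ (f v).2
  exact ⟨g, hg⟩

theorem exists_map_aniso {v w : V} (h : S.B v v = S.B w w) (h0 : S.B v v ≠ 0) :
    ∃ g : S.U, g.1 v = w := by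
  have hv : v ≠ 0 := by rintro rfl; simp at h0
  have hw : w ≠ 0 := by rintro rfl; simp [h] at h0
  obtain ⟨g, hg⟩ := S.witt (S.nondeg_one h0) ((LinearEquiv.toSpanNonzeroSingleton F V v hv).symm.trans
    (LinearEquiv.toSpanNonzeroSingleton F V w hw)) fun a b => by
      obtain ⟨a, rfl⟩ := (LinearEquiv.toSpanNonzeroSingleton F V v hv).surjective a
      obtain ⟨b, rfl⟩ := (LinearEquiv.toSpanNonzeroSingleton F V v hv).surjective b
      rw [LinearEquiv.trans_apply, LinearEquiv.trans_apply, LinearEquiv.symm_apply_apply,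
        LinearEquiv.symm_apply_apply]
      simp [h]
  have := hg (LinearEquiv.toSpanNonzeroSingleton F V v hv 1)
  rw [LinearEquiv.trans_apply, LinearEquiv.symm_apply_apply] at this
  exact ⟨g, by simpa using this⟩

theorem exists_iso_sub {x y : V} (hx : S.B x x = 0) (hy : S.B y x ≠ 0) :
    ∃ c : F, S.B (y - c • x) (y - c • x) = 0 := by
  obtain ⟨a, ha⟩ := D.exists_trace (S.σ_B y y)
  have hy' : S.B x y ≠ 0 := fun e => hy (S.symm0 e)
  refine ⟨a / S.B x y, ?_⟩
  simp only [map_sub, map_smul, map_smulₛₗ, LinearMap.sub_apply, LinearMap.smul_apply, smul_eq_mul, hx,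
    map_div₀, σ_B]
  field_simp
  linear_combination -S.B y x * S.B x y * ha

theorem exists_B_eq {x : V} (hx : x ≠ 0) (c : F) : ∃ y, S.B y x = c :=
  S.isHerm.exists_eq_left D.card S.nondeg' hx c

theorem exists_hyp {x : V} (hx : S.B x x = 0) (hx0 : x ≠ 0) :
    ∃ x', S.B x' x' = 0 ∧ S.B x' x = 1 := by
  obtain ⟨y, hy⟩ := S.exists_B_eq hx0 1
  obtain ⟨c, hc⟩ := S.exists_iso_sub hx (hy ▸ one_ne_zero)
  exact ⟨_, hc, by simp [hx, hy]⟩

theorem exists_map_iso {v w : V} (hv : S.B v v = 0) (hw : S.B w w = 0) (hv0 : v ≠ 0)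
    (hw0 : w ≠ 0) : ∃ g : S.U, g.1 v = w := by
  have key : ∀ v w : V, S.B v v = 0 → S.B w w = 0 → S.B v w ≠ 0 → ∃ g : S.U, g.1 v = w :=
    fun v w hv hw h => by
      have h' : S.B w v ≠ 0 := fun e => h (S.symm0 e)
      have ha : S.AdmR (v - w) (S.B v w)⁻¹ := by
        simp only [AdmR, map_sub, LinearMap.sub_apply, map_inv₀, σ_B, hv, hw]
        field_simp
        ring
      exact ⟨_, (rk_apply ha v).trans (by simp [hv, h])⟩
  by_cases h : S.B v w = 0
  swap
  · exact key v w hv hw h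
  obtain ⟨y, h1, h2⟩ : ∃ y, S.B y v ≠ 0 ∧ S.B y w ≠ 0 := by
    obtain ⟨y, hy⟩ := S.exists_B_eq hv0 1
    obtain ⟨z, hz⟩ := S.exists_B_eq hw0 1
    by_cases h1 : S.B y w = 0
    · by_cases h2 : S.B z v = 0
      · exact ⟨y + z, by simp [hy, h2], by simp [hz, h1]⟩
      · exact ⟨z, h2, by simp [hz]⟩
    · exact ⟨y, by simp [hy], h1⟩
  obtain ⟨c, hc⟩ := S.exists_iso_sub hv h1
  obtain ⟨g, hg⟩ := key v _ hv hc fun e => h1 (by simpa [hv] using S.symm0 e)
  obtain ⟨g', hg'⟩ := key _ w hc hw (by simpa [h] using h2)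
  exact ⟨g' * g, by rw [U.mul_apply, hg, hg']⟩

theorem exists_iso (h2 : 2 ≤ finrank F V) : ∃ x, x ≠ 0 ∧ S.B x x = 0 := by
  exact S.isHerm.exists_isotropic D.card S.nondeg' h2

/-- In odd dimension the complement of a totally isotropic subspace is not totally isotropic. -/
theorem exists_aniso_perp (hn : Odd (finrank F V)) {X : Submodule F V} (hX : X ≤ S.perp X) :
    ∃ e ∈ S.perp X, S.B e e ≠ 0 := by
  by_contra! h
  have h1 := S.le_perp_of_iso h
  have h2 := S.finrank_perp X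
  rw [perp_perp] at h1
  rw [le_antisymm h1 hX] at h2
  exact Nat.not_even_iff_odd.2 hn ⟨_, h2.symm⟩

/-- Extension by the identity on the orthogonal complement. -/
theorem exists_ext {X : Submodule F V} (hX : X ⊓ S.perp X = ⊥) :
    ∃ ε : (S.res X hX).U →* S.U, Function.Injective ε ∧ (∀ a (x : X), (ε a).1 x = a.1 x) ∧
      (∀ a, ∀ w ∈ S.perp X, (ε a).1 w = w) ∧
      ∀ a, finrank F (LinearMap.ker (S.sub1 (ε a))) =
        finrank F (LinearMap.ker ((S.res X hX).sub1 a)) + finrank F (S.perp X) := by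
  choose f h1 h2 using fun a : (S.res X hX).U => S.exists_glue hX
    (X.subtype ∘ₗ a.1.toLinearMap) (S.perp X).subtype (U.iso a) (fun _ _ => rfl)
    fun u v => u.2 _ (a.1 v).2
  replace h1 : ∀ a (x : X), (f a).1 x = a.1 x := h1
  replace h2 : ∀ a (w : S.perp X), (f a).1 w = w := h2
  refine ⟨MonoidHom.mk' f fun a b => S.U_ext_perp hX (fun x => ?_) fun w => ?_,
    fun a b e => U.ext fun x => Subtype.ext ?_, h1, fun a w hw => h2 a ⟨w, hw⟩, fun a => ?_⟩
  · rw [U.mul_apply, h1, h1, h1, U.mul_apply]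
  · rw [U.mul_apply, h2, h2, h2]
  · rw [← h1, ← h1, show f a = f b from e]
  · have h3 : LinearMap.ker (S.sub1 (f a)) =
        (LinearMap.ker ((S.res X hX).sub1 a)).map X.subtype ⊔ S.perp X := by
      refine le_antisymm (fun v hv => ?_) (sup_le ?_ fun w hw => sub_eq_zero.2 (h2 a ⟨w, hw⟩))
      · obtain ⟨x, w, rfl⟩ := S.exists_add hX v
        rw [LinearMap.mem_ker, sub1_apply, map_add, h1, h2, add_sub_add_right_eq_sub] at hv
        exact add_mem_sup ⟨x, Subtype.ext hv, rfl⟩ w.2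
      · rintro _ ⟨x, hx, rfl⟩
        exact (congrArg (· - x.1) (h1 a x)).trans (congrArg Subtype.val hx)
    have h4 := finrank_sup_add_finrank_inf_eq
      ((LinearMap.ker ((S.res X hX).sub1 a)).map X.subtype) (S.perp X)
    rw [eq_bot_iff.2 ((inf_le_inf_right _ (map_subtype_le _ _)).trans hX.le), finrank_bot, add_zero,
      finrank_map_subtype_eq, ← h3] at h4
    exact h4

/-- Restriction of an isometry to an invariant nondegenerate subspace. -/
theorem exists_res {X : Submodule F V} (hX : X ⊓ S.perp X = ⊥) (g : S.U) (hg : ∀ x ∈ X, g.1 x ∈ X) :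
    (∃ a : (S.res X hX).U, ∀ x : X, (a.1 x : V) = g.1 x) ∧ ∀ w ∈ S.perp X, g.1 w ∈ S.perp X := by
  refine ⟨⟨(S.res X hX).mkU (g.1.toLinearMap.restrict hg) fun u v => U.iso g u v, fun _ => rfl⟩,
    fun w hw x hx => ?_⟩
  rw [U.iso_inv, hw _ (inv_mem_of_mem hg hx)]

/-- The adjoint. -/
noncomputable def adj (T : End F V) : End F V where
  toFun v := (S.exists_rep ((S.B.flip v).comp T)).choose
  map_add' v w := S.ext_right fun u => by
    rw [← (S.exists_rep _).choose_spec, (S.B u).map_add, ← (S.exists_rep _).choose_spec,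
      ← (S.exists_rep _).choose_spec]
    simp
  map_smul' c v := S.ext_right fun u => by
    rw [← (S.exists_rep _).choose_spec, (S.B u).map_smulₛₗ, ← (S.exists_rep _).choose_spec]
    simp

theorem B_adj (T : End F V) (u v : V) : S.B u (S.adj T v) = S.B (T u) v :=
  ((S.exists_rep ((S.B.flip v).comp T)).choose_spec u).symm

theorem adj_B (T : End F V) (u v : V) : S.B (S.adj T u) v = S.B u (T v) := by
  rw [S.herm v, B_adj, σ_B]

theorem adj_eq {T T' : End F V} (h : ∀ u v, S.B (T u) v = S.B u (T' v)) : S.adj T = T' :=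
  LinearMap.ext fun v => S.ext_right fun u => by rw [B_adj, h]

@[simp] theorem adj_adj (T : End F V) : S.adj (S.adj T) = T := S.adj_eq (S.adj_B T)

theorem adj_add (T T' : End F V) : S.adj (T + T') = S.adj T + S.adj T' :=
  S.adj_eq fun u v => by simp [B_adj]

theorem adj_mul (T T' : End F V) : S.adj (T * T') = S.adj T' * S.adj T :=
  S.adj_eq fun u v => by simp [B_adj]

@[simp] theorem adj_one : S.adj 1 = 1 := S.adj_eq fun u v => rfl

@[simp] theorem adj_zero : S.adj 0 = 0 := S.adj_eq fun u v => by simp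

theorem adj_smul (c : F) (T : End F V) : S.adj (c • T) = D.σ c • S.adj T :=
  S.adj_eq fun u v => by simp [B_adj]

theorem adj_U (g : S.U) : S.adj (g.1 : V →ₗ[F] V) = ((g⁻¹).1 : V →ₗ[F] V) :=
  S.adj_eq fun u v => U.iso_inv g u v

variable {S}

theorem MaxIso.le_perp {e : V} {I : Submodule F V} (h : S.MaxIso e I) : I ≤ S.perp I := by
  rw [h.perp_eq]; exact le_sup_left

theorem MaxIso.mem_perp {e : V} {I : Submodule F V} (h : S.MaxIso e I) : e ∈ S.perp I := by
  rw [h.perp_eq]; exact mem_sup_right (mem_span_singleton_self e)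

theorem MaxIso.notMem {e : V} {I : Submodule F V} (h : S.MaxIso e I) : e ∉ I :=
  fun he => h.aniso (h.mem_perp e he)

theorem MaxIso.finrank_eq {e : V} {I : Submodule F V} (h : S.MaxIso e I) :
    2 * finrank F I + 1 = finrank F V := by
  have h1 := S.finrank_perp I
  rw [h.perp_eq, finrank_sup_span_singleton h.notMem] at h1
  omega

theorem MaxIso.card_eq {e : V} {I : Submodule F V} (h : S.MaxIso e I) :
    Nat.card I = D.q ^ (finrank F V - 1) := by
  rw [Module.natCard_eq_pow_finrank (K := F), D.card, ← pow_mul, ← h.finrank_eq, Nat.add_sub_cancel]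

/-- Every totally isotropic subspace of `e^⊥` lies in a maximal one (take `I ≥ X` maximal among the
totally isotropic subspaces of `e^⊥`; if `I^⊥ ∩ e^⊥ > I`, parity gives a plane over `I`, which contains
an isotropic vector). -/
theorem exists_maxIso (hn : Odd (finrank F V)) {e : V} (he : S.B e e ≠ 0) {X : Submodule F V}
    (hX : X ≤ S.perp X) (heX : e ∈ S.perp X) : ∃ I, X ≤ I ∧ S.MaxIso e I := by
  haveI : Finite (Submodule F V) := Finite.of_injective _ SetLike.coe_injective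
  obtain ⟨I, hI, ⟨h1, h2⟩, h3⟩ :=
    Finite.exists_le_maximal (p := fun I => I ≤ S.perp I ∧ e ∈ S.perp I) ⟨hX, heX⟩
  have h4 : I ⊔ span F {e} ≤ S.perp I := sup_le h1 ((span_singleton_le_iff_mem _ _).2 h2)
  refine ⟨I, hI, he, (eq_of_le_of_finrank_le h4 (not_lt.1 fun h5 => ?_)).symm⟩
  have h6 : e ∉ I := fun h => he (h2 e h)
  have h7 := S.finrank_perp I
  have h8 := S.finrank_perp (I ⊔ span F {e})
  rw [finrank_sup_span_singleton h6] at h5 h8
  obtain ⟨m, hm⟩ := hn
  obtain ⟨x, hx, hx'⟩ := SetLike.not_le_iff_exists.1 fun h : S.perp (I ⊔ span F {e}) ≤ I => by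
    have := finrank_mono h
    omega
  obtain ⟨y, hy, hy'⟩ := SetLike.not_le_iff_exists.1
    fun h : S.perp (I ⊔ span F {e}) ≤ I ⊔ span F {x} => by
      have := finrank_mono h
      rw [finrank_sup_span_singleton hx'] at this
      omega
  obtain ⟨a, b, h9, h10⟩ := S.herm.exists_iso (x := x) (y := y) (fun h => hx' (h ▸ zero_mem I))
    fun h => hy' (mem_sup_right h)
  have h11 : a • x + b • y ∈ S.perp (I ⊔ span F {e}) := add_mem (smul_mem _ _ hx) (smul_mem _ _ hy)
  have h12 : a • x + b • y ∉ I := fun h => by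
    by_cases hb : b = 0
    · rw [hb, zero_smul, add_zero] at h h9
      exact hx' ((smul_mem_iff _ (left_ne_zero_of_smul h9)).1 h)
    · exact hy' ((smul_mem_iff _ hb).1 (by
        simpa using sub_mem (mem_sup_left h) (mem_sup_right (T := span F {x})
          (smul_mem _ a (mem_span_singleton_self x)))))
  generalize a • x + b • y = z at h10 h11 h12
  rw [perp_sup] at h11
  refine h12 (h3 (y := I ⊔ span F {z}) ⟨?_, ?_⟩ le_sup_left
    (mem_sup_right (mem_span_singleton_self z)))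
  · rw [perp_sup]
    exact sup_le (le_inf h1 fun w hw => mem_perp_one.2 (S.symm0 (h11.1 w hw)))
      ((span_singleton_le_iff_mem _ _).2 ⟨h11.1, mem_perp_one.2 h10⟩)
  · rw [perp_sup]
    exact ⟨h2, mem_perp_one.2 (S.symm0 (mem_perp_one.1 h11.2))⟩

/-- An opposite maximal isotropic subspace (take `J ≤ e^⊥` a complement of `I`, correct it by
`y ↦ y - s y` with `s : J → I`, `B(s y, y') = a B(y,y')`, `a + σ a = 1`). -/
theorem MaxIso.exists_opp {e : V} {I : Submodule F V} (h : S.MaxIso e I) :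
    ∃ I', S.MaxIso e I' ∧ I' ⊓ S.perp I = ⊥ ∧ I ⊓ S.perp I' = ⊥ ∧ I ⊔ I' ⊔ span F {e} = ⊤ := by
  obtain ⟨π, h1, h2, h3⟩ : ∃ π : End F V, (∀ v, π v - v ∈ S.perp I) ∧ (∀ v ∈ S.perp I, π v = 0) ∧
      ∀ v, S.B (π v) e = 0 := by
    obtain ⟨J, hJ⟩ := (S.perp I).exists_isCompl
    refine ⟨(1 - ((S.B e e)⁻¹ • S.B.flip e).smulRight e) * J.projection _ hJ.symm,
      fun v => ?_, fun v hv => ?_, fun v => ?_⟩
    · rw [Module.End.mul_apply, LinearMap.sub_apply, Module.End.one_apply, sub_right_comm,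
        projection_eq_self_sub_projection hJ, sub_sub_cancel_left]
      exact sub_mem (neg_mem (projection_apply_mem _ _)) (smul_mem _ _ h.mem_perp)
    · rw [Module.End.mul_apply, projection_apply_of_mem_right _ hv, map_zero]
    · simp [h.aniso, mul_right_comm _ _ (S.B e e)]
  have h4 : ∀ v, π (π v) = π v := fun v => by rw [← sub_eq_zero, ← map_sub, h2 _ (h1 v)]
  have h5 : ∀ v, S.adj π v ∈ I := fun v => by
    rw [← S.perp_perp I]
    intro w hw
    rw [adj_B, h2 w hw, map_zero]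
  obtain ⟨a, ha⟩ := D.exists_trace (map_one D.σ)
  obtain ⟨T, hT⟩ : ∃ T : End F V, ∀ v, T v = π v - a • S.adj π (π v) :=
    ⟨π - a • (S.adj π * π), fun _ => rfl⟩
  have h6 : ∀ v, T v - v ∈ S.perp I := fun v => by
    rw [hT, sub_right_comm]
    exact sub_mem (h1 v) (smul_mem _ _ (h.le_perp (h5 _)))
  have h7 : I ⊔ LinearMap.range T ⊔ span F {e} = ⊤ := eq_top_iff.2 fun v _ => by
    rw [← sub_sub_cancel (T v) v, sup_right_comm, ← h.perp_eq]
    exact sub_mem (mem_sup_right ⟨v, rfl⟩) (mem_sup_left (h6 v))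
  have h8 : e ∈ S.perp (LinearMap.range T) := by
    rintro _ ⟨v, rfl⟩
    simp [hT, S.symm0 (h3 v), h.mem_perp _ (h5 _)]
  have h9 : LinearMap.range T ≤ S.perp (LinearMap.range T) := by
    rintro _ ⟨u, rfl⟩ _ ⟨v, rfl⟩
    simp only [hT, map_sub, map_smul, map_smulₛₗ, LinearMap.sub_apply, LinearMap.smul_apply,
      smul_eq_mul, h.le_perp (h5 _) _ (h5 _)]
    rw [B_adj, adj_B, h4, h4]
    linear_combination -S.B (π u) (π v) * ha
  have h10 : I ⊓ S.perp (LinearMap.range T) = ⊥ := eq_bot_iff.2 fun x hx =>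
    S.nondeg' x fun v => by
      have : x ∈ S.perp (I ⊔ LinearMap.range T ⊔ span F {e}) := by
        rw [perp_sup, perp_sup]
        exact ⟨⟨h.le_perp hx.1, hx.2⟩, mem_perp_one.2 (S.symm0 (h.mem_perp x hx.1))⟩
      exact this v (h7 ▸ mem_top)
  have h11 : LinearMap.range T ⊔ span F {e} ≤ S.perp (LinearMap.range T) :=
    sup_le h9 ((span_singleton_le_iff_mem _ _).2 h8)
  refine ⟨LinearMap.range T, ⟨h.aniso, le_antisymm (fun v hv => ?_) h11⟩, eq_bot_iff.2 ?_, h10, h7⟩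
  · rw [sup_assoc] at h7
    obtain ⟨x, hx, y, hy, rfl⟩ := mem_sup.1 (h7.ge (mem_top (x := v)))
    have : x ∈ I ⊓ S.perp (LinearMap.range T) := ⟨hx, (Submodule.add_mem_iff_left _ (h11 hy)).1 hv⟩
    rw [h10] at this
    rwa [(mem_bot F).1 this, zero_add]
  · rintro _ ⟨⟨v, rfl⟩, hv⟩
    have := sub_mem hv (h6 v)
    rw [sub_sub_cancel] at this
    simp [hT, h2 v this]

theorem exists_add_three {e : V} {I I' : Submodule F V} (ht : I ⊔ I' ⊔ span F {e} = ⊤) (v : V) :
    ∃ x ∈ I, ∃ y ∈ I', ∃ c : F, v = x + y + c • e := by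
  obtain ⟨_, h1, _, h2, rfl⟩ := mem_sup.1 (ht.ge (mem_top (x := v)))
  obtain ⟨x, hx, y, hy, rfl⟩ := mem_sup.1 h1
  obtain ⟨c, rfl⟩ := mem_span_singleton.1 h2
  exact ⟨x, hx, y, hy, c, rfl⟩

/-- Levi elements: `t P + adj (t⁻¹ P) + P_e`, `P` the projection onto `I` along `I' + F e`. -/
theorem MaxIso.exists_levi {e : V} {I I' : Submodule F V} (h : S.MaxIso e I) (h' : S.MaxIso e I')
    (hd : I' ⊓ S.perp I = ⊥) (hd' : I ⊓ S.perp I' = ⊥) (ht : I ⊔ I' ⊔ span F {e} = ⊤)
    (t : End F I) (hb : Function.Bijective t) :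
    ∃ g : S.U, (∀ x : I, g.1 x = t x) ∧ (∀ y ∈ I', g.1 y ∈ I') ∧ g.1 e = e := by
  have hc : IsCompl I (S.perp I') := ⟨disjoint_iff.2 hd', codisjoint_iff.2 (by
    rw [h'.perp_eq, ← sup_assoc, ht])⟩
  obtain ⟨A, hA, hA'⟩ : ∃ A : End F V, (∀ x : I, A x = t x) ∧ ∀ w ∈ S.perp I', A w = 0 :=
    ⟨I.subtype ∘ₗ t ∘ₗ I.projectionOnto _ hc, fun x => by simp,
      fun w hw => by simp [projectionOnto_apply_of_mem_right hc hw]⟩
  obtain ⟨A', h1, h2, h3⟩ : ∃ A' : End F V, (∀ x : I, A' (t x) = x) ∧ (∀ v, A' v ∈ I) ∧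
      ∀ w ∈ S.perp I', A' w = 0 :=
    ⟨I.subtype ∘ₗ (LinearEquiv.ofBijective t hb).symm.toLinearMap ∘ₗ I.projectionOnto _ hc,
      fun x => by simp, fun v => by simp,
      fun w hw => by simp [projectionOnto_apply_of_mem_right hc hw]⟩
  have h4 : ∀ v, S.adj A' v ∈ I' := fun v => by
    rw [← S.perp_perp I']
    intro w hw
    rw [adj_B, h3 w hw, map_zero]
  have h5 : ∀ w ∈ S.perp I, S.adj A' w = 0 := fun w hw =>
    S.nondeg' _ fun v => by rw [adj_B, hw _ (h2 v)]
  obtain ⟨T, hT⟩ : ∃ T : End F V, ∀ v, T v = A v + S.adj A' v + ((S.B e e)⁻¹ * S.B v e) • e :=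
    ⟨A + S.adj A' + ((S.B e e)⁻¹ • S.B.flip e).smulRight e, fun _ => rfl⟩
  have h6 : ∀ x : I, T x = t x := fun x => by
    simp [hT, hA, h5 _ (h.le_perp x.2), S.symm0 (h.mem_perp _ x.2)]
  have h7 : ∀ y ∈ I', T y = S.adj A' y := fun y hy => by
    simp [hT, hA' _ (h'.le_perp hy), S.symm0 (h'.mem_perp _ hy)]
  have h8 : T e = e := by simp [hT, hA' _ h'.mem_perp, h5 _ h.mem_perp, h.aniso]
  have h9 : ∀ x ∈ I, ∀ x' ∈ I, ∀ y ∈ I', ∀ y' ∈ I', ∀ c c' : F,
      S.B (x + y + c • e) (x' + y' + c' • e) = S.B x y' + S.B y x' + S.B (c • e) (c' • e) :=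
    fun x hx x' hx' y hy y' hy' c c' => by
      simp [h.le_perp hx _ hx', h'.le_perp hy _ hy', h.mem_perp _ hx', h'.mem_perp _ hy',
        S.symm0 (h.mem_perp _ hx), S.symm0 (h'.mem_perp _ hy), mul_left_comm]
  refine ⟨S.mkU T fun u v => ?_, h6, fun y hy => (h7 y hy).symm ▸ h4 y, h8⟩
  obtain ⟨x, hx, y, hy, c, rfl⟩ := exists_add_three ht u
  obtain ⟨x', hx', y', hy', c', rfl⟩ := exists_add_three ht v
  rw [map_add T, map_add T, map_add T, map_add T, map_smul T, map_smul T, h8, h6 ⟨x, hx⟩,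
    h6 ⟨x', hx'⟩, h7 y hy, h7 y' hy', h9 _ (t _).2 _ (t _).2 _ (h4 _) _ (h4 _),
    h9 x hx x' hx' y hy y' hy', B_adj, adj_B, h1, h1]

theorem MaxIso.levi_ext {e : V} {I I' : Submodule F V} (hd : I' ⊓ S.perp I = ⊥)
    (ht : I ⊔ I' ⊔ span F {e} = ⊤) {g g' : S.U} (hI : ∀ x ∈ I, g.1 x ∈ I)
    (h1 : ∀ x ∈ I, g.1 x = g'.1 x) (h2 : ∀ y ∈ I', g.1 y ∈ I') (h2' : ∀ y ∈ I', g'.1 y ∈ I')
    (h3 : g.1 e = g'.1 e) : g = g' := by
  refine U.ext fun v => ?_
  obtain ⟨x, hx, y, hy, c, rfl⟩ := exists_add_three ht v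
  have : g.1 y - g'.1 y ∈ I' ⊓ S.perp I := ⟨sub_mem (h2 y hy) (h2' y hy), fun x hx => by
    rw [map_sub, LinearMap.sub_apply, U.iso_inv, ← U.iso g', ← h1 _ (inv_mem_of_mem hI hx),
      U.apply_inv, sub_self]⟩
  rw [hd, mem_bot, sub_eq_zero] at this
  simp only [map_add, map_smul, h1 x hx, this, h3]

end HS

end Cfsg.Hst

set_option linter.all false in
theorem Cfsg.Rz.Hst_Geo_0 : True := by
  have := @_root_.Cfsg.Hst.HS.adj.eq_def.{0, 0}
  have := @_root_.Cfsg.Hst.HS.adj.eq_1.{0, 0}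
  have := @_root_.Cfsg.Hst.HS.adj.fun_cases
  trivial
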