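import Cfsg.Agent.Hst.Geo
import Cfsg.Agent.Hst.Rep

/-!
# The subgroup generated by the Eichler maps; linear characters (S4793 project)
-/

set_option autoImplicit false
set_option linter.unusedSectionVars false
set_option linter.unusedVariables false
set_option linter.style.haveILetI false

namespace Cfsg.Hst

open Module Submodule

universe u v w

variable {F : Type u} [Field F] [Finite F] {V : Type v} [AddCommGroup V] [Module F V]

namespace HS

variable {D : FD F} [Finite V] {S : HS D V} {W : Type w} [AddCommGroup W] [Module ℂ W]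
  [FiniteDimensional ℂ W]

theorem eich_split {x a b : V} {μ : F} (h : S.Adm x (a + b) μ) (ha : S.B a x = 0) :
    ∃ μ₁ μ₂, S.Adm x a μ₁ ∧ S.Adm x b μ₂ ∧ S.eich x (a + b) μ = S.eich x a μ₁ * S.eich x b μ₂ := by
  obtain ⟨μ₁, h₁⟩ := exists_adm h.1 ha
  have h₂ : S.Adm x b (μ - μ₁ + S.B b a) := by
    obtain ⟨h1, h2, h3⟩ := h
    refine ⟨h1, by simpa [ha] using h2, ?_⟩
    simp only [map_add, map_sub, LinearMap.add_apply, σ_B] at h3 ⊢
    linear_combination h3 - h₁.2.2
  exact ⟨μ₁, _, h₁, h₂, by rw [eich_mul h₁ h₂]; congr 1; ring⟩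

theorem MaxIso.mem_of_perp_iso {e y : V} {I : Submodule F V} (h : S.MaxIso e I) (hy : y ∈ S.perp I)
    (hyy : S.B y y = 0 ∨ S.B y e = 0) : y ∈ I := by
  obtain ⟨i, hi, z, hz, rfl⟩ := mem_sup.1 (h.perp_eq ▸ hy)
  obtain ⟨c, rfl⟩ := mem_span_singleton.1 hz
  have h1 := h.mem_perp i hi
  have : c = 0 := by
    rcases hyy with hyy | hyy <;>
      simpa [h.le_perp hi i hi, h1, S.symm0 h1, h.aniso] using hyy
  simpa [this] using hi

theorem exists_iso_perp_ne (hn : Odd (finrank F V)) {e y : V} (he : S.B e e ≠ 0) (hy : S.B y y = 0)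
    (hy0 : y ≠ 0) : ∃ x, S.B x x = 0 ∧ S.B x e = 0 ∧ S.B y x ≠ 0 := by
  obtain ⟨I, -, hI⟩ := exists_maxIso hn he (X := ⊥) bot_le (fun x hx => by simp [(mem_bot F).1 hx])
  obtain ⟨I', hI', -, h2, -⟩ := hI.exists_opp
  by_contra! hc
  have h3 : ∀ J, S.MaxIso e J → y ∈ S.perp J := fun J hJ x hx =>
    hc x (hJ.le_perp hx x hx) (S.symm0 (hJ.mem_perp x hx))
  have : y ∈ I ⊓ S.perp I' := ⟨hI.mem_of_perp_iso (h3 I hI) (.inl hy), h3 I' hI'⟩
  exact hy0 (by rwa [h2] at this)

theorem eich_mem_of_QI (hn : Odd (finrank F V)) {e : V} (he : S.B e e ≠ 0) {H : Subgroup S.U}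
    (hH : ∀ I, S.MaxIso e I → S.QI I ≤ H) {x u : V} {μ : F} (h : S.Adm x u μ) (hx : S.B x e = 0) :
    S.eich x u μ ∈ H := by
  have key : ∀ (c : F) (u : V) μ, S.B u u = 0 → S.B u x = 0 → S.B u e = 0 →
      S.eich x (c • e + u) μ ∈ H := fun c u μ h1 h2 h3 => by
    obtain ⟨I, hX, hI⟩ := exists_maxIso hn he (X := span F {x, u})
      (span_le.2 (by rintro _ (rfl | rfl) <;> exact mem_perp_span.2 (by
        simp [h.1, h1, h2, S.symm0 h2]))) (mem_perp_span.2 (by simp [S.symm0 hx, S.symm0 h3]))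
    exact hH I hI (eich_mem_QI hI.le_perp (hX (subset_span (by simp)))
      (add_mem (smul_mem _ _ hI.mem_perp) (hI.le_perp (hX (subset_span (by simp))))) μ)
  obtain ⟨I, hX, hI⟩ := exists_maxIso hn he (X := span F {x})
    (span_le.2 (by simpa [mem_perp_one] using h.1)) (mem_perp_one.2 (S.symm0 hx))
  have hxI := hX (mem_span_singleton_self x)
  by_cases hu : u ∈ S.perp I
  · exact hH I hI (eich_mem_QI hI.le_perp hxI hu μ)
  obtain ⟨v, hv, huv⟩ : ∃ v ∈ I, S.B u v ≠ 0 := by simpa [mem_perp] using hu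
  have hvu : S.B v u ≠ 0 := fun h => huv (S.symm0 h)
  have hev := hI.mem_perp v hv
  obtain ⟨s, hs⟩ := D.exists_trace (t := S.B u u - S.B u e * S.B e u / S.B e e) (by
    simp only [map_sub, map_div₀, map_mul, σ_B, mul_comm])
  have e1 : u = ((S.B u e / S.B e e) • e + (u - (S.B u e / S.B e e) • e - (s / S.B v u) • v)) +
      ((0 : F) • e + (s / S.B v u) • v) := by module
  rw [e1] at h ⊢
  obtain ⟨μ₁, μ₂, h₁, h₂, h₃⟩ := eich_split h (by
    have := h.2.1
    simpa [hI.le_perp hv x hxI] using this)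
  rw [h₃]
  refine mul_mem (key _ _ _ ?_ ?_ ?_) (key _ _ _ ?_ ?_ ?_)
  · simp only [map_sub, map_smul, map_smulₛₗ, LinearMap.smul_apply, LinearMap.sub_apply, smul_eq_mul,
      map_div₀, σ_B, hev, S.symm0 hev, hI.le_perp hv v hv]
    field_simp at hs ⊢
    linear_combination (-S.B v u * S.B u v) * hs
  · simpa [S.symm0 hx] using h₁.2.1
  · simp [S.symm0 hev, div_mul_cancel₀ _ he]
  · simp [hI.le_perp hv v hv]
  · simp [hI.le_perp hv x hxI]
  · simp [S.symm0 hev]

/-- First `eich x u μ ∈ H` for isotropic `x ⊥ e`.  Then a general isotropic `y ≠ 0` has `B(y,x) ≠ 0` for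
some isotropic `x ⊥ e`, and `y = eich x .. x'` with `x' ⊥ e` isotropic (`exists_eich_apply_eq`); conjugate. -/
theorem NN_le (hn : Odd (finrank F V)) (h3 : 3 ≤ finrank F V) {e : V} (he : S.B e e ≠ 0)
    {H : Subgroup S.U} (hH : ∀ I, S.MaxIso e I → S.QI I ≤ H) : S.NN ≤ H := by
  refine (Subgroup.closure_le _).2 ?_
  rintro _ ⟨y, u, μ, rfl⟩
  by_cases h : S.Adm y u μ
  swap
  · rw [eich_of_not h]; exact one_mem H
  by_cases hy0 : y = 0
  · exact eich_mem_of_QI hn he hH h (by simp [hy0])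
  obtain ⟨x, h1, h2, h3⟩ := exists_iso_perp_ne hn he h.1 hy0
  obtain ⟨x', h4, h5, h6⟩ := exists_iso_perp_ne hn he h1 (by rintro rfl; simp at h3)
  have h7 : S.B x' x ≠ 0 := fun h => h6 (S.symm0 h)
  obtain ⟨u₀, μ₀, h8, -, h9⟩ := exists_eich_apply_eq (v := (S.B y x / S.B x' x) • x') (w := y) h1
    (by simp [h4, h.1]) (by simp [div_mul_cancel₀ _ h7]) (by simp [h3, h7])
  have hg := eich_mem_of_QI hn he hH h8 h2
  set g := S.eich x u₀ μ₀
  have := eich_conj g ((S.B y x / S.B x' x) • x') ((g⁻¹).1 u) μ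
  rw [h9, U.apply_inv] at this
  rw [← this]
  refine mul_mem (mul_mem hg (eich_mem_of_QI hn he hH ?_ (by simp [h5]))) (inv_mem hg)
  simpa only [Adm, ← U.iso g ((S.B y x / S.B x' x) • x'), ← U.iso g ((g⁻¹).1 u), h9, U.apply_inv] using h

theorem exists_iso_ne (h2 : 2 ≤ finrank F V) {y : V} (hy : y ≠ 0) : ∃ w, S.B w w = 0 ∧ S.B w y ≠ 0 := by
  by_cases hyy : S.B y y = 0
  · obtain ⟨w, h1, h2⟩ := S.exists_hyp hyy hy
    exact ⟨w, h1, by simp [h2]⟩
  by_contra! hc
  obtain ⟨x, hx0, hx⟩ := S.exists_iso h2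
  obtain ⟨x', h1, h2⟩ := S.exists_hyp hx hx0
  obtain ⟨a, ha⟩ := D.exists_trace (t := -S.B y y) (by rw [map_neg, σ_B])
  have h3 : S.B x x' = 1 := by rw [← σ_B, h2, map_one]
  have := hc (x' + y + a • x) (by
    simp only [map_add, map_smul, map_smulₛₗ, LinearMap.smul_apply, LinearMap.add_apply, smul_eq_mul,
      h1, h2, h3, hx, hc x hx, hc x' h1, S.symm0 (hc x hx), S.symm0 (hc x' h1)]
    linear_combination ha)
  simp [hc x hx, hc x' h1, hyy] at this

theorem exists_NN_add {e w : V} (he : S.B e e ≠ 0) (hw : S.B w w = 0) (hew : S.B e w = 0) :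
    ∃ g ∈ S.NN, g.1 e = e + w := by
  obtain ⟨μ, h⟩ := exists_adm (u := (-(S.B e e)⁻¹) • e) hw (by simp [hew])
  exact ⟨_, S.eich_mem_NN w _ μ, by rw [eich_apply h]; simp [hew, σ_B, he]⟩

/-- `NN` is transitive on anisotropic lines: two tangent steps `e ↦ e + w`, `w ⊥ e` isotropic. -/
theorem exists_NN_map (h3 : 3 ≤ finrank F V) {e e' : V} (he : S.B e e ≠ 0) (he' : S.B e' e' ≠ 0) :
    ∃ g ∈ S.NN, ∃ c : F, c ≠ 0 ∧ g.1 e' = c • e := by
  have hy : e' - (S.B e' e / S.B e e) • e ∈ S.perp (span F {e}) :=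
    mem_perp_one.2 (by simp [div_mul_cancel₀ _ he])
  by_cases h0 : e' - (S.B e' e / S.B e e) • e = 0
  · refine ⟨1, one_mem _, _, fun h => he' ?_, sub_eq_zero.1 h0⟩
    rw [sub_eq_zero.1 h0, h]
    simp
  have hd := S.finrank_perp (span F {e})
  rw [finrank_span_singleton (by rintro rfl; simp at he)] at hd
  obtain ⟨⟨w, hw⟩, h1, h2⟩ := exists_iso_ne (S := S.res _ (S.nondeg_perp (S.nondeg_one he)))
    (by omega) (y := ⟨_, hy⟩) fun h => h0 (congrArg Subtype.val h)
  rw [mem_perp_one] at hw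
  have h4 : S.B e' w ≠ 0 := fun h => h2 (by simp [hw, S.symm0 h])
  rw [res_B] at h1
  obtain ⟨κ, hκ⟩ := D.exists_norm (t := S.B e e * S.B e' e') (by rw [map_mul, σ_B, σ_B])
  have hκ0 : κ ≠ 0 := by
    rintro rfl
    exact mul_ne_zero he he' (by simpa using hκ.symm)
  obtain ⟨t, ht⟩ : ∃ t : F, D.σ t * S.B e' w = κ - S.B e' e :=
    ⟨D.σ ((κ - S.B e' e) / S.B e' w), by rw [FD.σσ, div_mul_cancel₀ _ h4]⟩
  obtain ⟨g₀, hg₀, e₀⟩ := exists_NN_add (w := t • w) he (by simp [h1]) (by simp [S.symm0 hw])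
  have h5 : S.B (e + t • w) (e + t • w) = S.B e e := by rw [← e₀, U.iso]
  have h6 : S.B e' (e + t • w) = κ := by simp [ht]
  have h7 : S.B (e + t • w) e' = D.σ κ := by rw [← σ_B, h6]
  generalize e + t • w = e₁ at *
  obtain ⟨g₁, hg₁, e₂⟩ := exists_NN_add (S := S) (e := (κ / S.B e e) • e₁)
    (w := e' - (κ / S.B e e) • e₁) (by simp [h5, he, hκ0]) (by
      simp only [map_sub, map_smul, map_smulₛₗ, LinearMap.smul_apply, LinearMap.sub_apply, smul_eq_mul,
        map_div₀, σ_B, h5, h6, h7]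
      field_simp
      linear_combination -hκ) (by
      simp only [map_sub, map_smul, map_smulₛₗ, LinearMap.smul_apply, LinearMap.sub_apply, smul_eq_mul,
        map_div₀, σ_B, h5, h6, h7]
      field_simp
      ring)
  refine ⟨(g₁ * g₀)⁻¹, inv_mem (mul_mem hg₁ hg₀), κ / S.B e e, div_ne_zero hκ0 he, ?_⟩
  rw [add_sub_cancel, ← e₀, ← map_smul, ← U.mul_apply] at e₂
  rw [← e₂, U.inv_apply]

theorem detU_eich (x u : V) (μ : F) : S.detU (S.eich x u μ) = 1 := by
  by_cases h : S.Adm x u μ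
  swap
  · rw [eich_of_not h, map_one]
  have : ((S.eich x u μ).1 : V →ₗ[F] V) =
      LinearMap.transvection ((μ + S.B u u) • S.B.flip x - S.B.flip u) x *
        LinearMap.transvection (S.B.flip x) u := LinearMap.ext fun w => by
    simp only [LinearEquiv.coe_coe, eich_apply h, End.mul_apply, LinearMap.transvection.apply,
      LinearMap.sub_apply, LinearMap.smul_apply, LinearMap.flip_apply, map_add, map_smul,
      LinearMap.add_apply, smul_eq_mul, h.2.1]
    module
  refine Units.ext ?_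
  rw [detU, MonoidHom.comp_apply, LinearEquiv.coe_det, Subgroup.coe_subtype, this, map_mul,
    LinearMap.transvection.det, LinearMap.transvection.det]
  simp [h.1, h.2.1, S.symm0 h.2.1]

theorem detU_NN {g : S.U} (hg : g ∈ S.NN) : S.detU g = 1 :=
  (Subgroup.closure_le S.detU.ker).2 (by rintro _ ⟨x, u, μ, rfl⟩; exact detU_eich x u μ) hg

/-- An irreducible representation with `NN`-fixed vectors is `η ∘ det`: an eigenvector of one reflection
group spans an invariant line (`PS_le_of_rk` for `X = ⊤`). -/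
theorem eq_det (h3 : 3 ≤ finrank F V) {ρ : Representation ℂ S.U W} (hρ : ρ.IsIrreducible)
    (hN : fixS ρ S.NN ≠ ⊥) : ∃ η : Fˣ →* ℂˣ, ρ.character = fun g => (η.comp S.detU g : ℂ) := by
  have h1 : ∀ g ∈ S.NN, ρ g = 1 := fun g hg => LinearMap.ext fun w =>
    (fixS_eq_top_of_normal hρ S.NN hN).ge (mem_top (x := w)) g hg
  haveI : Nontrivial V := Module.nontrivial_of_finrank_pos (R := F) (by omega)
  obtain ⟨e, he⟩ := S.exists_aniso
  replace he : S.B e e ≠ 0 := by simp [he]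
  obtain ⟨φ, hφ⟩ := exists_rfEquiv he
  obtain ⟨lam, w, -, hw0, hw⟩ := exists_eig (ρ := ρ) (S.PS (span F {e})) (Y := ⊤) (Y' := ⊥)
    (fun _ _ _ _ => trivial) (fun a ha b hb y _ => by
      have := φ.symm.injective ((map_mul _ ⟨a, ha⟩ ⟨b, hb⟩).trans ((mul_comm _ _).trans
        (map_mul _ _ _).symm))
      rw [← End.mul_apply, ← map_mul, show a * b = b * a from congrArg Subtype.val this, map_mul,
        End.mul_apply]) (fun h => hN (le_bot_iff.1 (le_top.trans h)))
  obtain ⟨η, hη⟩ := MonoidHom.domRestrict_surjective ℂ D.mu (lam.comp φ.toMonoidHom)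
  have key : ∀ g, ρ g w = (η.comp S.detU g : ℂ) • w := fun g => by
    refine PS_le_of_rk (X := ⊤) (H :=
      { carrier := {g | ρ g w = (η.comp S.detU g : ℂ) • w}
        mul_mem' := fun {a b} ha hb => by
          simp only [Set.mem_ofPred_eq] at *
          rw [map_mul, End.mul_apply, hb, map_smul, ha, map_mul, Units.val_mul, smul_smul, mul_comm]
        one_mem' := by simp
        inv_mem' := fun {a} ha => by
          simp only [Set.mem_ofPred_eq] at *
          rw [map_inv (η.comp _), Units.val_inv_eq_inv_val, eq_inv_smul_iff₀ (Units.ne_zero _), ← map_smul, ← ha,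
            ← End.mul_apply, ← map_mul, inv_mul_cancel, map_one, End.one_apply] })
      (fun x _ γ hγ => ?_) (fun w => trivial)
    change ρ _ w = _
    by_cases hx : S.B x x = 0
    · rw [← eich_zero hx, h1 _ (S.eich_mem_NN _ _ _), MonoidHom.comp_apply, detU_eich]
      simp
    obtain ⟨g, hg, c, -, hc⟩ := exists_NN_map h3 he hx
    have hm : g * S.rk x γ * g⁻¹ ∈ S.PS (span F {e}) := by
      rw [rk_conj, hc, rk_smul]
      exact rk_mem_PS _ _
    obtain ⟨a, ha⟩ := φ.surjective ⟨_, hm⟩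
    have h2 := hw (φ a)
    have h4 : S.detU (S.rk x γ) = a.1 := by
      rw [← detU_rf he, ← hφ, ha, map_mul, map_mul, map_inv, mul_inv_cancel_comm]
    rw [ha, map_mul, map_mul, h1 g hg, h1 _ (inv_mem hg), one_mul, mul_one, ← ha] at h2
    rw [h2, MonoidHom.comp_apply, h4]
    exact congrArg (fun z : ℂˣ => (z : ℂ) • w) (DFunLike.congr_fun hη a).symm
  obtain ⟨ψ, h5, h6⟩ := exists_linear_of_line hρ (w := w) (by simpa using hw0) fun g => ⟨_, key g⟩
  refine ⟨η, h5.trans (funext fun g => ?_)⟩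
  exact smul_left_injective ℂ (by simpa using hw0) ((h6 g).symm.trans (key g))

end HS

end Cfsg.Hst
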