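import Cfsg.Agent.Hst.Singer
import Cfsg.Agent.Hst.Form
import Cfsg.Agent.Hst.Rep

/-!
# The centraliser of a Singer element of the Levi subgroup and its regular orbits (S4793 project)
-/

set_option autoImplicit false
set_option linter.unusedSectionVars false
set_option linter.unusedVariables false
set_option linter.style.haveILetI false

namespace Cfsg.Hst

open Module Submodule

universe u v w

variable {F : Type u} [Field F] [Finite F] {V : Type v} [AddCommGroup V] [Module F V]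

namespace HS

variable {D : FD F} [Finite V] {S : HS D V} {W : Type w} [AddCommGroup W] [Module ℂ W]
  [FiniteDimensional ℂ W]

theorem MaxIso.mem_of_perp_tor {e : V} {I : Submodule F V} (hI : S.MaxIso e I) {w : V}
    (h1 : w ∈ S.perp I) (h2 : S.B w e = 0) : w ∈ I := by
  rw [hI.perp_eq] at h1
  obtain ⟨i, hi, w, hw, rfl⟩ := mem_sup.1 h1
  obtain ⟨c, rfl⟩ := mem_span_singleton.1 hw
  rw [map_add, LinearMap.add_apply, S.symm0 (hI.mem_perp i hi), zero_add, map_smul,
    LinearMap.smul_apply, smul_eq_mul, mul_eq_zero] at h2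
  rwa [h2.resolve_right hI.aniso, zero_smul, add_zero]

theorem MaxIso.mem_PS_of {e : V} {I : Submodule F V} (hI : S.MaxIso e I) {a : S.U}
    (h1 : ∀ x ∈ I, a.1 x = x) (h2 : a.1 e = e) : a ∈ S.PS I := by
  have : S.perp I ≤ LinearMap.ker (S.sub1 a) := by
    rw [hI.perp_eq]
    exact sup_le (fun x hx => sub_eq_zero.2 (h1 x hx))
      ((span_singleton_le_iff_mem _ _).2 (sub_eq_zero.2 h2))
  exact mem_PS_perp.2 fun w hw => sub_eq_zero.1 (this hw)

/-- `g` = Levi element of `θ` (`exists_opp`, `exists_levi`).  For `u ∈ C(g)` the form `B(u x, y)` on `I` is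
`θ`-invariant, so zero (`noform`), and `x ↦ B(u x, e)` kills the image of `θ - 1`; so `u I ≤ I`.  `Fix g = F e`.
A map `s : I' → I` commuting with `g` is zero (else onto by `irr`, bijective, and `B(s⁻¹ x, y)` is an invariant form).
The lower bound: `(t, a) ↦ levi t * rf e a` is injective (`levi_ext` for the commutation). -/
theorem MaxIso.exists_torus {e : V} {I : Submodule F V} (hI : S.MaxIso e I) {θ : End F I}
    (hθ : Singer D θ) : ∃ g : S.U,
    (∀ u ∈ Subgroup.centralizer ({g} : Set S.U), ∃ (t : End F I) (a : D.mu), Commute t θ ∧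
      (∀ x : I, u.1 x = t x) ∧ u.1 e = (a.1 : F) • e) ∧
    (∀ u ∈ Subgroup.centralizer ({g} : Set S.U), ∀ z a : D.mu, (∀ x ∈ I, u.1 x = (z.1 : F) • x) →
      u.1 e = (a.1 : F) • e → u = S.sc z * S.rf e (z⁻¹ * a)) ∧
    (Nat.card I - 1) * (D.q + 1) ≤ Nat.card (Subgroup.centralizer ({g} : Set S.U)) := by
  classical
  obtain ⟨I', hI', hd, hd', ht⟩ := hI.exists_opp
  obtain ⟨g, hg1, hg2, hg3⟩ := hI.exists_levi hI' hd hd' ht θ (hθ.bij θ (Commute.refl _) hθ.ne_zero)
  have hb1 : Function.Bijective (θ - 1 : End F I) :=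
    hθ.bij _ ((Commute.refl θ).sub_left (Commute.one_left θ)) (sub_ne_zero.2 hθ.ne_one)
  have hgI : ∀ x ∈ I, g.1 x ∈ I := fun x hx => by rw [hg1 ⟨x, hx⟩]; exact (θ ⟨x, hx⟩).2
  have hC : ∀ u ∈ Subgroup.centralizer ({g} : Set S.U), ∀ w, u.1 (g.1 w) = g.1 (u.1 w) :=
    fun u hu w => by
      rw [← U.mul_apply, ← U.mul_apply, Subgroup.mem_centralizer_singleton_iff.1 hu]
  have hrf : ∀ a, g * S.rf e a = S.rf e a * g := fun a => by
    rw [← mul_inv_eq_iff_eq_mul, rf, rk_conj, hg3]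
  refine ⟨g, fun u hu => ?_, fun u hu z a h1 h2 => ?_, ?_⟩
  · have h1 : ∀ x ∈ I, u.1 x ∈ I := by
      intro x hx
      have h2 := hθ.noform (S.B.domRestrict₁₂ ⊤ I ∘ₗ
        (((u.1 : V →ₗ[F] V) ∘ₗ I.subtype).codRestrict ⊤ fun _ => trivial)) fun x y => by
          change S.B (u.1 (θ x)) (θ y) = S.B (u.1 x) y
          rw [← hg1, ← hg1, hC u hu, U.iso]
      refine hI.mem_of_perp_tor (fun y hy => LinearMap.congr_fun₂ h2 ⟨x, hx⟩ ⟨y, hy⟩) ?_
      obtain ⟨y, hy⟩ := hb1.2 ⟨x, hx⟩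
      have h3 : x = g.1 y - y := by rw [hg1]; exact (congrArg Subtype.val hy).symm
      rw [h3, map_sub, map_sub, LinearMap.sub_apply, hC u hu]
      nth_rw 1 [← hg3]
      rw [U.iso, sub_self]
    have h2 : g.1 (u.1 e) = u.1 e := by rw [← hC u hu, hg3]
    have h3 : u.1 e ∈ S.perp I := fun x hx => S.symm0 (by
      obtain ⟨y, hy⟩ := hb1.2 ⟨x, hx⟩
      have h3 : x = g.1 y - y := by rw [hg1]; exact (congrArg Subtype.val hy).symm
      rw [h3, map_sub, LinearMap.sub_apply]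
      nth_rw 1 [← h2]
      rw [U.iso, sub_self])
    rw [hI.perp_eq] at h3
    obtain ⟨i, hi, w, hw, h4⟩ := mem_sup.1 h3
    obtain ⟨c, rfl⟩ := mem_span_singleton.1 hw
    have h5 : i = 0 := by
      rw [← h4, map_add, map_smul, hg3, add_left_inj, hg1 ⟨i, hi⟩] at h2
      have : (θ - 1 : End F I) ⟨i, hi⟩ = (θ - 1 : End F I) 0 := by
        rw [map_zero]; exact Subtype.ext (sub_eq_zero.2 h2)
      exact congrArg Subtype.val (hb1.1 this)
    rw [h5, zero_add] at h4
    have h6 := U.iso u e e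
    rw [← h4] at h6
    simp only [map_smul, map_smulₛₗ, LinearMap.smul_apply, smul_eq_mul] at h6
    obtain ⟨a, ha⟩ := D.exists_mu (c := c)
      (mul_right_cancel₀ hI.aniso (by linear_combination h6))
    refine ⟨(u.1 : V →ₗ[F] V).restrict h1, a, LinearMap.ext fun x => Subtype.ext ?_,
      fun x => rfl, by rw [ha, h4]⟩
    change u.1 (θ x) = θ ⟨u.1 x, h1 x x.2⟩
    rw [← hg1, ← hg1, hC u hu]
  · set v := S.sc z * S.rf e (z⁻¹ * a) with hv
    have hvC : v ∈ Subgroup.centralizer ({g} : Set S.U) := by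
      rw [Subgroup.mem_centralizer_singleton_iff, hv, mul_assoc, ← hrf, ← mul_assoc, S.sc_comm,
        mul_assoc]
    have h3 : v⁻¹ * u ∈ S.PS I := by
      refine hI.mem_PS_of (fun x hx => ?_) ?_
      · have : v.1 x = u.1 x := by
          rw [hv, U.mul_apply, rf_perp (S.symm0 (hI.mem_perp x hx)), h1 x hx, sc_apply]
        rw [U.mul_apply, ← this, U.inv_apply]
      · have : v.1 e = u.1 e := by
          rw [hv, U.mul_apply, rf_self hI.aniso, h2, sc_apply, smul_smul]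
          simp
        rw [U.mul_apply, ← this, U.inv_apply]
    have h4 := hC _ (mul_mem (inv_mem hvC) hu)
    generalize hu' : v⁻¹ * u = u' at h3 h4
    suffices u' = 1 by rw [← hu', inv_mul_eq_one] at this; exact this.symm
    let s : I' →ₗ[F] I := (S.sub1 u' ∘ₗ I'.subtype).codRestrict I fun y => h3 y
    have hs : ∀ y : I', s ⟨g.1 y, hg2 y y.2⟩ = θ (s y) := fun y => Subtype.ext (by
      rw [← hg1]
      change u'.1 (g.1 y) - g.1 y = g.1 (u'.1 y - y)
      rw [h4, map_sub])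
    have h5 : LinearMap.range s = ⊥ := by
      refine (hθ.irr _ ?_).resolve_right fun h5 => ?_
      · rintro _ ⟨y, rfl⟩
        exact ⟨_, hs y⟩
      have h6 : Function.Surjective s := LinearMap.range_eq_top.1 h5
      let r := (LinearEquiv.ofBijective s
        ⟨(LinearMap.injective_iff_surjective_of_finrank_eq_finrank (by
          have := hI.finrank_eq; have := hI'.finrank_eq; omega)).2 h6, h6⟩).symm
      have hr : ∀ y, r (s y) = y := fun y => (LinearEquiv.ofBijective s _).symm_apply_apply y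
      have h7 := hθ.noform (S.B.domRestrict₁₂ I' I ∘ₗ r.toLinearMap) fun x y => by
        obtain ⟨x, rfl⟩ := h6 x
        change S.B (r (θ (s x))) (θ y) = S.B (r (s x)) y
        rw [← hs, hr, hr, ← hg1, U.iso]
      refine hθ.ne_zero (LinearMap.ext fun x => ?_)
      obtain ⟨y, rfl⟩ := h6 x
      have h8 : (y : V) ∈ I' ⊓ S.perp I := ⟨y.2, fun x hx => by
        have := LinearMap.congr_fun₂ h7 (s y) ⟨x, hx⟩
        change S.B (r (s y)) x = 0 at this
        rwa [hr] at this⟩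
      rw [hd] at h8
      rw [show y = 0 from Subtype.ext h8]
      simp
    have h6 : I ⊔ I' ⊔ span F {e} ≤ LinearMap.ker (S.sub1 u') := by
      refine sup_le (sup_le (fun x hx => ?_) fun y hy => ?_) ?_
      · exact sub_eq_zero.2 (mem_PS_perp.1 h3 x (hI.le_perp hx))
      · exact congrArg Subtype.val (LinearMap.congr_fun (LinearMap.range_eq_bot.1 h5) ⟨y, hy⟩)
      · exact (span_singleton_le_iff_mem _ _).2 (sub_eq_zero.2 (mem_PS_perp.1 h3 e hI.mem_perp))
    rw [ht] at h6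
    exact U.ext fun w => sub_eq_zero.1 (h6 (mem_top (x := w)))
  · haveI : Finite (End F I) := Finite.of_injective _ DFunLike.coe_injective
    let T := {t : End F I // Commute t θ}
    let o : T := ⟨0, Commute.zero_left θ⟩
    have h1 : Nat.card {t : T // t ≠ o} = Nat.card I - 1 := by
      haveI := Fintype.ofFinite T
      rw [← hθ.card, Nat.card_eq_fintype_card, Nat.card_eq_fintype_card]
      simp [T]
    choose L hL1 hL2 hL3 using fun t : {t : T // t ≠ o} =>
      hI.exists_levi hI' hd hd' ht t.1.1 (hθ.bij _ t.1.2 fun h => t.2 (Subtype.ext h))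
    have hLg : ∀ t, L t * g = g * L t := fun t => by
      refine MaxIso.levi_ext hd ht (fun x hx => ?_) (fun x hx => ?_)
        (fun y hy => hL2 t _ (hg2 y hy)) (fun y hy => hg2 _ (hL2 t y hy)) ?_
      · rw [U.mul_apply, hg1 ⟨x, hx⟩, hL1]; exact SetLike.coe_mem _
      · rw [U.mul_apply, U.mul_apply, hg1 ⟨x, hx⟩, hL1, hL1 t ⟨x, hx⟩, hg1, ← End.mul_apply,
          t.1.2.eq, End.mul_apply]
      · rw [U.mul_apply, U.mul_apply, hg3, hL3, hg3]
    rw [← h1, ← D.card_mu, ← Nat.card_prod]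
    refine Nat.card_le_card_of_injective (fun p => ⟨L p.1 * S.rf e p.2, ?_⟩) ?_
    · rw [Subgroup.mem_centralizer_singleton_iff, mul_assoc, ← hrf, ← mul_assoc, hLg, mul_assoc]
    · rintro ⟨t, a⟩ ⟨t', a'⟩ h
      have h2 : ∀ w, (L t).1 ((S.rf e a).1 w) = (L t').1 ((S.rf e a').1 w) := fun w =>
        congrArg (fun u : Subgroup.centralizer ({g} : Set S.U) => u.1.1 w) h
      refine Prod.ext (Subtype.ext (Subtype.ext (LinearMap.ext fun x => Subtype.ext ?_)))
        (Subtype.ext (Units.ext ?_))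
      · have := h2 x
        rwa [rf_perp (S.symm0 (hI.mem_perp x x.2)), rf_perp (S.symm0 (hI.mem_perp x x.2)),
          hL1, hL1] at this
      · have := h2 e
        rw [rf_self hI.aniso, rf_self hI.aniso, map_smul, map_smul, hL3, hL3] at this
        exact smul_left_injective F (fun h => hI.aniso (by simp [h])) this

/-- Case (a): `PS I` acts nontrivially on an eigenspace of the reflection group.  Take an eigenvector
(`exists_eig`), its form `h ≠ 0`, a Singer cycle for `h`; the stabiliser in `C(g)` lies in `Z μ_e`. -/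
theorem MaxIso.tor_a {e : V} {I : Submodule F V} (hI : S.MaxIso e I) (h4 : 4 < Nat.card I)
    (ρ : Representation ℂ S.U W) (hZ : ∀ z, ρ (S.sc z) = 1) (κ : S.PS (span F {e}) →* ℂˣ)
    (hne : ¬ eigS ρ (S.PS (span F {e})) κ ≤ fixS ρ (S.PS I)) :
    Nat.card I - 1 ≤ (D.q + 1) * finrank ℂ (eigS ρ (S.PS (span F {e})) κ) ∧
      (κ = 1 → ∃ g : S.U, fixS ρ (Subgroup.centralizer ({g} : Set S.U)) ≠ ⊥) := by
  obtain ⟨lam, w, hwY, hwn, hw⟩ := exists_eig (ρ := ρ) (S.PS I)
    (Y := eigS ρ (S.PS (span F {e})) κ) (fun a ha y hy b => by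
      rw [← End.mul_apply, ← map_mul, ← PS_comm_perp
        (fun x hx => mem_perp_one.2 (S.symm0 (hI.mem_perp x hx))) ha b.2, map_mul, End.mul_apply,
        hy b, map_smul])
    (fun a ha b hb y hy => by
      rw [← End.mul_apply, ← End.mul_apply, ← map_mul, ← map_mul, PS_comm hI.le_perp ha hb]) hne
  have hw0 : w ≠ 0 := fun h => hwn (h ▸ zero_mem _)
  obtain ⟨ψ, hψ, hσ⟩ := D.exists_psi
  obtain ⟨h, H⟩ := exists_formOf hψ hσ hI.le_perp lam
  have hh : h ≠ 0 := fun h0 => hwn (by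
    rwa [(H.eq_one_iff hψ hI.le_perp).2 h0, eigS_one] at hw)
  obtain ⟨θ, hθ, hsc⟩ := exists_singer D h4 h H.herm
  obtain ⟨g, hg1, hg2, hg3⟩ := hI.exists_torus hθ
  have hT : ∀ u ∈ Subgroup.centralizer ({g} : Set S.U), ∀ x ∈ I, u.1 x ∈ I := fun u hu x hx => by
    obtain ⟨t, a, -, h1, -⟩ := hg1 u hu
    rw [h1 ⟨x, hx⟩]; exact SetLike.coe_mem _
  have hn : ∀ u ∈ Subgroup.centralizer ({g} : Set S.U), ∀ a ∈ S.PS I, u⁻¹ * a * u ∈ S.PS I :=
    fun u hu a ha => conj_mem_PS (hT u hu) ha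
  have hst : ∀ u (hu : u ∈ Subgroup.centralizer ({g} : Set S.U)),
      (∀ a : S.PS I, lam ⟨u⁻¹ * a * u, hn u hu a a.2⟩ = lam a) →
      ∃ z a, u = S.sc z * S.rf e a := fun u hu h1 => by
    obtain ⟨t, a, h2, h3, h4⟩ := hg1 u hu
    obtain ⟨z, rfl⟩ := hsc hh t h2 (H.stab hψ (hT u hu) t h3 h1)
    exact ⟨z, _, hg2 u hu z a (fun x hx => h3 ⟨x, hx⟩) h4⟩
  refine ⟨?_, fun hκ => ⟨g, orbit_fixed hn lam hw0 hw fun u hu h1 => ?_⟩⟩
  · let f := MonoidHom.noncommCoprod S.sc (S.PS (span F {e})).subtype fun z b => S.sc_comm z b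
    have h1 := orbit_dim (ρ := ρ) (T₀ := f.range) hn lam (Y := eigS ρ (S.PS (span F {e})) κ) (fun u hu y hy b => by
      obtain ⟨t, a, -, -, h2⟩ := hg1 u hu
      obtain ⟨γ, -, h3⟩ := exists_rk_of_mem_PS b.2
      have h4 : b.1 * u = u * b.1 := by
        rw [eq_comm, ← mul_inv_eq_iff_eq_mul, h3, rk_conj, h2, rk_smul, D.mu_norm, one_mul]
      rw [← End.mul_apply, ← map_mul, h4, map_mul, End.mul_apply, hy b, map_smul]) hwY hw0 hw
      fun u hu h1 => by
        obtain ⟨z, a, rfl⟩ := hst u hu h1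
        exact ⟨(z, ⟨_, rf_mem e a⟩), rfl⟩
    have h2 : Nat.card f.range ≤ (D.q + 1) * (D.q + 1) := by
      obtain ⟨φ, -⟩ := exists_rfEquiv hI.aniso
      refine (Nat.card_le_card_of_surjective _ f.rangeRestrict_surjective).trans ?_
      rw [Nat.card_prod, ← Nat.card_congr φ.toEquiv, D.card_mu]
    refine Nat.le_of_mul_le_mul_right (c := D.q + 1) (hg3.trans (h1.trans ?_)) (by omega)
    exact (Nat.mul_le_mul_right _ h2).trans (le_of_eq (by ring))
  · obtain ⟨z, a, rfl⟩ := hst u hu h1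
    rw [hκ, eigS_one] at hwY
    rw [map_mul, hZ, one_mul, hwY _ (rf_mem e a)]

/-- Case (b): `QI I` acts nontrivially on the fixed space of `PS I`.  `a ↦ a e - e` maps `QI I` onto `I` with
kernel `PS I`; `C(g) / Z` acts freely on the nontrivial characters. -/
theorem MaxIso.tor_b {e : V} {I : Submodule F V} (hI : S.MaxIso e I) (h4 : 4 < Nat.card I)
    (ρ : Representation ℂ S.U W) (hZ : ∀ z, ρ (S.sc z) = 1)
    (hne : ¬ fixS ρ (S.PS I) ≤ fixS ρ (S.QI I)) :
    Nat.card I - 1 ≤ finrank ℂ W ∧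
      ∃ g : S.U, fixS ρ (Subgroup.centralizer ({g} : Set S.U)) ≠ ⊥ := by
  have hδ : ∀ a ∈ S.QI I, ∀ b ∈ S.QI I, (a * b).1 e - e = (a.1 e - e) + (b.1 e - e) :=
    fun a ha b hb => by
      rw [← ha.1 _ (hb.2 e hI.mem_perp), map_sub, U.mul_apply]; abel
  have hP : ∀ a ∈ S.QI I, ∀ b ∈ S.QI I, a.1 e - e = b.1 e - e → a⁻¹ * b ∈ S.PS I :=
    fun a ha b hb h => hI.mem_PS_of (mul_mem (inv_mem ha) hb).1 (by
      rw [U.mul_apply, ← sub_left_inj.1 h, U.inv_apply])
  obtain ⟨lam, w, hwY, hwn, hw⟩ := exists_eig (ρ := ρ) (S.QI I) (Y := fixS ρ (S.PS I)) (fun a ha y hy b hb => by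
      conv_rhs => rw [← hy _ (conj_mem_PS (u := a) (fun x hx => by rwa [ha.1 x hx]) hb)]
      rw [← End.mul_apply, ← End.mul_apply, ← map_mul, ← map_mul]
      congr 2; group)
    (fun a ha b hb y hy => by
      conv_lhs => rw [← hy _ (hP _ (mul_mem ha hb) _ (mul_mem hb ha) (by
        rw [hδ a ha b hb, hδ b hb a ha, add_comm]))]
      simp only [← End.mul_apply, ← map_mul]
      congr 2; group) hne
  have hw0 : w ≠ 0 := fun h => hwn (h ▸ zero_mem _)
  have hl : ∀ a b : S.QI I, a.1.1 e - e = b.1.1 e - e → lam a = lam b := fun a b h => by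
    have h1 := (hwY _ (hP _ a.2 _ b.2 h)).symm.trans (hw (a⁻¹ * b))
    nth_rw 1 [← one_smul ℂ w] at h1
    have h2 : lam (a⁻¹ * b) = 1 := Units.ext (smul_left_injective ℂ hw0 h1).symm
    rwa [map_mul, map_inv, inv_mul_eq_one] at h2
  have hon : ∀ x ∈ I, ∃ a : S.QI I, a.1.1 e - e = x := fun x hx => by
    have hx' := I.smul_mem (-(S.B e e)⁻¹) hx
    obtain ⟨μ, hμ⟩ := exists_adm (hI.le_perp hx' _ hx') (hI.mem_perp _ hx')
    refine ⟨⟨_, eich_mem_QI hI.le_perp hx' hI.mem_perp μ⟩, ?_⟩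
    change (S.eich _ _ _).1 e - e = x
    rw [eich_apply hμ, hI.mem_perp _ hx']
    simp [smul_smul, hI.aniso]
  obtain ⟨θ, hθ, -⟩ := exists_singer D h4 0 fun u v => by simp
  obtain ⟨g, hg1, hg2, hg3⟩ := hI.exists_torus hθ
  have hn : ∀ u ∈ Subgroup.centralizer ({g} : Set S.U), ∀ a ∈ S.QI I, u⁻¹ * a * u ∈ S.QI I :=
    fun u hu a ha => conj_mem_QI (fun x hx => by
      obtain ⟨t, a, -, h1, -⟩ := hg1 u hu
      rw [h1 ⟨x, hx⟩]; exact SetLike.coe_mem _) ha
  have hst : ∀ u (hu : u ∈ Subgroup.centralizer ({g} : Set S.U)),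
      (∀ a : S.QI I, lam ⟨u⁻¹ * a * u, hn u hu a a.2⟩ = lam a) → ∃ z, S.sc z = u := by
    intro u hu h1
    obtain ⟨t, c, h2, h3, h4⟩ := hg1 u hu
    by_cases h5 : (c.1 : F) • (1 : End F I) - t = 0
    · refine ⟨c, ?_⟩
      rw [hg2 u hu c c (fun x hx => by rw [h3 ⟨x, hx⟩, ← sub_eq_zero.1 h5]; rfl) h4,
        inv_mul_cancel]
      obtain ⟨φ, hφ⟩ := exists_rfEquiv hI.aniso
      rw [← hφ, map_one, OneMemClass.coe_one, mul_one]
    refine (hwn fun a ha => ?_).elim
    obtain ⟨y, hy⟩ := (hθ.bij _ (((Commute.one_left θ).smul_left _).sub_left h2) h5).2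
      ⟨_, ha.2 e hI.mem_perp⟩
    have hy' : (c.1 : F) • (y : V) - t y = a.1 e - e := congrArg Subtype.val hy
    obtain ⟨b, hb⟩ := hon _ (t y).2
    have h6 := hl (⟨a, ha⟩ * b) ⟨u⁻¹ * b * u, hn u hu b b.2⟩ (by
      change (a * b.1).1 e - e = (u⁻¹).1 (b.1.1 (u.1 e)) - e
      rw [hδ a ha _ b.2, ← hy', hb, h4, map_smul, sub_eq_iff_eq_add.1 hb, smul_add, map_add,
        ← h4, U.inv_apply, ← h3, map_smul, U.inv_apply]
      abel)
    rw [h1, map_mul, mul_eq_right] at h6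
    rw [hw ⟨a, ha⟩, h6, Units.val_one, one_smul]
  refine ⟨?_, g, orbit_fixed hn lam hw0 hw fun u hu h1 => ?_⟩
  · have h1 := orbit_dim (T₀ := S.sc.range) hn lam (Y := ⊤) (fun _ _ _ _ => trivial) trivial hw0 hw
      hst
    have h2 : Nat.card S.sc.range ≤ D.q + 1 :=
      (Nat.card_le_card_of_surjective _ S.sc.rangeRestrict_surjective).trans D.card_mu.le
    rw [finrank_top] at h1
    refine Nat.le_of_mul_le_mul_right (c := D.q + 1) (hg3.trans (h1.trans ?_)) (by omega)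
    exact (Nat.mul_le_mul_right _ h2).trans (le_of_eq (by ring))
  · obtain ⟨z, rfl⟩ := hst u hu h1
    rw [hZ]; rfl

end HS

end Cfsg.Hst
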