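import Cfsg.Agent.Hst.NoRefl
import Cfsg.Agent.Hst.Tor
import Cfsg.Agent.Hst.Cent

/-!
# The theorem of Heide, Saxl, Tiep and Zalesski for the full unitary group (S4793 project)
-/

set_option autoImplicit false
set_option linter.unusedSectionVars false
set_option linter.unusedVariables false
set_option linter.style.haveILetI false

namespace Cfsg.Hst

open Module Submodule

universe u v w

variable {F : Type u} [Field F] [Finite F] {V : Type v} [AddCommGroup V] [Module F V]

namespace HS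

variable {D : FD F} [Finite V] (S : HS D V)

theorem eta_eq_one (hcop : Nat.Coprime (finrank F V) (D.q + 1)) {η : Fˣ →* ℂˣ}
    (h : ∀ z, η (S.detU (S.sc z)) = 1) : η.comp S.detU = 1 := by
  have : ∀ z : D.mu, η z.1 = 1 := fun z => by
    have h1 : η z.1 ^ finrank F V = 1 := by rw [← map_pow, ← detU_sc, h]
    have h2 : η z.1 ^ (D.q + 1) = 1 := by
      rw [← map_pow, ← D.card_mu, ← Subgroup.coe_pow, pow_card_eq_one', Subgroup.coe_one, map_one]
    have := pow_gcd_eq_one.2 ⟨h1, h2⟩
    rwa [hcop, pow_one] at this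
  exact MonoidHom.ext fun g => this ⟨_, S.detU_mem g⟩

theorem noRefl_of_one {χ : S.U → ℂ} (hχ : IsClassFunction S.U χ) {e : V} (he : S.B e e = 1)
    (h : fd χ (S.PS (span F {e})) = 0) : S.NoRefl χ := by
  intro e' he'
  obtain ⟨c, hc⟩ := D.exists_norm (t := S.B e' e') (S.σ_B _ _)
  have hc0 : c ≠ 0 := by rintro rfl; exact he' (by simpa using hc.symm)
  obtain ⟨g, hg⟩ := S.exists_map_aniso (v := e') (w := c • e)
    (by simp [he, ← hc, mul_comm]) he'
  rw [← h]
  refine fd_conj hχ g (fun a ha => ?_) fun a ha => ?_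
  · have := conj_mem_PS_one (u := g) ha
    rwa [hg, span_singleton_smul_eq (Ne.isUnit hc0)] at this
  · rw [← span_singleton_smul_eq (Ne.isUnit hc0), ← hg] at ha
    simpa using conj_mem_PS_one (u := g⁻¹) ha

theorem trichotomy (hn : Odd (finrank F V)) (h3 : 3 ≤ finrank F V) {W : Type} [AddCommGroup W]
    [Module ℂ W] [FiniteDimensional ℂ W] {ρ : Representation ℂ S.U W} (hρ : ρ.IsIrreducible)
    {e : V} (he : S.B e e ≠ 0) {Y : Submodule ℂ W} (hY : Y ≠ ⊥) :
    (∃ I, S.MaxIso e I ∧ ¬ Y ≤ fixS ρ (S.PS I)) ∨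
      (∃ I, S.MaxIso e I ∧ ¬ fixS ρ (S.PS I) ≤ fixS ρ (S.QI I)) ∨
      ∃ η : Fˣ →* ℂˣ, ρ.character = fun g => (η.comp S.detU g : ℂ) := by
  by_contra hc
  push Not at hc
  obtain ⟨h1, h2, h4⟩ := hc
  have : S.NN ≤ stabS ρ Y := NN_le hn h3 he fun I hI => le_stabS_iff.2 ((h1 I hI).trans (h2 I hI))
  obtain ⟨η, hη⟩ := eq_det h3 hρ fun h => hY (le_bot_iff.1 (h ▸ le_stabS_iff.1 this))
  exact h4 η hη

theorem main (h3 : 3 ≤ finrank F V) (hcop : Nat.Coprime (finrank F V) (2 * (D.q + 1))) :
    ∃ ω₀ : IrrCharacter S.U, S.ZTriv ω₀.1 ∧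
      charDegree ω₀.1 = (D.q ^ finrank F V - D.q) / (D.q + 1) ∧
      (∀ g : S.U, fd ω₀.1 (Subgroup.centralizer ({g} : Set S.U)) = 0) ∧
      ∀ χ : IrrCharacter S.U, S.ZTriv χ.1 → χ ≠ ω₀ →
        charDegree χ.1 ≠ (D.q ^ finrank F V - D.q) / (D.q + 1) ∧
        ∃ g : S.U, fd χ.1 (Subgroup.centralizer ({g} : Set S.U)) ≠ 0 := by
  have hn : Odd (finrank F V) := (Nat.coprime_two_right).1 (Nat.Coprime.coprime_mul_right_right hcop)
  have hcq : Nat.Coprime (finrank F V) (D.q + 1) := Nat.Coprime.coprime_mul_left_right hcop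
  have hq := D.two_le
  obtain ⟨k, hk⟩ : ∃ k, finrank F V = k + 1 := ⟨finrank F V - 1, by omega⟩
  have hk4 : 4 < D.q ^ k := by
    rcases Nat.lt_or_ge 2 D.q with h | h
    · calc 4 < 3 ^ 2 := by norm_num
        _ ≤ D.q ^ 2 := Nat.pow_le_pow_left h 2
        _ ≤ D.q ^ k := Nat.pow_le_pow_right (by omega) (by omega)
    · have h2 : D.q = 2 := by omega
      have : k ≠ 2 := by
        rintro rfl
        rw [hk, h2] at hcq
        norm_num at hcq
      calc 4 < 2 ^ 3 := by norm_num
        _ ≤ 2 ^ k := Nat.pow_le_pow_right (by omega) (by omega)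
        _ = D.q ^ k := by rw [h2]
  have hI : ∀ {e I}, S.MaxIso e I → Nat.card I = D.q ^ k := fun h => by
    rw [h.card_eq, hk, Nat.add_sub_cancel]
  obtain ⟨ω₀, hZ₀, hip, hdeg, hcons⟩ := S.exists_om0 hn h3
  have hd : charDegree ω₀.1 = (D.q ^ finrank F V - D.q) / (D.q + 1) := by
    rw [← hdeg, Nat.add_sub_cancel, Nat.mul_div_cancel_left _ (by omega)]
  refine ⟨ω₀, hZ₀, hd, fun g => ?_, fun χ hZ hne => ?_⟩
  · obtain ⟨A, h1, h2⟩ := S.exists_fd_om_eq_zero hn g
    exact fd_eq_zero_of_constituent S.om_isCharacter ω₀ hip (fd_eq_zero_of_le S.om_isCharacter h1 h2)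
  obtain ⟨χ, m, ρ, hρ, rfl⟩ := χ
  have hZρ : ∀ z, ρ (S.sc z) = 1 := fun z => (rep_eq_one_iff_character ρ _).2 (hZ z)
  have hlin : ∀ η : Fˣ →* ℂˣ, (ρ.character = fun g => (η.comp S.detU g : ℂ)) →
      ρ.character = fun g => ((1 : S.U →* ℂˣ) g : ℂ) := fun η h => by
    rw [h, S.eta_eq_one hcq fun z => ?_]
    have := hZ z
    simp only [h, map_one, Units.val_one] at this
    exact Units.ext this
  haveI : Nontrivial V := Module.nontrivial_of_finrank_pos (R := F) (by omega)
  obtain ⟨e, he⟩ := S.exists_aniso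
  have he' : S.B e e ≠ 0 := by rw [he]; exact one_ne_zero
  refine ⟨fun hdχ => ?_, ?_⟩
  · rw [← hd] at hdχ
    have hm : finrank ℂ (Fin m → ℂ) = charDegree ω₀.1 := (charDegree_character ρ).symm.trans hdχ
    rw [hk, pow_succ] at hdeg
    have hlt : charDegree ω₀.1 < D.q ^ k - 1 := by
      by_contra hle
      have := Nat.mul_le_mul_left (D.q + 1) (not_lt.1 hle)
      obtain ⟨t, ht⟩ : ∃ t, D.q ^ k = t + 1 := ⟨D.q ^ k - 1, by omega⟩
      rw [ht] at this hdeg hk4
      rw [Nat.add_sub_cancel] at this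
      nlinarith
    have h1 : charDegree ω₀.1 ≠ 1 := fun h => by
      rw [h] at hdeg
      nlinarith
    obtain ⟨φ, hφ⟩ := exists_rfEquiv he'
    obtain ⟨κ, hκ⟩ : ∃ κ, eigS ρ (S.PS (span F {e})) κ = ⊥ := by
      by_contra hc
      push Not at hc
      have := card_mul_le_finrank (ρ := ρ) (S.PS (span F {e})) (c := D.q ^ k - 1) (k := D.q + 1)
        fun κ => by
          rcases S.trichotomy hn h3 hρ he' (hc κ) with ⟨I, hI', h⟩ | ⟨I, hI', h⟩ | ⟨η, h⟩
          · rw [← hI hI']
            exact (hI'.tor_a (by rw [hI hI']; exact hk4) ρ hZρ κ h).1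
          · have := (hI'.tor_b (by rw [hI hI']; exact hk4) ρ hZρ h).1
            rw [hI hI', hm] at this
            omega
          · exact absurd (by rw [← hdχ]; simp only [h, charDegree_linear]) h1
      rw [card_linear_of_comm (fun a b => by
        obtain ⟨a, rfl⟩ := φ.surjective a
        obtain ⟨b, rfl⟩ := φ.surjective b
        rw [← map_mul, mul_comm, map_mul]), ← Nat.card_congr φ.toEquiv, D.card_mu, hm] at this
      have := Nat.le_of_mul_le_mul_left this (by omega)
      omega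
    obtain ⟨η, hη⟩ := exists_linear_extension_of_comm (G := Fˣ) mul_comm D.mu.subtype_injective
      (κ.comp φ.toMonoidHom)
    have hκη : (η.comp S.detU).comp (S.PS (span F {e})).subtype = κ := MonoidHom.ext fun a => by
      obtain ⟨a, rfl⟩ := φ.surjective a
      have := DFunLike.congr_fun hη a
      simp only [MonoidHom.comp_apply, Subgroup.coe_subtype, hφ, detU_rf he'] at this ⊢
      exact this
    let χ' : IrrCharacter S.U := (η.comp S.detU)⁻¹ • ⟨ρ.character, m, ρ, hρ, rfl⟩
    have hd' : charDegree χ'.1 = charDegree ω₀.1 :=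
      (IrrCharacter.charDegree_linear_smul _ _).trans hdχ
    have hno : S.NoRefl χ'.1 := S.noRefl_of_one χ'.isClassFunction he (by
      have := fd_twist ρ (η.comp S.detU) (S.PS (span F {e}))
      rw [hκη, hκ, finrank_bot, Nat.cast_zero] at this
      exact this)
    have := ip_om_ne_zero hn h3 χ' hno fun η' h => h1 (by rw [← hd', h, charDegree_linear])
    rcases hcons χ' this with h | ⟨-, h⟩
    · have h2 : η.comp S.detU = 1 := S.eta_eq_one hcq fun z => by
        have h3 := hZ₀ z
        rw [← h] at h3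
        simp only [χ', IrrCharacter.linear_smul_apply, map_one, Units.val_one, one_mul] at h3
        have h4 : ρ.character (S.sc z) = ρ.character 1 := hZ z
        have h5 : ρ.character 1 ≠ 0 := IrrCharacter.apply_one_ne_zero ⟨ρ.character, m, ρ, hρ, rfl⟩
        rw [h4, mul_left_eq_self₀, or_iff_left h5] at h3
        simpa using h3
      apply hne
      rw [← h]
      refine Subtype.ext (funext fun g => ?_)
      simp [χ', h2]
    · rw [hd', hk, pow_succ] at h
      omega
  · by_cases hno : S.NoRefl ρ.character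
    · have := ip_om_ne_zero hn h3 ⟨ρ.character, m, ρ, hρ, rfl⟩ hno fun η h => by
        have := hno e he'
        rw [hlin η h, fd_linear_eq_one 1 fun _ _ => rfl] at this
        exact one_ne_zero this
      rcases hcons _ this with h | ⟨h, -⟩
      · exact absurd h hne
      · exact absurd hZ h
    · simp only [NoRefl, not_forall] at hno
      obtain ⟨e, he, hno⟩ := hno
      rw [fd_character_eq_zero, ← eigS_one] at hno
      simp only [ne_eq, fd_character_eq_zero]
      rcases S.trichotomy hn h3 hρ he hno with ⟨I, hI', h⟩ | ⟨I, hI', h⟩ | ⟨η, h⟩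
      · exact (hI'.tor_a (by rw [hI hI']; exact hk4) ρ hZρ 1 h).2 rfl
      · exact (hI'.tor_b (by rw [hI hI']; exact hk4) ρ hZρ h).2
      · refine ⟨1, fun h0 => ?_⟩
        rw [← fd_character_eq_zero, hlin η h, fd_linear_eq_one 1 fun _ _ => rfl] at h0
        exact one_ne_zero h0

end HS

end Cfsg.Hst
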