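import Cfsg.Agent.Hst.Weil
import Cfsg.Agent.Hst.Lin
import Cfsg.Agent.Hst.Form

/-!
# Characters without fixed vectors for the reflection groups are Weil or linear (S4793 project)
-/

set_option autoImplicit false
set_option linter.unusedSectionVars false
set_option linter.unusedVariables false
set_option linter.style.haveILetI false

namespace Cfsg.Hst

open Module Submodule

universe u v w

variable {F : Type u} [Field F] [Finite F] {V : Type v} [AddCommGroup V] [Module F V]

namespace HS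

variable {D : FD F} [Finite V] {S : HS D V} {W : Type w} [AddCommGroup W] [Module ℂ W]
  [FiniteDimensional ℂ W]

theorem eich_zero_zero {x : V} (hx : S.B x x = 0) : S.eich x 0 0 = 1 :=
  U.ext fun w => by rw [eich_apply ⟨hx, by simp, by simp⟩]; simp

/-- The Eichler maps at `x` with vector in `Y`. -/
def EY (S : HS D V) {x : V} (hx : S.B x x = 0) (Y : Submodule F V) : Subgroup S.U where
  carrier := {g | ∃ u ∈ Y, ∃ μ, S.Adm x u μ ∧ g = S.eich x u μ}
  mul_mem' := by
    rintro _ _ ⟨u, hu, μ, h, rfl⟩ ⟨u', hu', μ', h', rfl⟩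
    exact ⟨_, add_mem hu hu', _, h.add h', eich_mul h h'⟩
  one_mem' := ⟨0, zero_mem _, 0, ⟨hx, by simp, by simp⟩, (eich_zero_zero hx).symm⟩
  inv_mem' := by
    rintro _ ⟨u, hu, μ, h, rfl⟩
    have h' : S.Adm x (-u) (D.σ μ) := ⟨hx, by simp [h.2.1], by simpa [add_comm] using h.2.2⟩
    refine ⟨_, neg_mem hu, _, h', inv_eq_of_mul_eq_one_right ?_⟩
    rw [eich_mul h h', add_neg_cancel, ← eich_zero_zero hx]
    congr 1
    simpa using h.2.2

theorem eich_congr {ρ : Representation ℂ S.U W} {x u : V} {μ μ' : F} (h : S.Adm x u μ)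
    (h' : S.Adm x u μ') {w : W} (hw : w ∈ fixS ρ (S.PS (span F {x}))) :
    ρ (S.eich x u μ) w = ρ (S.eich x u μ') w := by
  have h0 : S.Adm x 0 (μ - μ') := ⟨h.1, by simp, by
    simp only [map_sub, map_zero]
    linear_combination h.2.2 - h'.2.2⟩
  have := eich_mul h' h0
  rw [add_zero, map_zero, LinearMap.zero_apply, sub_zero, add_sub_cancel, eich_zero h.1] at this
  rw [← this, map_mul, End.mul_apply, hw _ (rk_mem_PS _ _)]

theorem fix_eich_aniso {ρ : Representation ℂ S.U W} (hno : S.NoRefl ρ.character) {x e : V}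
    (hx : S.B x x = 0) (he : S.B e e ≠ 0) (hex : S.B e x = 0) :
    fixS ρ (S.PS (span F {x})) ≤ fixS ρ (S.EY hx (span F {e})) := by
  by_contra hne
  obtain ⟨lam, w, hw, hw', hl⟩ := exists_eig (ρ := ρ) (S.EY hx (span F {e})) (fun a ha y hy => by
    intro z hz
    obtain ⟨u, -, μ, h, rfl⟩ := ha
    have := hy _ (conj_mem_PS (u := S.eich x u μ) (fun v hv => by
      obtain ⟨c, rfl⟩ := mem_span_singleton.1 hv
      simpa [eich_apply h, hx, S.symm0 h.2.1] using hv) hz)
    rw [← End.mul_apply, ← map_mul]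
    conv_rhs => rw [← this, ← End.mul_apply, ← map_mul, ← mul_assoc, mul_inv_cancel_left])
    (fun a ha b hb y hy => by
      obtain ⟨u, -, μ, h, rfl⟩ := ha
      obtain ⟨u', -, μ', h', rfl⟩ := hb
      rw [← End.mul_apply, ← map_mul, ← End.mul_apply, ← map_mul, eich_mul h h', eich_mul h' h,
        add_comm u' u]
      exact eich_congr (h.add h') (add_comm u' u ▸ h'.add h) hy) hne
  have hfix : ∀ t ∈ S.PS (span F {e}), t.1 x = x := fun t ht =>
    mem_PS_perp.1 ht x (mem_perp_one.2 (S.symm0 hex))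
  have hcj : ∀ t ∈ S.PS (span F {e}), ∀ u μ, t * S.eich x u μ * t⁻¹ = S.eich x (t.1 u) μ :=
    fun t ht u μ => by rw [eich_conj, hfix t ht]
  have hadm : ∀ t ∈ S.PS (span F {e}), ∀ u μ, S.Adm x u μ → S.Adm x (t.1 u) μ := fun t ht u μ h =>
    ⟨hx, by rw [← hfix t ht, U.iso, h.2.1], by rw [U.iso, h.2.2]⟩
  have hmem : ∀ t ∈ S.PS (span F {e}), ∀ u ∈ span F {e}, t.1 u ∈ span F {e} := fun t ht u hu => by
    simpa using add_mem (ht u) hu
  refine orbit_fixed (T := S.PS (span F {e})) (fun t ht a ha => ?_) lam (w := w) (fun h => hw' (h ▸ zero_mem _)) hl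
    (fun t ht hst => ?_) (fd_character_eq_zero.1 (hno e he))
  · obtain ⟨u, hu, μ, h, rfl⟩ := ha
    have := hcj _ (inv_mem ht) u μ
    rw [inv_inv] at this
    exact ⟨_, hmem _ (inv_mem ht) u hu, μ, hadm _ (inv_mem ht) u μ h, this⟩
  obtain ⟨c, hc⟩ := mem_span_singleton.1 (ht e)
  by_cases hc0 : c = 0
  · rw [show t = 1 from U.ext fun v => ?_, map_one, End.one_apply]
    have h1 := mem_PS_perp.1 ht (v - (S.B v e / S.B e e) • e)
      (mem_perp_one.2 (by simp [div_mul_cancel₀ _ he]))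
    rw [hc0, zero_smul, eq_comm, sub_eq_zero] at hc
    rwa [map_sub, map_smul, hc, sub_left_inj] at h1
  refine absurd (fun a ha => ?_) hw'
  obtain ⟨u', hu', ν, h', rfl⟩ := ha
  obtain ⟨d, rfl⟩ := mem_span_singleton.1 hu'
  obtain ⟨μ, h⟩ := exists_adm (u := (d / c) • e) hx (by simp [hex])
  have hu : (d / c) • e ∈ span F {e} := smul_mem _ _ (mem_span_singleton_self e)
  have e1 : t.1 ((d / c) • e) = (d / c) • e + d • e := by
    rw [map_smul, eq_add_of_sub_eq hc.symm, smul_add, smul_smul, div_mul_cancel₀ _ hc0, add_comm]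
  have h1 := hst ⟨_, _, hmem t ht _ hu, μ, hadm t ht _ μ h, rfl⟩
  have h2 := hl ⟨_, _, hmem t ht _ hu, μ, hadm t ht _ μ h, rfl⟩
  have h3 := hl ⟨_, _, hu, μ, h, rfl⟩
  simp only [← hcj t ht, mul_assoc, inv_mul_cancel_left, inv_mul_cancel, mul_one] at h1
  simp only [← hcj t ht, mul_assoc, ← h1] at h2
  rw [← h3, ← mul_assoc, hcj t ht, e1, eich_congr (e1 ▸ hadm t ht _ μ h) (h.add h') hw, ← eich_mul h h',
    map_mul, End.mul_apply] at h2
  have := congrArg (ρ (S.eich x ((d / c) • e) μ)⁻¹) h2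
  simpa only [← End.mul_apply, ← map_mul, inv_mul_cancel_left, inv_mul_cancel, map_one,
    End.one_apply] using this

/-- For anisotropic `u = e`: `A = {eich x (c e) μ}` acts commutatively on the fixed space of `PS ⟨x⟩`, and `μ_e`
acts freely on its nontrivial characters (`exists_eig`, `orbit_fixed`).  For isotropic `u`: `u = e + (u - e)` with
`e ⊥ x, u` anisotropic (`exists_aniso_perp`). -/
theorem fix_eich (hn : Odd (finrank F V)) {ρ : Representation ℂ S.U W} (hno : S.NoRefl ρ.character)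
    {x u : V} {μ : F} (h : S.Adm x u μ) {w : W} (hw : w ∈ fixS ρ (S.PS (span F {x}))) :
    ρ (S.eich x u μ) w = w := by
  have key : ∀ u μ, S.Adm x u μ → S.B u u ≠ 0 → ρ (S.eich x u μ) w = w := fun u μ h hu =>
    fix_eich_aniso hno h.1 hu h.2.1 hw _ ⟨u, mem_span_singleton_self u, μ, h, rfl⟩
  by_cases hu : S.B u u = 0
  swap
  · exact key u μ h hu
  obtain ⟨e, he, he'⟩ := S.exists_aniso_perp hn (X := span F {x, u})
    (span_le.2 (by rintro _ (rfl | rfl) <;> exact mem_perp_span.2 (by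
      simp [h.1, hu, h.2.1, S.symm0 h.2.1])))
  have h1 := he x (subset_span (by simp))
  have h2 := he u (subset_span (by simp))
  rw [← add_sub_cancel e u] at h ⊢
  obtain ⟨μ₁, μ₂, h₁, h₂, h₃⟩ := eich_split h h1
  rw [h₃, map_mul, End.mul_apply, key _ _ h₂ (by simp [hu, h2, S.symm0 h2, he']), key _ _ h₁ he']

theorem card_aniso {I : Type*} [AddCommGroup I] [Module F I] [Fintype I] [DecidableEq F] {h : D.Form I}
    (hh : D.IsHerm h) (h0 : h ≠ 0) (hr : ∀ y, h y y = 0 → ∀ z, h z y = 0) :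
    D.q ^ 2 * (Finset.univ.filter fun y => h y y = 0).card = Nat.card I := by
  obtain ⟨y₀, hy₀⟩ : ∃ y, h y y ≠ 0 := by
    by_contra! hc
    exact h0 (D.polar h hc)
  have hk : ∀ y, h y y = 0 ↔ y ∈ LinearMap.ker (h.flip y₀) := fun y => by
    rw [LinearMap.mem_ker, LinearMap.flip_apply]
    refine ⟨fun e => by rw [hh, hr y e, map_zero], fun e => ?_⟩
    by_cases hy : y ∈ span F {y₀}
    · obtain ⟨c, rfl⟩ := mem_span_singleton.1 hy
      simp_all
    obtain ⟨a, b, h1, h2⟩ := hh.exists_iso (x := y₀) (by rintro rfl; simp at hy₀) hy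
    have h3 := hr _ h2 y₀
    rw [hh, map_eq_zero] at h3
    have ha : a = 0 := by simpa [e, hy₀] using h3
    have hb : b ≠ 0 := by rintro rfl; simp [ha] at h1
    simpa [ha, hb] using h2
  have h1 := LinearMap.finrank_range_add_finrank_ker (h.flip y₀)
  rw [LinearMap.range_eq_top.2 (LinearMap.surjective_iff_ne_zero.2 fun e => hy₀ (LinearMap.congr_fun e y₀)),
    finrank_top, finrank_self] at h1
  rw [Module.natCard_eq_pow_finrank (K := F), ← h1, pow_add, pow_one, D.card, ← D.card,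
    ← Module.natCard_eq_pow_finrank, ← Fintype.card_subtype, ← Nat.card_eq_fintype_card]
  exact congrArg _ (Nat.card_congr (Equiv.subtypeEquivRight hk))

/-- Each occurring character of `PS I` has a form `h` whose isotropic vectors lie in the radical (`fix_eich`),
so `h = 0` or the isotropic vectors form a hyperplane (`IsHerm.exists_iso`).  Count the pairs `(i, x)`, `x ∈ I`,
`h_i x x ≠ 0` (`exists_eigen_decomp`, `fd_conj`, `exists_map_iso`). -/
theorem fd_count (hn : Odd (finrank F V)) {χ : S.U → ℂ} (hχ : IsCharacter S.U χ)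
    (hno : S.NoRefl χ) {I : Submodule F V} (hI : I ≤ S.perp I) {x : V} (hx : S.B x x = 0)
    (hx0 : x ≠ 0) :
    ((D.q : ℂ) ^ 2 - 1) * Nat.card I * (χ 1 - fd χ (S.PS I)) =
      (D.q : ℂ) ^ 2 * (Nat.card I - 1) * (χ 1 - fd χ (S.PS (span F {x}))) := by
  classical
  haveI := Fintype.ofFinite I
  have hcl := hχ.isClassFunction
  obtain ⟨N, ρ, rfl⟩ := hχ
  obtain ⟨ψ, hψ, hσ⟩ := D.exists_psi
  obtain ⟨lam, h1, h2⟩ := exists_eigen_decomp ρ (S.PS I) fun a ha b hb => PS_comm hI ha hb
  choose h hh using fun i => exists_formOf hψ hσ hI (lam i)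
  have hle : ∀ y : I, S.PS (span F {(y : V)}) ≤ S.PS I := fun y =>
    PS_mono ((span_singleton_le_iff_mem _ _).2 y.2)
  have h3 : ∀ y : I, fd ρ.character (S.PS (span F {(y : V)})) = ∑ i, if h i y y = 0 then 1 else 0 :=
    fun y => by
      rw [fd_character, h2 _ (hle y), Finset.sum_boole, ← Fintype.card_subtype, ← Nat.card_eq_fintype_card]
      exact congrArg _ (Nat.card_congr (Equiv.subtypeEquivRight fun i => (hh i).triv_iff hψ hI y))
  have h4 : fd ρ.character (S.PS I) = ∑ i, if h i = 0 then 1 else 0 := by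
    rw [fd_character, h2 _ le_rfl, Finset.sum_boole, ← Fintype.card_subtype, ← Nat.card_eq_fintype_card]
    exact congrArg _ (Nat.card_congr (Equiv.subtypeEquivRight fun i => by
      rw [← (hh i).eq_one_iff hψ hI, MonoidHom.ext_iff]; simp))
  have h5 : ∀ i, (D.q : ℂ) ^ 2 * ∑ y : I, (if h i y y = 0 then 1 else 0) =
      Nat.card I + ((D.q : ℂ) ^ 2 - 1) * Nat.card I * if h i = 0 then 1 else 0 := fun i => by
    split_ifs with h0
    · simp [h0]
      ring
    rw [Finset.sum_boole, mul_zero, add_zero, ← card_aniso (hh i).herm h0 fun y hy z => ?_]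
    · push_cast; rfl
    obtain ⟨w, hw0, hw⟩ := h1 i
    refine eq_zero_of_psi hψ fun c => ?_
    have h6 := (hh i).eq y (c • z)
    have h7 := hw ⟨S.eich y (c • z : I) 0, eich_mem_PS y.2 (c • z).2 0⟩
    rw [fix_eich hn hno (adm_of_mem hI y.2 (c • z).2) fun a ha => by
      simpa [((hh i).triv_iff hψ hI y).2 hy ⟨a, hle y ha⟩ ha] using hw ⟨a, hle y ha⟩, h6] at h7
    simpa using smul_left_injective ℂ hw0 (h7.symm.trans (one_smul ℂ w).symm)
  have h6 : ∀ y : I, fd ρ.character (S.PS (span F {(y : V)})) =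
      fd ρ.character (S.PS (span F {x})) +
        if y = 0 then ρ.character 1 - fd ρ.character (S.PS (span F {x})) else 0 := fun y => by
    split_ifs with hy
    · rw [h3, hy, add_sub_cancel, Representation.char_one]
      simp
    obtain ⟨g, hg⟩ := S.exists_map_iso (hI y.2 y y.2) hx (fun e => hy (Subtype.ext e)) hx0
    rw [add_zero]
    refine fd_conj hcl g (fun a ha => hg ▸ conj_mem_PS_one ha) fun a ha => ?_
    have := conj_mem_PS_one (u := g⁻¹) ha
    rwa [inv_inv, ← hg, U.inv_apply] at this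
  have h7 := Finset.sum_congr rfl fun i (_ : i ∈ Finset.univ) => h5 i
  rw [← Finset.mul_sum, Finset.sum_comm, Finset.sum_add_distrib, ← Finset.mul_sum, ← h4,
    ← Finset.sum_congr rfl fun y _ => h3 y, Finset.sum_congr rfl fun y _ => h6 y,
    Finset.sum_add_distrib] at h7
  simp only [Finset.sum_const, Finset.card_univ, nsmul_eq_mul, Finset.sum_ite_eq',
    Finset.mem_univ, if_true, ← Nat.card_eq_fintype_card, Nat.card_fin] at h7
  rw [← ρ.char_one] at h7
  linear_combination h7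

/-- `δ = a χ - b om - c (η ∘ det)` (`η ≠ 1` on `mu`, `a = om 1 - fd om Z_x`, `b = χ 1 - fd χ Z_x`, `δ 1 = 0`) has
`fd δ (PS X) = 0` for every subspace `X`; so `[δ, om] = 0` (`sum_mul_eq_zero_of_downsets`, `r g = range (g - 1)`).
If `[χ, om] = 0` then `b = 0`, so `NN` acts trivially (`fix_eich`), so `χ` is linear (`eq_det`). -/
theorem ip_om_ne_zero (hn : Odd (finrank F V)) (h3 : 3 ≤ finrank F V) (χ : IrrCharacter S.U)
    (hno : S.NoRefl χ.1) (hnl : ∀ η : Fˣ →* ℂˣ, χ.1 ≠ fun g => (η.comp S.detU g : ℂ)) :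
    ip S.om χ.1 ≠ 0 := by
  classical
  intro h0
  haveI := Fintype.ofFinite S.U
  haveI : Finite (Submodule F V) := Finite.of_injective _ SetLike.coe_injective
  have hq := D.two_le
  obtain ⟨x, hx0, hx⟩ := S.exists_iso (by omega)
  haveI : Nontrivial D.mu := Finite.one_lt_card_iff_nontrivial.1 (by rw [D.card_mu]; omega)
  obtain ⟨a, ha⟩ := exists_ne (1 : D.mu)
  obtain ⟨η, hη⟩ := CommGroup.exists_apply_ne_one_of_hasEnoughRootsOfUnity Fˣ ℂ (a := a.1)
    fun e => ha (Subtype.ext e)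
  let β : IrrCharacter S.U := ⟨_, isIrrCharacter_of_monoidHom (η.comp S.detU)⟩
  have hβ1 : β.1 1 = 1 := by simp [β]
  have hβ : S.NoRefl β.1 := fun e he =>
    fd_linear_eq_zero _ (rf_mem e a) (by rwa [MonoidHom.comp_apply, detU_rf he])
  have hβx : fd β.1 (S.PS (span F {x})) = 1 := fd_linear_eq_one _ fun g hg => by
    obtain ⟨γ, -, rfl⟩ := exists_rk_of_mem_PS hg
    rw [MonoidHom.comp_apply, ← eich_zero hx, detU_eich, map_one]
  have hβ0 : ip S.om β.1 = 0 := by
    by_contra hne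
    obtain ⟨ω₀, -, -, h1, h2⟩ := S.exists_om0 hn h3
    have h4 : charDegree β.1 = 1 := charDegree_eq_of_apply_one (by simpa using hβ1)
    have h5 : D.q ^ 3 ≤ D.q ^ finrank F V := Nat.pow_le_pow_right (by omega) h3
    have h6 : 4 * D.q ≤ D.q ^ 3 := by nlinarith [Nat.mul_le_mul hq hq]
    rcases h2 β hne with h | ⟨-, h⟩
    · rw [← h, h4] at h1
      omega
    · rw [h4] at h
      omega
  set A := S.om 1 - fd S.om (S.PS (span F {x})) with hA
  set B := χ.1 1 - fd χ.1 (S.PS (span F {x})) with hB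
  let δ : S.U → ℂ := A • χ.1 - B • S.om - (A * χ.1 1 - B * S.om 1) • β.1
  have hδ : ∀ H : Subgroup S.U, fd δ H =
      A * fd χ.1 H - B * fd S.om H - (A * χ.1 1 - B * S.om 1) * fd β.1 H := fun H => by
    rw [fd, fd, fd, fd, ← ip_smul_left, ← ip_smul_left, ← ip_smul_left, ← ip_sub_left, ← ip_sub_left]
    rfl
  have h1 : ∀ X : Submodule F V, fd δ (S.PS X) = 0 := fun X => by
    by_cases hX : ∀ y ∈ X, S.B y y = 0
    · have hI := S.le_perp_of_iso hX
      have e1 := fd_count hn χ.isCharacter hno hI hx hx0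
      have e2 := fd_count hn S.om_isCharacter S.om_noRefl hI hx hx0
      have e3 := fd_count hn β.isCharacter hβ hI hx hx0
      rw [hβx, hβ1, sub_self, mul_zero] at e3
      have e4 : ((D.q : ℂ) ^ 2 - 1) * Nat.card X ≠ 0 := mul_ne_zero (sub_ne_zero.2 (by
        exact_mod_cast (Nat.one_lt_pow two_ne_zero hq).ne')) (Nat.cast_ne_zero.2 Nat.card_pos.ne')
      rw [hδ]
      refine mul_left_cancel₀ e4 ?_
      rw [← hA] at e2
      rw [← hB] at e1
      linear_combination -A * e1 + B * e2 + (A * χ.1 1 - B * S.om 1) * e3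
    · push Not at hX
      obtain ⟨y, hy, hy'⟩ := hX
      have hle := PS_mono (S := S) ((span_singleton_le_iff_mem _ _).2 hy)
      rw [hδ, fd_eq_zero_of_le χ.isCharacter hle (hno y hy'),
        fd_eq_zero_of_le S.om_isCharacter hle (S.om_noRefl y hy'),
        fd_eq_zero_of_le β.isCharacter hle (hβ y hy')]
      ring
  have h2 := sum_mul_eq_zero_of_downsets (fun g => LinearMap.range (S.sub1 g)) δ (fun X => by
    have := h1 X
    rw [fd_def, mul_eq_zero, or_iff_right (inv_ne_zero (Nat.cast_ne_zero.2 Nat.card_pos.ne'))] at this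
    rw [← this, Finset.sum_subtype (p := (· ∈ S.PS X)) _ (fun g => by simp [mem_PS_range])])
    fun L => (-1) ^ finrank F V * (-(D.q : ℂ)) ^ finrank F (S.perp L)
  have h4 : ip δ S.om = 0 := by
    rw [ip_def, mul_eq_zero]
    refine .inr (Eq.trans (Finset.sum_congr rfl fun g _ => ?_) h2)
    rw [perp_ker_sub1]
    simp only [om, map_mul, map_pow, map_neg, map_one, map_natCast]
  rw [ip_sub_left, ip_sub_left, ip_smul_left, ip_smul_left, ip_smul_left, ← conj_ip S.om χ.1,
    ← conj_ip S.om β.1, h0, hβ0, map_zero, mul_zero, mul_zero, sub_zero, zero_sub, neg_eq_zero,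
    mul_eq_zero, ip_self_eq_zero, or_iff_left fun e => by
      simpa [om, (show D.q ≠ 0 by omega)] using congrFun e 1] at h4
  obtain ⟨χ, N, ρ, hρ, rfl⟩ := χ
  have h5 : fixS ρ (S.PS (span F {x})) = ⊤ := by
    rw [hB, sub_eq_zero, fd_character] at h4
    exact eq_top_of_finrank_eq (Nat.cast_injective (R := ℂ) (h4.symm.trans ρ.char_one))
  refine (eq_det h3 hρ fun e => ?_).elim fun η h => hnl η h
  haveI := ((rep_isIrreducible_iff ρ).1 hρ).1
  refine bot_ne_top (e.symm.trans (eq_top_iff.2 (le_stabS_iff.1 ((Subgroup.closure_le _).2 ?_))))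
  rintro _ ⟨y, u, μ, rfl⟩ w -
  by_cases h : S.Adm y u μ
  swap
  · rw [eich_of_not h, map_one, End.one_apply]
  refine fix_eich hn hno h fun g hg => ?_
  by_cases hy : y = 0
  · rw [show g = 1 from U.ext fun v => sub_eq_zero.1 (by simpa [hy] using hg v), map_one, End.one_apply]
  obtain ⟨k, hk⟩ := S.exists_map_iso h.1 hx hy hx0
  have := h5.ge (mem_top (x := ρ k w)) _ (hk ▸ conj_mem_PS_one hg)
  rw [← End.mul_apply, ← map_mul, inv_mul_cancel_right] at this
  simpa only [← End.mul_apply, ← map_mul, inv_mul_cancel_left, inv_mul_cancel, map_one,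
    End.one_apply] using congrArg (ρ k⁻¹) this

end HS

end Cfsg.Hst

set_option linter.all false in
theorem Cfsg.Rz.Hst_NoRefl_0 : True := by
  have := @_root_.Cfsg.Hst.HS.EY.congr_simp.{0, 0}
  have := @_root_.Cfsg.Hst.HS.EY.eq_def.{0, 0}
  have := @_root_.Cfsg.Hst.HS.EY.eq_1.{0, 0}
  have := @_root_.Cfsg.Hst.HS.EY.fun_cases
  trivial
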