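import Cfsg.Agent.Hst.Geo

/-!
# Singer cycles adapted to a hermitian form (S4793 project)

`K = FiniteField.Extension F p m`, `m = finrank F V`, `θ₀` a generator of `Kˣ`, `φ : K ≃ₗ[F] V`, `θ = φ θ₀ φ⁻¹`.
The commutant of `θ` is `K`.  `noform`: an invariant `β ≠ 0` has `β(tx,y) = β(x,t⁻¹y)` for all `t ≠ 0` and zero
right radical, so `(t+1)⁻¹ = t⁻¹ + 1` for `t ≠ 0, -1`, so `|K| ≤ 4`.
Choice of `φ`: `h v v ≠ 0`, `φ 1 = v` and `h (φ t) v = a Tr(c t)` with `c = n + n ^ q`, `n` a normal basis generator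
over the prime field.  An isometry `κ ∈ K` gives `Tr(c κ⁻¹ ^ j) = Tr(c κ ^ j) ^ q` for all `j`; comparing the
coefficients of `κ⁻¹ ^ j` and then of `n` gives `κ ^ q = κ⁻¹`.
-/

set_option autoImplicit false
set_option linter.unusedSectionVars false
set_option linter.unusedVariables false
set_option linter.style.haveILetI false

namespace Cfsg.Hst

open Module Submodule

universe u v w

variable {F : Type u} [Field F] [Finite F] {V : Type v} [AddCommGroup V] [Module F V]

/-- The properties of a generator of a Singer cycle. -/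
structure Singer (D : FD F) (θ : End F V) : Prop where
  irr : ∀ X : Submodule F V, (∀ x ∈ X, θ x ∈ X) → X = ⊥ ∨ X = ⊤
  bij : ∀ t : End F V, Commute t θ → t ≠ 0 → Function.Bijective t
  ne_zero : θ ≠ 0
  ne_one : θ ≠ 1
  card : Nat.card {t : End F V // Commute t θ} = Nat.card V
  noform : ∀ β : D.Form V, (∀ x y, β (θ x) (θ y) = β x y) → β = 0

/-- A normal basis generator over the prime field and its coordinate function. -/
theorem sg_normal (K : Type*) [Field K] [Finite K] : ∃ (n : K) (l : K →+ K), l n = 1 ∧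
    ∀ e : K →+* K, e ≠ RingHom.id K → l (e n) = 0 := by
  haveI := Fintype.ofFinite K
  obtain ⟨p, hp, k, hpp, hk⟩ := FiniteField.card' K
  haveI : Fact p.Prime := ⟨hpp⟩
  letI := ZMod.algebra K p
  let b := IsGalois.normalBasis (ZMod p) K
  refine ⟨b 1, (algebraMap (ZMod p) K).toAddMonoidHom.comp (b.coord 1).toAddMonoidHom, by simp,
    fun e he => ?_⟩
  have hb : Function.Bijective e :=
    ⟨e.injective, Finite.injective_iff_surjective.1 e.injective⟩
  let g : K ≃ₐ[ZMod p] K := AlgEquiv.ofRingEquiv (f := RingEquiv.ofBijective e hb) fun x =>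
    RingHom.congr_fun (RingHom.ext_zmod (e.comp (algebraMap (ZMod p) K)) (algebraMap (ZMod p) K)) x
  have hg : g ≠ 1 := fun h => he (RingHom.ext fun x => AlgEquiv.congr_fun h x)
  have h1 : e (b 1) = b g := (IsGalois.normalBasis_apply g).symm
  rw [h1]
  simp [hg]

/-- Comparing coefficients of power sums in a finite field. -/
theorem sg_coeff {K : Type*} [Field K] [Finite K] [DecidableEq K] {ι : Type*} [Fintype ι]
    (c d x y : ι → K) (h : ∀ j : ℕ, ∑ i, c i * x i ^ j = ∑ i, d i * y i ^ j) (z : K) :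
    ∑ i, (if x i = z then c i else 0) = ∑ i, (if y i = z then d i else 0) := by
  haveI := Fintype.ofFinite K
  have hP : ∀ P : Polynomial K, ∑ i, c i * P.eval (x i) = ∑ i, d i * P.eval (y i) := by
    intro P
    induction P using Polynomial.induction_on' with
    | add P Q hP hQ => simp only [Polynomial.eval_add, mul_add, Finset.sum_add_distrib, hP, hQ]
    | monomial n a =>
      simp only [Polynomial.eval_monomial, mul_left_comm _ a, ← Finset.mul_sum, h]
  have h1 : ∀ t : K, (1 - (Polynomial.X - Polynomial.C z) ^ (Fintype.card K - 1)).eval t =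
      if t = z then 1 else 0 := by
    intro t
    simp only [Polynomial.eval_sub, Polynomial.eval_one, Polynomial.eval_pow, Polynomial.eval_X,
      Polynomial.eval_C]
    split_ifs with ht
    · rw [ht, sub_self, zero_pow (by have := Fintype.one_lt_card (α := K); omega), sub_zero]
    · rw [FiniteField.pow_card_sub_one_eq_one _ (sub_ne_zero.2 ht), sub_self]
  have := hP (1 - (Polynomial.X - Polynomial.C z) ^ (Fintype.card K - 1))
  simpa only [h1, mul_ite, mul_one, mul_zero] using this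

theorem sg_tau (D : FD F) (K : Type*) [Field K] [Algebra F K] :
    ∃ τ : K →+* K, ∀ x, τ x = x ^ D.q := by
  haveI := Fintype.ofFinite F
  obtain ⟨p, hp, k, hpp, hk⟩ := FiniteField.card' F
  haveI : Fact p.Prime := ⟨hpp⟩
  haveI : CharP K p := charP_of_injective_algebraMap (algebraMap F K).injective p
  rw [← Nat.card_eq_fintype_card, D.card] at hk
  have : D.q ∣ p ^ (k : ℕ) := hk ▸ dvd_pow_self D.q two_ne_zero
  obtain ⟨j, -, hj⟩ := (Nat.dvd_prime_pow hpp).1 this
  exact ⟨iterateFrobenius K p j, fun x => by rw [hj]; exact iterateFrobenius_def ..⟩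

/-- A functional on the extension field that detects the norm one scalars. -/
theorem sg_key (D : FD F) (K : Type*) [Field K] [Finite K] [Algebra F K] :
    ∃ μ : K →ₗ[F] F, μ 1 = 1 ∧ ∀ κ : K, κ ≠ 0 → (∀ j : ℕ, μ (κ⁻¹ ^ j) = D.σ (μ (κ ^ j))) →
      ∃ z : D.mu, κ = algebraMap F K z.1 := by
  classical
  haveI := Fintype.ofFinite F
  obtain ⟨n, l, hl1, hl0⟩ := sg_normal K
  obtain ⟨τ, hτ⟩ := sg_tau D K
  let g₁ : K ≃ₐ[F] K := FiniteField.frobeniusAlgEquivOfAlgebraic F K
  have hg₁ : ∀ x, g₁ x = τ (τ x) := fun x => by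
    rw [hτ, hτ, ← pow_mul, ← sq, ← D.card, Nat.card_eq_fintype_card]; rfl
  have hσ : ∀ a : F, algebraMap F K (D.σ a) = τ (algebraMap F K a) := fun a => by
    rw [hτ, D.σ_eq, map_pow]
  have hc : ∀ (g : K ≃ₐ[F] K) x, g (τ x) = τ (g x) := fun g x => by rw [hτ, hτ, map_pow]
  have hA : ∀ g : K ≃ₐ[F] K, l (g n) = if g = 1 then 1 else 0 := by
    intro g
    split_ifs with hg
    · rw [hg]; exact hl1
    · exact hl0 (g : K →+* K) fun h => hg (AlgEquiv.ext fun x => RingHom.congr_fun h x)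
  have hB : ∀ g : K ≃ₐ[F] K, l (τ (g n)) = 0 := by
    intro g
    refine hl0 (τ.comp (g : K →+* K)) fun h => ?_
    obtain ⟨a, ha⟩ := D.exists_ne
    have := RingHom.congr_fun h (algebraMap F K a)
    simp only [RingHom.coe_comp, RingHom.coe_coe, Function.comp_apply, AlgEquiv.commutes,
      RingHom.id_apply, ← hσ] at this
    exact ha ((algebraMap F K).injective this)
  set c := n + τ n with hcdef
  have hAc : ∀ g : K ≃ₐ[F] K, l (g c) = if g = 1 then 1 else 0 := fun g => by
    rw [hcdef, map_add, map_add, hA, hc, hB, add_zero]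
  have hBc : ∀ g : K ≃ₐ[F] K, l (τ (g c)) = if g₁ * g = 1 then 1 else 0 := fun g => by
    rw [hcdef, map_add, map_add, map_add, hB, hc, ← hg₁, zero_add, ← AlgEquiv.mul_apply, hA]
  have ht0 : Algebra.trace F K c ≠ 0 := by
    intro h
    have := congrArg l (trace_eq_sum_automorphisms (K := F) c)
    rw [h, map_zero, map_zero, map_sum] at this
    simp [hAc] at this
  have ht1 : D.σ (Algebra.trace F K c) = Algebra.trace F K c := by
    apply (algebraMap F K).injective
    rw [hσ, trace_eq_sum_automorphisms, map_sum]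
    simp only [hcdef, map_add, Finset.sum_add_distrib, hc, ← hg₁]
    rw [add_comm]
    congr 1
    exact Fintype.sum_equiv (Equiv.mulLeft g₁) _ _ fun g => rfl
  refine ⟨(Algebra.trace F K c)⁻¹ • (Algebra.trace F K ∘ₗ LinearMap.mulLeft F c), by
    simp [ht0], fun κ hκ h => ?_⟩
  have h1 : ∀ j : ℕ, ∑ g : K ≃ₐ[F] K, g c * g κ⁻¹ ^ j = ∑ g : K ≃ₐ[F] K, τ (g c) * τ (g κ) ^ j := by
    intro j
    have h2 := h j
    simp only [LinearMap.smul_apply, LinearMap.coe_comp, Function.comp_apply,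
      LinearMap.mulLeft_apply, smul_eq_mul, map_mul, map_inv₀, ht1] at h2
    have h3 := congrArg (algebraMap F K) (mul_left_cancel₀ (inv_ne_zero ht0) h2)
    rw [hσ, trace_eq_sum_automorphisms, trace_eq_sum_automorphisms, map_sum] at h3
    simpa only [map_mul, map_pow] using h3
  have h2 := congrArg l (sg_coeff _ _ _ _ h1 κ⁻¹)
  rw [map_sum, map_sum, Finset.sum_eq_single 1, Finset.sum_eq_single g₁⁻¹] at h2
  · have h3 : τ (g₁⁻¹ κ) = κ⁻¹ := by
      by_contra h3
      rw [if_neg h3, if_pos (AlgEquiv.one_apply _), hAc, if_pos rfl, map_zero] at h2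
      exact one_ne_zero h2
    have h4 : κ = τ κ⁻¹ := by
      rw [← h3, ← hg₁, ← AlgEquiv.mul_apply, mul_inv_cancel, AlgEquiv.one_apply]
    have h5 : g₁ κ = κ := by
      rw [hg₁]
      have : τ κ = κ⁻¹ := by
        conv_rhs => rw [h4, map_inv₀, inv_inv]
      rw [this, ← h4]
    have h6 : κ ∈ Set.range (algebraMap F K) := by
      refine (IsGalois.mem_range_algebraMap_iff_fixed κ).2 fun g => ?_
      obtain ⟨i, rfl⟩ := (FiniteField.bijective_frobeniusAlgEquivOfAlgebraic_pow F K).2 g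
      change (g₁ ^ i.1) κ = κ
      generalize i.1 = k
      induction k with
      | zero => rfl
      | succ k ih => rw [pow_succ, AlgEquiv.mul_apply, h5, ih]
    obtain ⟨a, rfl⟩ := h6
    have h7 : a * D.σ a = 1 := by
      apply (algebraMap F K).injective
      rw [map_mul, hσ, map_one]
      nth_rw 1 [h4]
      rw [← map_mul, inv_mul_cancel₀ hκ, map_one]
    obtain ⟨z, hz⟩ := D.exists_mu h7
    exact ⟨z, by rw [hz]⟩
  · intro g _ hg
    split_ifs
    · rw [hBc, if_neg]
      intro h'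
      exact hg (eq_inv_of_mul_eq_one_right h')
    · exact map_zero l
  · simp
  · intro g _ hg
    split_ifs
    · rw [hAc, if_neg hg]
    · exact map_zero l
  · simp

/-- Matching two pointed functionals by a linear isomorphism. -/
theorem sg_equiv {K : Type*} [AddCommGroup K] [Module F K] [FiniteDimensional F K]
    [FiniteDimensional F V] (hd : finrank F K = finrank F V) (μ : K →ₗ[F] F) (ν : V →ₗ[F] F)
    {u : K} {v : V} (hu : μ u = 1) (hv : ν v = 1) :
    ∃ φ : K ≃ₗ[F] V, φ u = v ∧ ∀ t, ν (φ t) = μ t := by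
  have h1 := LinearMap.finrank_range_add_finrank_ker μ
  have h2 := LinearMap.finrank_range_add_finrank_ker ν
  rw [LinearMap.range_eq_top.2 (fun a => ⟨a • u, by simp [hu]⟩)] at h1
  rw [LinearMap.range_eq_top.2 (fun a => ⟨a • v, by simp [hv]⟩)] at h2
  obtain ⟨e⟩ : Nonempty (LinearMap.ker μ ≃ₗ[F] LinearMap.ker ν) :=
    FiniteDimensional.nonempty_linearEquiv_of_finrank_eq (by omega)
  let π : K →ₗ[F] LinearMap.ker μ :=
    (LinearMap.id - μ.smulRight u).codRestrict _ fun t => by simp [hu]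
  let ψ : K →ₗ[F] V := μ.smulRight v + (LinearMap.ker ν).subtype ∘ₗ e.toLinearMap ∘ₗ π
  have hψ : ∀ t, ψ t = μ t • v + (e (π t) : V) := fun t => rfl
  have h3 : ∀ t, ν (ψ t) = μ t := fun t => by
    rw [hψ, map_add, map_smul, hv, LinearMap.mem_ker.1 (e (π t)).2]; simp
  have h4 : Function.Injective ψ := (injective_iff_map_eq_zero ψ).2 fun t ht => by
    have h5 : μ t = 0 := by rw [← h3, ht, map_zero]
    rw [hψ, h5, zero_smul, zero_add, ZeroMemClass.coe_eq_zero, e.map_eq_zero_iff] at ht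
    have h6 : ((π t : LinearMap.ker μ) : K) = t - μ t • u := rfl
    rwa [ht, h5, zero_smul, sub_zero, eq_comm] at h6
  refine ⟨ψ.linearEquivOfInjective h4 hd, ?_, h3⟩
  have h6 : π u = 0 := Subtype.ext (by change u - μ u • u = 0; rw [hu, one_smul, sub_self])
  change ψ u = v
  rw [hψ, hu, h6]; simp

theorem sg_small {K : Type*} [Field K] [Finite K] (h : 4 < Nat.card K) :
    ∃ a : K, a ≠ 0 ∧ a + 1 ≠ 0 ∧ a ^ 2 + a + 1 ≠ 0 := by
  haveI := Fintype.ofFinite K
  by_contra hn
  have h1 : (Polynomial.X * (Polynomial.X + 1) * (Polynomial.X ^ 2 + Polynomial.X + 1) :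
      Polynomial K).natDegree = 4 := by compute_degree!
  have := Polynomial.eq_zero_of_natDegree_lt_card_of_eval_eq_zero
    (Polynomial.X * (Polynomial.X + 1) * (Polynomial.X ^ 2 + Polynomial.X + 1) : Polynomial K)
    (f := id) Function.injective_id (fun a => by
      by_contra h2
      simp only [id, Polynomial.eval_mul, Polynomial.eval_add, Polynomial.eval_pow,
        Polynomial.eval_X, Polynomial.eval_one, mul_eq_zero, not_or] at h2
      exact hn ⟨a, h2.1.1, h2.1.2, h2.2⟩) (by rw [h1, ← Nat.card_eq_fintype_card]; exact h)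
  rw [this] at h1
  simp at h1

theorem sg_singer (D : FD F) [Finite V] (hV : 4 < Nat.card V) {K : Type*} [Field K] [Finite K]
    [Algebra F K] (φ : K ≃ₗ[F] V) : ∃ θ : End F V, Singer D θ ∧
      ∀ t : End F V, Commute t θ → ∃ κ : K, ∀ x, t (φ x) = φ (κ * x) := by
  obtain ⟨θ₀, hθ₀⟩ := IsCyclic.exists_monoid_generator (α := Kˣ)
  have hcard : Nat.card K = Nat.card V := Nat.card_congr φ.toEquiv
  obtain ⟨a, ha0, ha1, ha2⟩ := sg_small (K := K) (hcard ▸ hV)
  let M : K → End F V := fun κ => φ.conj (LinearMap.mulLeft F κ)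
  have hM : ∀ κ x, M κ (φ x) = φ (κ * x) := fun κ x => by simp [M, LinearEquiv.conj_apply]
  have ext : ∀ {s t : End F V}, (∀ x, s (φ x) = t (φ x)) → s = t := fun h =>
    LinearMap.ext fun y => by obtain ⟨x, rfl⟩ := φ.surjective y; exact h x
  have pw : ∀ (j : ℕ) x, (M θ₀ ^ j) (φ x) = φ ((θ₀ : K) ^ j * x) := by
    intro j
    induction j with
    | zero => simp
    | succ j ih => intro x; rw [pow_succ, End.mul_apply, hM, ih, pow_succ, mul_assoc]
  have gen : ∀ b : K, b ≠ 0 → ∃ j : ℕ, b = (θ₀ : K) ^ j := fun b hb => by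
    obtain ⟨j, hj⟩ := hθ₀ (Units.mk0 b hb)
    exact ⟨j, by simpa using (congrArg Units.val hj).symm⟩
  have comm : ∀ t : End F V, Commute t (M θ₀) → ∃ κ : K, ∀ x, t (φ x) = φ (κ * x) := by
    intro t ht
    refine ⟨φ.symm (t (φ 1)), fun x => ?_⟩
    by_cases hx : x = 0
    · simp [hx]
    obtain ⟨j, rfl⟩ := gen x hx
    rw [mul_comm, ← pw, φ.apply_symm_apply, ← End.mul_apply, ← (ht.pow_right j).eq,
      End.mul_apply, pw, mul_one]
  refine ⟨M θ₀, ⟨fun X hX => ?_, fun t ht h0 => ?_, fun h0 => ?_, fun h1 => ?_, ?_,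
    fun β hβ => ?_⟩, comm⟩
  · by_cases h : X = ⊥
    · exact Or.inl h
    obtain ⟨x, hx, hx0⟩ := (Submodule.ne_bot_iff X).1 h
    obtain ⟨x, rfl⟩ := φ.surjective x
    have hx1 : x ≠ 0 := fun h => hx0 (by rw [h, map_zero])
    refine Or.inr (eq_top_iff.2 fun y _ => ?_)
    obtain ⟨y, rfl⟩ := φ.surjective y
    by_cases hy : y = 0
    · simp [hy]
    obtain ⟨j, hj⟩ := gen (y / x) (div_ne_zero hy hx1)
    rw [← div_mul_cancel₀ y hx1, hj, ← pw]
    exact Module.End.pow_apply_mem_of_forall_mem j hX _ hx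
  · obtain ⟨κ, hκ⟩ := comm t ht
    have hκ0 : κ ≠ 0 := fun h => h0 (ext fun x => by simp [hκ, h])
    have hi : Function.Injective t := (injective_iff_map_eq_zero t).2 fun y hy => by
      obtain ⟨x, rfl⟩ := φ.surjective y
      rw [hκ, φ.map_eq_zero_iff, mul_eq_zero] at hy
      rw [hy.resolve_left hκ0, map_zero]
    exact ⟨hi, Finite.injective_iff_surjective.1 hi⟩
  · have := hM θ₀ 1
    rw [h0, LinearMap.zero_apply, eq_comm, φ.map_eq_zero_iff, mul_one] at this
    exact θ₀.ne_zero this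
  · have := hM θ₀ 1
    rw [h1, End.one_apply, φ.injective.eq_iff, mul_one] at this
    obtain ⟨j, hj⟩ := gen (-a) (neg_ne_zero.2 ha0)
    rw [← this, one_pow] at hj
    exact ha1 (by rw [← hj, add_neg_cancel])
  · rw [← hcard]
    refine (Nat.card_eq_of_bijective (fun κ : K => (⟨M κ, ext fun x => by
      simp only [End.mul_apply, hM, mul_left_comm]⟩ : {t : End F V // Commute t (M θ₀)}))
      ⟨fun κ κ' h => ?_, fun t => ?_⟩).symm
    · have := LinearMap.congr_fun (congrArg Subtype.val h) (φ 1)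
      simpa only [hM, mul_one, φ.injective.eq_iff] using this
    · obtain ⟨κ, hκ⟩ := comm t.1 t.2
      exact ⟨κ, Subtype.ext (ext fun x => by rw [hκ]; exact hM κ x)⟩
  · have h1 : ∀ (j : ℕ) x y, β (φ ((θ₀ : K) ^ j * x)) (φ ((θ₀ : K) ^ j * y)) = β (φ x) (φ y) := by
      intro j
      induction j with
      | zero => simp
      | succ j ih => intro x y; rw [pow_succ', mul_assoc, mul_assoc, ← hM θ₀, ← hM θ₀, hβ, ih]
    have h2 : ∀ b : K, b ≠ 0 → ∀ x y, β (φ (b * x)) (φ y) = β (φ x) (φ (b⁻¹ * y)) := by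
      intro b hb x y
      obtain ⟨j, hj⟩ := gen b hb
      rw [← h1 j x, ← hj, mul_inv_cancel_left₀ hb]
    have hd : (a + 1)⁻¹ - a⁻¹ - 1 ≠ 0 := fun h => ha2 (by
      field_simp at h
      linear_combination -h)
    refine LinearMap.ext fun x => LinearMap.ext fun y => ?_
    obtain ⟨x, rfl⟩ := φ.surjective x
    obtain ⟨y, rfl⟩ := φ.surjective y
    rw [← mul_inv_cancel_left₀ hd y]
    generalize ((a + 1)⁻¹ - a⁻¹ - 1)⁻¹ * y = z
    simp only [sub_mul, one_mul, map_sub, ← h2 _ ha1, ← h2 _ ha0, add_mul, map_add,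
      LinearMap.add_apply, LinearMap.zero_apply]
    ring

theorem exists_singer (D : FD F) [Finite V] (hV : 4 < Nat.card V) (h : D.Form V)
    (hh : D.IsHerm h) : ∃ θ : End F V, Singer D θ ∧ (h ≠ 0 → ∀ t : End F V, Commute t θ →
      (∀ x y, h (t x) (t y) = h x y) → ∃ z : D.mu, t = (z.1 : F) • 1) := by
  haveI := Fintype.ofFinite F
  obtain ⟨p, hp, k, hpp, hk⟩ := FiniteField.card' F
  haveI : Fact p.Prime := ⟨hpp⟩
  haveI : Nontrivial V := Finite.one_lt_card_iff_nontrivial.1 (by omega)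
  haveI : NeZero (finrank F V) := ⟨Module.finrank_pos.ne'⟩
  let K := FiniteField.Extension F p (finrank F V)
  have hd : finrank F K = finrank F V := FiniteField.finrank_extension F p _
  by_cases h0 : h = 0
  · obtain ⟨φ⟩ := FiniteDimensional.nonempty_linearEquiv_of_finrank_eq hd
    obtain ⟨θ, hθ, -⟩ := sg_singer D hV φ
    exact ⟨θ, hθ, fun h1 => (h1 h0).elim⟩
  obtain ⟨v, hv⟩ : ∃ v, h v v ≠ 0 := by
    by_contra hn
    exact h0 (D.polar h fun v => by_contra fun hv => hn ⟨v, hv⟩)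
  obtain ⟨μ, hμ1, hμ⟩ := sg_key D K
  obtain ⟨φ, hφ1, hφ⟩ := sg_equiv hd μ ((h v v)⁻¹ • h.flip v) (v := v) hμ1 (by simp [hv])
  obtain ⟨θ, hθ, hc⟩ := sg_singer D hV φ
  refine ⟨θ, hθ, fun _ t ht hi => ?_⟩
  obtain ⟨κ, hκ⟩ := hc t ht
  have hκ0 : κ ≠ 0 := fun h1 => hv (by rw [← hi, ← hφ1, hκ, h1]; simp)
  have h1 : ∀ (j : ℕ) x y, h (φ (κ ^ j * x)) (φ (κ ^ j * y)) = h (φ x) (φ y) := by
    intro j
    induction j with
    | zero => simp
    | succ j ih => intro x y; rw [pow_succ', mul_assoc, mul_assoc, ← hκ, ← hκ, hi, ih]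
  obtain ⟨z, hz⟩ := hμ κ hκ0 fun j => by
    rw [← hφ, ← hφ]
    simp only [LinearMap.smul_apply, LinearMap.flip_apply, smul_eq_mul, map_mul, map_inv₀,
      hh.σ_self]
    rw [← hh, ← hφ1, ← h1 j (κ⁻¹ ^ j), ← mul_pow, mul_inv_cancel₀ hκ0, one_pow, mul_one]
  refine ⟨z, LinearMap.ext fun y => ?_⟩
  obtain ⟨x, rfl⟩ := φ.surjective y
  rw [hκ, hz, ← Algebra.smul_def, map_smul]
  rfl

end Cfsg.Hst

set_option linter.all false in
theorem Cfsg.Rz.Hst_Singer_0 : True := by
  have := @_root_.Cfsg.Hst.Singer.mk.congr_simp.{0, 0}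
  trivial
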