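import Cfsg.Agent.Hst.Geo
import Cfsg.Agent.Hst.Cent

/-!
# The constituents of the Weil character (S4793 project)
-/

set_option autoImplicit false
set_option linter.unusedSectionVars false
set_option linter.unusedVariables false
set_option linter.style.haveILetI false

namespace Cfsg.Hst

open Module Submodule

universe u v w

variable {F : Type u} [Field F] [Finite F] {V : Type v} [AddCommGroup V] [Module F V]

namespace HS

variable {D : FD F} [Finite V] (S : HS D V)

/-- From `Gun/Weil` (helper6). -/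
theorem om_isCharacter : IsCharacter S.U S.om := S.om_isCharacter'

/-- No reflection group has a fixed vector. -/
def NoRefl (χ : S.U → ℂ) : Prop := ∀ e, S.B e e ≠ 0 → fd χ (S.PS (span F {e})) = 0

theorem ker_sub1_one : LinearMap.ker (S.sub1 1) = ⊤ :=
  eq_top_iff.2 fun v _ => by simp

/-- `(-q)^n + q (-q)^(n-1) = 0`. -/
theorem om_noRefl : S.NoRefl S.om := by
  classical
  intro e he
  obtain ⟨φ, hφ⟩ := S.exists_rfEquiv he
  haveI := Fintype.ofFinite D.mu
  haveI := Fintype.ofFinite (S.PS (span F {e}))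
  rw [fd_def, ← Equiv.sum_comp φ.toEquiv, ← Finset.add_sum_erase _ _ (Finset.mem_univ 1)]
  obtain ⟨d, hd⟩ : ∃ d, finrank F V = d + 1 := by
    haveI : Nontrivial V := ⟨⟨e, 0, fun h => he (by simp [h])⟩⟩
    exact ⟨_, (Nat.succ_pred_eq_of_pos finrank_pos).symm⟩
  rw [Finset.sum_congr rfl (g := fun _ => (-1) ^ finrank F V * (-(D.q : ℂ)) ^ d) fun a ha => by
    have := S.finrank_ker_sub1_rf he (Finset.ne_of_mem_erase ha)
    rw [MulEquiv.toEquiv_eq_coe, MulEquiv.coe_toEquiv, hφ, om, Nat.add_right_cancel (this.trans hd)],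
    Finset.sum_const, Finset.card_erase_of_mem (Finset.mem_univ _), Finset.card_univ,
    ← Nat.card_eq_fintype_card, D.card_mu, MulEquiv.toEquiv_eq_coe, MulEquiv.coe_toEquiv, map_one,
    OneMemClass.coe_one, om, S.ker_sub1_one, finrank_top, hd]
  simp only [add_tsub_cancel_right, nsmul_eq_mul]
  ring

/-- `|om g|² = |Fix g|`, so `[om, om]` is the number of orbits on vectors (Burnside), at most `q + 1`
(`exists_map_iso`, `exists_map_aniso`, `card_fixed`). -/
theorem ip_om_le : (ip S.om S.om).re ≤ D.q + 1 := by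
  classical
  haveI := Fintype.ofFinite S.U
  haveI := Fintype.ofFinite V
  haveI := Fintype.ofFinite (MulAction.orbitRel.Quotient S.U V)
  have h1 : ∀ g : S.U, S.om g * (starRingEnd ℂ) (S.om g) =
      (Fintype.card (MulAction.fixedBy V g) : ℕ) := fun g => by
    have : Fintype.card (MulAction.fixedBy V g) = Nat.card (LinearMap.ker (S.sub1 g)) := by
      rw [← Nat.card_eq_fintype_card]
      exact Nat.card_congr (Equiv.subtypeEquivRight fun v => by
        rw [LinearMap.mem_ker, sub1_apply, sub_eq_zero]; rfl)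
    rw [this, Module.natCard_eq_pow_finrank (K := F), D.card, om]
    simp only [map_mul, map_pow, map_neg, map_one, map_natCast]
    rw [mul_mul_mul_comm, ← mul_pow, ← mul_pow]
    simp [sq]
  have h2 : Fintype.card (MulAction.orbitRel.Quotient S.U V) ≤ D.q + 1 := by
    let f : V → Option {t : F // D.σ t = t} := fun v =>
      if v = 0 then none else some ⟨S.B v v, S.σ_B v v⟩
    have hf : ∀ v w, f v = f w → ∃ g : S.U, g.1 v = w := fun v w e => by
      by_cases hv : v = 0 <;> by_cases hw : w = 0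
      · exact ⟨1, by simp [hv, hw]⟩
      · simp [f, hv, hw] at e
      · simp [f, hv, hw] at e
      · simp only [f, hv, hw, if_false, Option.some.injEq, Subtype.mk.injEq] at e
        by_cases h0 : S.B v v = 0
        · exact S.exists_map_iso h0 (e ▸ h0) hv hw
        · exact S.exists_map_aniso e h0
    rw [← D.card_fixed, ← Finite.card_option, ← Nat.card_eq_fintype_card]
    refine Nat.card_le_card_of_injective (fun o => f o.out) fun o o' e => ?_
    obtain ⟨g, hg⟩ := hf _ _ e.symm
    exact Quotient.out_equiv_out.1 ⟨g, hg⟩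
  rw [ip_def, Finset.sum_congr rfl fun g _ => h1 g, ← Nat.cast_sum,
    MulAction.sum_card_fixedBy_eq_card_orbits_mul_card_group, Nat.cast_mul, mul_comm,
    ← Nat.card_eq_fintype_card (α := S.U), mul_inv_cancel_right₀ (natCard_cast_ne_zero _),
    Complex.natCast_re]
  exact_mod_cast h2

/-- The scalars lie in the kernel. -/
def ZTriv (χ : S.U → ℂ) : Prop := ∀ z, χ (S.sc z) = χ 1

/-- `exists_central_components` for `s = S.sc`: `om 1 = q ^ n`, `om (sc z) = -1` for `z ≠ 1`. -/
theorem exists_om0 (hn : Odd (finrank F V)) (h3 : 3 ≤ finrank F V) :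
    ∃ ω₀ : IrrCharacter S.U, S.ZTriv ω₀.1 ∧ ip S.om ω₀.1 ≠ 0 ∧
      (D.q + 1) * charDegree ω₀.1 + D.q = D.q ^ finrank F V ∧
      ∀ χ : IrrCharacter S.U, ip S.om χ.1 ≠ 0 → χ = ω₀ ∨
        (¬ S.ZTriv χ.1 ∧ (D.q + 1) * charDegree χ.1 = D.q ^ finrank F V + 1) := by
  classical
  haveI := Fintype.ofFinite D.mu
  have hq := D.two_le
  have hs : ∀ κ : D.mu →* ℂˣ, ∑ z, S.om (S.sc z) * ((κ z)⁻¹ : ℂˣ) =
      (D.q : ℂ) ^ finrank F V + 1 - if κ = 1 then (D.q : ℂ) + 1 else 0 := fun κ => by
    have h1 : ∀ z, S.om (S.sc z) = (if z = 1 then (D.q : ℂ) ^ finrank F V + 1 else 0) - 1 := by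
      intro z
      split_ifs with hz
      · rw [hz, map_one, om, S.ker_sub1_one, finrank_top, ← mul_pow]; simp
      · have : LinearMap.ker (S.sub1 (S.sc z)) = ⊥ := eq_bot_iff.2 fun v hv => by
          rw [LinearMap.mem_ker, sub1_apply, sc_apply, sub_eq_zero] at hv
          by_contra h0
          exact hz (Subtype.ext (Units.ext (smul_left_injective F h0 (hv.trans (one_smul _ _).symm))))
        rw [om, this, finrank_bot, hn.neg_one_pow]; simp
    simp only [h1, sub_mul, Finset.sum_sub_distrib, ite_mul, zero_mul, Finset.sum_ite_eq',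
      Finset.mem_univ, if_true, map_one, inv_one, Units.val_one, mul_one, one_mul]
    congr 1
    split_ifs with hκ
    · simp [hκ, ← Nat.card_eq_fintype_card, D.card_mu]
    · exact sum_linear_apply_eq_zero (lam := κ⁻¹) fun e => hκ (MonoidHom.ext fun z => inv_eq_one.1 (DFunLike.congr_fun e z))
  have hlt : D.q < D.q ^ finrank F V := by
    calc D.q = D.q ^ 1 := (pow_one _).symm
      _ < _ := Nat.pow_lt_pow_right hq (by omega)
  obtain ⟨c, h1, h2, h3, h4⟩ := exists_central_components S.sc S.sc_comm S.om_isCharacter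
    (by rw [D.card_mu]; exact_mod_cast S.ip_om_le) fun κ => by
      rw [hs]
      split_ifs
      · rw [add_sub_add_right_eq_sub, sub_ne_zero]
        exact_mod_cast hlt.ne'
      · rw [sub_zero]
        exact_mod_cast Nat.succ_ne_zero (D.q ^ finrank F V)
  simp only [hs, D.card_mu, IrrCharacter.apply_one] at h3
  refine ⟨c 1, fun z => by simpa using h2 1 z, h1 1, ?_, fun χ hχ => ?_⟩
  · have := h3 1
    rw [if_pos rfl, add_sub_add_right_eq_sub, eq_sub_iff_add_eq] at this
    exact_mod_cast this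
  · obtain ⟨κ, rfl⟩ := h4 χ hχ
    by_cases hκ : κ = 1
    · exact Or.inl (by rw [hκ])
    · refine Or.inr ⟨fun h => hκ (MonoidHom.ext fun z => Units.ext ?_), ?_⟩
      · exact (mul_eq_right₀ (c κ).apply_one_ne_zero).1 ((h2 κ z).symm.trans (h z))
      · have := h3 κ
        rw [if_neg hκ, sub_zero] at this
        exact_mod_cast this

end HS

end Cfsg.Hst

set_option linter.all false in
theorem Cfsg.Rz.Hst_Weil_0 : True := by
  have := @_root_.Cfsg.Hst.HS.NoRefl.congr_simp.{0, 0}
  have := @_root_.Cfsg.Hst.HS.NoRefl.eq_def.{0, 0}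
  have := @_root_.Cfsg.Hst.HS.NoRefl.eq_1.{0, 0}
  have := @_root_.Cfsg.Hst.HS.NoRefl.fun_cases
  have := @_root_.Cfsg.Hst.HS.ZTriv.congr_simp.{0, 0}
  have := @_root_.Cfsg.Hst.HS.ZTriv.eq_def.{0, 0}
  have := @_root_.Cfsg.Hst.HS.ZTriv.eq_1.{0, 0}
  have := @_root_.Cfsg.Hst.HS.ZTriv.fun_cases
  trivial
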