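import Cfsg.Agent.Hst.ZeroA
import Cfsg.Agent.Gun.Perp
import Cfsg.Agent.Gln.Sim

/-!
# A subgroup of the centraliser without fixed points in the Weil representation (S4793 project)

`V` is a nondegenerate hermitian space of odd dimension, `g` an isometry.  There is a group `C` of isometries
commuting with `g` such that `∑_{u ∈ C} (-q) ^ dim ker (u - 1) = 0`.  Split off nondegenerate invariant subspaces;
in the indecomposable case `V` is free of rank one over the chain ring `F[g]` and `C` is its unitary group.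
-/

set_option autoImplicit false
set_option linter.unusedSectionVars false
set_option linter.unusedVariables false
set_option linter.style.haveILetI false

namespace Cfsg.Hst

open Module Finset Cfsg.Gun Cfsg.Gln Polynomial

universe u

variable {F : Type*} [Field F] [Finite F] {q : ℕ}

theorem zero_of_indec {V : Type*} [AddCommGroup V] [Module F V] [Finite V] {h : V → V → F}
    (H : IsHerm q h) (hF : Nat.card F = q ^ 2) (hnd : ∀ u, (∀ v, h u v = 0) → u = 0)
    {B : Type*} [CommRing B] [Algebra F B] [IsPrincipalIdealRing B] (ι : B →ₐ[F] End F V)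
    (hι : Function.Injective ι) (hadj : ∀ b, ∃ b', ∀ u v, h (ι b u) v = h u (ι b' v))
    (hind : ∀ W : Submodule F V, (∀ b, ∀ w ∈ W, ι b w ∈ W) →
      (∀ u ∈ W, (∀ v ∈ W, h u v = 0) → u = 0) → W = ⊥ ∨ W = ⊤) (hodd : Odd (finrank F V)) :
    ∃ C : Finset B, 1 ∈ C ∧ (∀ a ∈ C, ∀ b ∈ C, a * b ∈ C) ∧
      (∀ a ∈ C, ∀ u v, h (ι a u) (ι a v) = h u v) ∧
      ∑ a ∈ C, (-(q : ℂ)) ^ finrank F (LinearMap.ker (ι a - 1)) = 0 := by
  classical
  haveI : Finite (End F V) := Module.finite_of_finite F
  haveI : Finite B := Finite.of_injective _ hι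
  cases nonempty_fintype B
  haveI : Nontrivial V := Module.nontrivial_of_finrank_pos hodd.pos
  haveI : Nontrivial B := ι.toRingHom.domain_nontrivial
  obtain ⟨σ, hσ⟩ := exists_sigma hF
  choose t ht using hadj
  have hm : ∀ a b v, ι (a * b) v = ι a (ι b v) := fun a b v => by rw [map_mul, Module.End.mul_apply]
  have ext : ∀ a b, (∀ u v, h (ι a u) v = h u (ι b v)) → t a = b := fun a b e =>
    hι (LinearMap.ext fun v => H.ext_right hF hnd fun u => by rw [← ht, e])
  let τ : B →+* B :=
    { toFun := t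
      map_one' := ext _ _ fun u v => by rw [map_one, Module.End.one_apply, Module.End.one_apply]
      map_mul' := fun a b => ext _ _ fun u v => by rw [hm, ht, ht, mul_comm, hm]
      map_zero' := ext _ _ fun u v => by
        rw [map_zero, LinearMap.zero_apply, LinearMap.zero_apply, H.zero_left, H.zero_right hF]
      map_add' := fun a b => ext _ _ fun u v => by
        rw [map_add, map_add, LinearMap.add_apply, LinearMap.add_apply, H.add_left,
          H.add_right hF, ht, ht] }
  replace ht : ∀ b u v, h (ι b u) v = h u (ι (τ b) v) := ht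
  have hI : Invol q σ τ := ⟨hF, by simpa only [hσ] using exists_pow_q_ne hF,
    fun x => by rw [hσ, hσ, pow_q_pow_q hF],
    fun x => ext (τ x) x fun u v => by rw [H.symm, ← ht, ← H.symm],
    fun c x => ext _ _ fun u v => by
      rw [map_smul, map_smul, LinearMap.smul_apply, LinearMap.smul_apply, H.smul_left,
        H.smul_right hF, hσ, pow_q_pow_q hF, ht]⟩
  have hsa : ∀ f : B, f * f = f → τ f = f → f = 0 ∨ f = 1 := fun f hf hf' => by
    refine (hind (LinearMap.range (ι f)) ?_ ?_).imp (fun e => hι ?_) fun e => hι ?_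
    · rintro b _ ⟨w, rfl⟩
      exact ⟨ι b w, by rw [← hm, mul_comm, hm]⟩
    · rintro _ ⟨u, rfl⟩ e
      refine hnd _ fun v => ?_
      rw [← hf, hm, ht, hf', e _ ⟨v, rfl⟩]
    · rw [map_zero, LinearMap.range_eq_bot.1 e]
    · refine LinearMap.ext fun v => ?_
      obtain ⟨v, rfl⟩ := LinearMap.range_eq_top.1 e v
      rw [← hm, hf, map_one, Module.End.one_apply]
  have hid : ∀ e : B, e * e = e → e = 0 ∨ e = 1 := fun e he => by
    have he' : τ e * τ e = τ e := by rw [← map_mul, he]
    rcases hsa (e * τ e) (by rw [mul_mul_mul_comm, he, he']) (by rw [map_mul, hI.ττ, mul_comm])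
      with h1 | h1
    swap
    · exact Or.inr (by linear_combination τ e * he + (1 - e) * h1)
    rcases hsa ((1 - e) * (1 - τ e)) (by linear_combination (1 - τ e) ^ 2 * he + (1 - e) * he')
      (by rw [map_mul, map_sub, map_sub, map_one, hI.ττ, mul_comm]) with h2 | h2
    swap
    · exact Or.inl (by linear_combination -(1 - τ e) * he - e * h2)
    have h3 : LinearMap.ker (ι (τ e)) = LinearMap.range (ι e) := by
      rw [show τ e = 1 - e by linear_combination h1 - h2]
      ext v
      rw [LinearMap.mem_ker, map_sub, map_one, LinearMap.sub_apply, Module.End.one_apply, sub_eq_zero]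
      exact ⟨fun e' => ⟨v, e'.symm⟩, by rintro ⟨v, rfl⟩; rw [← hm, he]⟩
    have h4 := H.finrank_add_finrank_perp hF hnd (LinearMap.range (ι e))
    rw [H.perp_range hF hnd (ht e), h3] at h4
    exact absurd ⟨_, h4.symm⟩ (Nat.not_even_iff_odd.2 hodd)
  obtain ⟨π, k, hc⟩ := exists_chain hid
  obtain ⟨v, hv⟩ : ∃ v, h (ι (π ^ (k - 1)) v) v ≠ 0 := by
    by_contra! h'
    exact hc.pow_ne (hι ((H.eq_zero_of_form_self hF hnd h').trans (map_zero ι).symm))
  let ψ : B →ₗ[F] V := LinearMap.applyₗ v ∘ₗ ι.toLinearMap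
  have hψ : ∀ b, ψ b = ι b v := fun _ => rfl
  have h1 : ∀ b, (∀ c, h (ψ b) (ψ c) = 0) → b = 0 := fun b e => by_contra fun hb => by
    obtain ⟨d, hd⟩ := hc.dvd hb
    exact hv (by rw [hd, mul_comm, hm, ht, ← hψ, ← hψ, e])
  have h2 : Function.Bijective ψ := ⟨(injective_iff_map_eq_zero ψ).2 fun b e => h1 b fun c => by
    rw [e, H.zero_left], LinearMap.range_eq_top.1 ((hind _ (by
      rintro b _ ⟨c, rfl⟩
      exact ⟨b * c, hm b c v⟩) (by
      rintro _ ⟨b, rfl⟩ e
      rw [h1 b fun c => e _ ⟨c, rfl⟩, map_zero])).resolve_left fun e => one_ne_zero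
        (h1 1 fun c => by rw [LinearMap.range_eq_bot.1 e, LinearMap.zero_apply, H.zero_left]))⟩
  let e := LinearEquiv.ofBijective ψ h2
  refine ⟨univ.filter fun u => u * τ u = 1, by simp, fun a ha b hb => ?_, fun a ha u v => ?_, ?_⟩
  · rw [mem_filter_univ] at ha hb ⊢
    rw [map_mul, mul_mul_mul_comm, ha, hb, mul_one]
  · rw [mem_filter_univ] at ha
    rw [ht, ← hm, mul_comm, ha, map_one, Module.End.one_apply]
  · rw [← hI.sum_unitary hc (e.finrank_eq ▸ hodd)]
    refine Finset.sum_congr rfl fun a _ => ?_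
    rw [Sim.finrank_ker (y := ι a - 1) ⟨e, fun b => ?_⟩]
    rw [← map_one ι, ← map_sub]
    exact hm _ _ _

theorem exists_zero_finset (hF : Nat.card F = q ^ 2) (n : ℕ) :
    ∀ (V : Type u) [AddCommGroup V] [Module F V] [Finite V] (h : V → V → F), IsHerm q h →
      (∀ u, (∀ v, h u v = 0) → u = 0) → finrank F V = n → Odd n → ∀ g : End F V,
      (∀ u v, h (g u) (g v) = h u v) → ∃ C : Finset (End F V), 1 ∈ C ∧
        (∀ a ∈ C, ∀ b ∈ C, a * b ∈ C) ∧
        (∀ a ∈ C, (∀ u v, h (a u) (a v) = h u v) ∧ a * g = g * a) ∧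
        ∑ a ∈ C, (-(q : ℂ)) ^ finrank F (LinearMap.ker (a - 1)) = 0 := by
  classical
  induction n using Nat.strong_induction_on with
  | _ n ih =>
  intro V _ _ _ h H hnd hn hodd g hg
  have hi := H.injective_of_isom hnd hg
  by_cases hind : ∀ W : Submodule F V, (∀ w ∈ W, g w ∈ W) →
      (∀ u ∈ W, (∀ v ∈ W, h u v = 0) → u = 0) → W = ⊥ ∨ W = ⊤
  · haveI : Finite (End F V) := Module.finite_of_finite F
    obtain ⟨m, hm⟩ : ∃ m, g ^ m * g = 1 := by
      obtain ⟨g, rfl⟩ := (LinearMap.isUnit_iff_ker_eq_bot g).2 (LinearMap.ker_eq_bot.2 hi)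
      obtain ⟨m, hm⟩ := Nat.exists_eq_succ_of_ne_zero (orderOf_pos g).ne'
      exact ⟨m, by rw [← pow_succ, ← Units.val_pow_eq_pow_val, ← Nat.succ_eq_add_one, ← hm,
        pow_orderOf_eq_one, Units.val_one]⟩
    have hg' : ∀ u v, h (g u) v = h u ((g ^ m) v) := fun u v => by
      rw [← hg u, ← Module.End.mul_apply g, ← pow_succ', pow_succ, hm, Module.End.one_apply]
    haveI : IsPrincipalIdealRing (F[X] ⧸ RingHom.ker (aeval g : F[X] →ₐ[F] End F V)) :=
      .of_surjective (Ideal.Quotient.mk _) Ideal.Quotient.mk_surjective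
    have hι := Ideal.kerLiftAlg_injective (aeval g : F[X] →ₐ[F] End F V)
    obtain ⟨C, h1, h2, h3, h4⟩ := zero_of_indec H hF hnd _ hι (fun b => by
      obtain ⟨p, rfl⟩ := Ideal.Quotient.mk_surjective b
      suffices ∃ p' : F[X], ∀ u v, h (aeval g p u) v = h u (aeval g p' v) from
        this.elim fun p' hp' => ⟨Ideal.Quotient.mk _ p', hp'⟩
      induction p using Polynomial.induction_on with
      | C a => exact ⟨C (a ^ q), fun u v => by
          rw [aeval_C, aeval_C, Module.algebraMap_end_apply, Module.algebraMap_end_apply, H.smul_left,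
            H.smul_right hF, pow_q_pow_q hF]⟩
      | add p p' hp hp' =>
        obtain ⟨r, hr⟩ := hp
        obtain ⟨r', hr'⟩ := hp'
        exact ⟨r + r', fun u v => by
          rw [map_add, map_add, LinearMap.add_apply, LinearMap.add_apply, H.add_left,
            H.add_right hF, hr, hr']⟩
      | monomial j a hp =>
        obtain ⟨r, hr⟩ := hp
        exact ⟨X ^ m * r, fun u v => by
          rw [pow_succ, ← mul_assoc, map_mul, map_mul _ _ r, aeval_X, map_pow, aeval_X,
            Module.End.mul_apply, Module.End.mul_apply, hr, hg']⟩)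
      (fun W hW => hind W fun w hw => by
        have := hW (Ideal.Quotient.mk _ X) w hw
        rwa [Ideal.kerLiftAlg_mk, aeval_X] at this) (hn ▸ hodd)
    refine ⟨C.map ⟨_, hι⟩, mem_map.2 ⟨1, h1,
      map_one (Ideal.kerLiftAlg (aeval g : F[X] →ₐ[F] End F V))⟩, ?_, ?_, by rw [sum_map]; exact h4⟩
    · simp only [forall_mem_map]
      exact fun a ha b hb => mem_map.2
        ⟨a * b, h2 a ha b hb, map_mul (Ideal.kerLiftAlg (aeval g : F[X] →ₐ[F] End F V)) a b⟩
    · simp only [forall_mem_map]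
      refine fun a ha => ⟨h3 a ha, ?_⟩
      obtain ⟨p, rfl⟩ := Ideal.Quotient.mk_surjective a
      change aeval g p * g = g * aeval g p
      simpa only [map_mul, aeval_X] using congrArg (aeval g) (mul_comm p X)
  · obtain ⟨W, hW, hW', hlt, ho⟩ : ∃ W : Submodule F V, (∀ w ∈ W, g w ∈ W) ∧
        (∀ u ∈ W, (∀ v ∈ W, h u v = 0) → u = 0) ∧ finrank F W < n ∧ Odd (finrank F W) := by
      push Not at hind
      obtain ⟨W, h1, h2, h3, h4⟩ := hind
      have h5 := H.finrank_add_finrank_perp hF hnd W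
      have h6 := Submodule.finrank_lt h4
      have h7 : finrank F W ≠ 0 := fun e => h3 (Submodule.finrank_eq_zero.1 e)
      by_cases ho : Odd (finrank F W)
      · exact ⟨W, h1, h2, by omega, ho⟩
      · refine ⟨H.perp W, fun w => H.apply_mem_perp hg hi h1, H.nondeg_perp hF hnd h2, by omega, ?_⟩
        rw [← hn, ← h5, Nat.odd_add] at hodd
        exact Nat.not_even_iff_odd.1 fun e => ho (hodd.2 e)
    obtain ⟨C, h1, h2, h3, h4⟩ := ih _ hlt W _ (H.comp W.subtype)
      (fun u hu => Subtype.ext (hW' u u.2 fun v hv => hu ⟨v, hv⟩)) rfl ho (g.restrict hW)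
      fun u v => hg u v
    let e := W.prodEquivOfIsCompl _ (H.isCompl_perp hF hnd hW')
    have he : ∀ x, e x = x.1 + x.2 := fun _ => rfl
    have hφ : Function.Injective fun a : End F W => e.conj (a.prodMap 1) := fun a b hab =>
      LinearMap.ext fun w => congrArg Prod.fst (LinearMap.congr_fun (e.conj.injective hab) (w, 0))
    have h5 : ∀ (a : End F W) x, e.conj (a.prodMap 1) (e x) = a x.1 + x.2 := fun a x => by
      rw [LinearEquiv.conj_apply_apply, e.symm_apply_apply, he]
      rfl
    have h6 : ∀ (x y : W) (x' y' : H.perp W), h (x + x') (y + y') = h x y + h x' y' :=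
      fun x y x' y' => by
        rw [H.add_left, H.add_right hF, H.add_right hF, x'.2 y y.2,
          (H.mem_perp' hF).1 y'.2 x x.2, add_zero, zero_add]
    refine ⟨C.map ⟨_, hφ⟩, mem_map.2 ⟨1, h1, e.conj_id⟩, ?_, ?_, ?_⟩
    · simp only [forall_mem_map]
      exact fun a ha b hb => mem_map.2 ⟨a * b, h2 a ha b hb, e.conj_comp (b.prodMap 1) (a.prodMap 1)⟩
    · simp only [forall_mem_map, Function.Embedding.coeFn_mk]
      refine fun a ha => ⟨fun u v => ?_, LinearMap.ext fun u => ?_⟩
      · obtain ⟨u, rfl⟩ := e.surjective u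
        obtain ⟨v, rfl⟩ := e.surjective v
        rw [h5, h5, he, he, h6, h6]
        exact congrArg (· + _) ((h3 a ha).1 _ _)
      · obtain ⟨u, rfl⟩ := e.surjective u
        have h7 : g (e u) = e (g.restrict hW u.1, ⟨g u.2, H.apply_mem_perp hg hi hW u.2.2⟩) :=
          map_add g _ _
        rw [Module.End.mul_apply, Module.End.mul_apply, h7, h5, h5, map_add]
        exact congrArg (fun x : W => (x : V) + _) (LinearMap.congr_fun (h3 a ha).2 u.1)
    · rw [sum_map, ← zero_mul ((-(q : ℂ)) ^ finrank F (H.perp W)), ← h4, sum_mul]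
      refine Finset.sum_congr rfl fun a _ => ?_
      rw [Function.Embedding.coeFn_mk, ← pow_add, ← finrank_top F (H.perp W),
        show ⊤ = LinearMap.ker (0 : End F (H.perp W)) from LinearMap.ker_zero.symm,
        ← finrank_ker_prodMap,
        Sim.finrank_ker (y := e.conj (a.prodMap 1) - 1) ⟨e, fun x => ?_⟩]
      rw [LinearMap.sub_apply, h5, he, Module.End.one_apply, he]
      simp

/-- Part (B) of the proof of S4793. -/
theorem exists_subgroup_sum_eq_zero {V : Type*} [AddCommGroup V] [Module F V] [Finite V]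
    {h : V → V → F} (H : IsHerm q h) (hF : Nat.card F = q ^ 2)
    (hnd : ∀ u, (∀ v, h u v = 0) → u = 0) (hodd : Odd (finrank F V)) {G : Type*} [Group G]
    (ρ : G →* End F V) (hi : Function.Injective ρ) (hρ : ∀ g u v, h (ρ g u) (ρ g v) = h u v)
    (hs : ∀ a : End F V, (∀ u v, h (a u) (a v) = h u v) → ∃ x, ρ x = a) (g : G) :
    ∃ C : Subgroup G, C ≤ Subgroup.centralizer {g} ∧ ∀ [Fintype C],
      ∑ x : C, (-(q : ℂ)) ^ finrank F (LinearMap.ker (ρ x - 1)) = 0 := by
  haveI : Finite (End F V) := Module.finite_of_finite F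
  haveI : Finite G := Finite.of_injective _ hi
  obtain ⟨C, h1, h2, h3, h4⟩ := exists_zero_finset hF _ V h H hnd rfl hodd (ρ g) (hρ g)
  let S : Submonoid G := ⟨⟨{x | ρ x ∈ C}, fun {a b} ha hb => by
    have := h2 _ ha _ hb
    rwa [← map_mul] at this⟩, by simpa using h1⟩
  refine ⟨⟨S, fun {x} hx => ?_⟩, fun x hx => ?_, ?_⟩
  · rw [← one_mul x⁻¹, ← pow_orderOf_eq_one x, ← Nat.sub_add_cancel (orderOf_pos x), pow_succ,
      mul_inv_cancel_right]
    exact S.pow_mem hx _
  · exact Subgroup.mem_centralizer_singleton_iff.2 (hi (by rw [map_mul, map_mul, (h3 _ hx).2]))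
  · intro _
    rw [← h4]
    refine Finset.sum_bij (fun x _ => ρ x) (fun x _ => x.2) (fun x _ y _ e => Subtype.ext (hi e))
      (fun a ha => ?_) fun _ _ => rfl
    obtain ⟨x, rfl⟩ := hs a (h3 a ha).1
    exact ⟨⟨x, ha⟩, mem_univ _, rfl⟩

end Cfsg.Hst
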