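import Mathlib

/-!
# Unitary units of a finite chain ring with involution (S4793 project)

`B` is a finite commutative `F`-algebra which is a principal ideal ring without nontrivial idempotents, `τ` is a
`σ`-semilinear involution.  If `dim B` is odd then `∑_{u τ(u) = 1} (-q) ^ dim ker (u - 1) = 0`.
-/

set_option autoImplicit false
set_option linter.unusedSectionVars false
set_option linter.unusedVariables false
set_option linter.style.haveILetI false

namespace Cfsg.Hst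

open Module Finset

variable {F B : Type*} [Field F] [Finite F] [CommRing B] [Algebra F B] [Finite B] {σ : F →+* F}
  {τ : B →+* B} {q : ℕ}

theorem isNilpotent_or_isUnit (hid : ∀ e : B, e * e = e → e = 0 ∨ e = 1) (a : B) :
    IsNilpotent a ∨ IsUnit a := by
  obtain ⟨n, y, h⟩ := IsArtinian.exists_pow_succ_smul_dvd (R := B) a (1 : B)
  rw [smul_eq_mul, smul_eq_mul, mul_one] at h
  have h1 : ∀ m, a ^ (n + 1) * (a * y) ^ m = a ^ (n + 1) := fun m => by
    induction m with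
    | zero => simp
    | succ m ih =>
      rw [pow_succ (a * y), ← mul_assoc, ih, mul_left_comm, h, ← pow_succ']
  rcases hid ((a * y) ^ (n + 1)) (by
    conv_lhs => rw [mul_pow a y, mul_right_comm, ← mul_pow a y, h1, ← mul_pow]) with h2 | h2
  · exact Or.inl ⟨n + 1, by rw [← h1 (n + 1), h2, mul_zero]⟩
  · exact Or.inr (isUnit_of_mul_isUnit_left (isUnit_pow_succ_iff.1 (h2 ▸ isUnit_one)))

/-- Chain ring structure. -/
structure Chain (π : B) (k : ℕ) : Prop where
  pos : 0 < k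
  pow_eq : π ^ k = 0
  pow_ne : π ^ (k - 1) ≠ 0
  dec : ∀ b : B, b ≠ 0 → ∃ j < k, ∃ w : Bˣ, b = π ^ j * w

theorem exists_chain [Nontrivial B] [IsPrincipalIdealRing B]
    (hid : ∀ e : B, e * e = e → e = 0 ∨ e = 1) : ∃ (π : B) (k : ℕ), Chain π k := by
  classical
  obtain ⟨π, hπ⟩ := IsPrincipalIdealRing.principal (nilradical B)
  have hn : IsNilpotent π := mem_nilradical.1 (hπ ▸ Submodule.mem_span_singleton_self π)
  have h0 : 0 < Nat.find hn := (Nat.find_pos hn).2 (by simp)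
  refine ⟨π, Nat.find hn, h0, Nat.find_spec hn, Nat.find_min hn (by omega), fun b hb => ?_⟩
  have hex : ∃ j, ¬ π ^ j ∣ b := ⟨_, by rw [Nat.find_spec hn, zero_dvd_iff]; exact hb⟩
  have h1 : 0 < Nat.find hex := (Nat.find_pos hex).2 (by simp)
  obtain ⟨w, hw⟩ := not_not.1 (Nat.find_min hex (m := Nat.find hex - 1) (by omega))
  have h2 : Nat.find hex ≤ Nat.find hn :=
    Nat.find_min' hex (by rw [Nat.find_spec hn, zero_dvd_iff]; exact hb)
  rcases isNilpotent_or_isUnit hid w with h | ⟨w, rfl⟩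
  · have := mem_nilradical.2 h
    rw [hπ, Ideal.submodule_span_eq, Ideal.mem_span_singleton] at this
    refine absurd ?_ (Nat.find_spec hex)
    refine Dvd.dvd.trans ?_ hw.symm.dvd
    conv_lhs => rw [show Nat.find hex = Nat.find hex - 1 + 1 by omega, pow_succ]
    exact mul_dvd_mul_left _ this
  · exact ⟨_, by omega, w, hw⟩

variable {π : B} {k : ℕ}

theorem Chain.dvd (h : Chain π k) {b : B} (hb : b ≠ 0) : b ∣ π ^ (k - 1) := by
  obtain ⟨j, hj, w, rfl⟩ := h.dec b hb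
  exact Units.mul_right_dvd.2 (pow_dvd_pow _ (by omega))

theorem Chain.pow_eq_zero_iff (h : Chain π k) {j : ℕ} : π ^ j = 0 ↔ k ≤ j :=
  ⟨fun e => by_contra fun h' => h.pow_ne (eq_zero_of_zero_dvd (e ▸ pow_dvd_pow π (by omega))),
    fun e => pow_eq_zero_of_le e h.pow_eq⟩

theorem Chain.mul_eq_zero_iff (h : Chain π k) {j : ℕ} (hj : j ≤ k) {b : B} :
    π ^ j * b = 0 ↔ π ^ (k - j) ∣ b := by
  constructor
  · intro e
    by_cases hb : b = 0
    · rw [hb]; exact dvd_zero _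
    · obtain ⟨i, hi, w, rfl⟩ := h.dec b hb
      rw [← mul_assoc, Units.mul_left_eq_zero, ← pow_add, h.pow_eq_zero_iff] at e
      exact (pow_dvd_pow π (by omega)).mul_right _
  · rintro ⟨c, rfl⟩
    rw [← mul_assoc, ← pow_add, Nat.add_sub_cancel' hj, h.pow_eq, zero_mul]

theorem Chain.pow_dvd_iff (h : Chain π k) {i j : ℕ} (hi : i ≤ k) (hj : j < k) :
    π ^ i ∣ π ^ j ↔ i ≤ j := by
  have := h.mul_eq_zero_iff (j := k - i) (by omega) (b := π ^ j)
  rw [Nat.sub_sub_self hi, ← pow_add, h.pow_eq_zero_iff] at this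
  rw [← this]
  omega

theorem Chain.isUnit_iff (h : Chain π k) {b : B} : IsUnit b ↔ ¬ π ∣ b := by
  constructor
  · intro hb hd
    exact h.pow_ne ((isUnit_of_dvd_unit hd hb).mul_right_eq_zero.1 (by
      rw [← pow_succ', Nat.sub_add_cancel h.pos, h.pow_eq]))
  · intro hd
    obtain ⟨j, -, w, rfl⟩ := h.dec b fun e => hd (e ▸ dvd_zero _)
    rcases j with _ | j
    · simp
    · exact absurd ((dvd_pow_self π j.succ_ne_zero).mul_right _) hd

variable (F) in
/-- The ideal generated by `b` as an `F`-subspace. -/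
abbrev idl (b : B) : Submodule F B := LinearMap.range (LinearMap.mulLeft F b)

theorem mem_idl {b c : B} : c ∈ idl F b ↔ b ∣ c := ⟨fun ⟨x, h⟩ => ⟨x, h.symm⟩, fun ⟨x, h⟩ => ⟨x, h.symm⟩⟩

theorem Chain.finrank_idl (h : Chain π k) {j : ℕ} (hj : j ≤ k) :
    finrank F (idl F (π ^ (k - j))) = j * finrank F (idl F (π ^ (k - 1))) := by
  induction j with
  | zero =>
    rw [Nat.sub_zero, h.pow_eq, zero_mul, Submodule.finrank_eq_zero, eq_bot_iff]
    exact fun c hc => eq_zero_of_zero_dvd (mem_idl.1 hc)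
  | succ j ih =>
    have h1 := LinearMap.finrank_range_add_finrank_ker
      (LinearMap.mulLeft F π ∘ₗ (idl F (π ^ (k - (j + 1)))).subtype)
    have h2 : LinearMap.range (LinearMap.mulLeft F π ∘ₗ (idl F (π ^ (k - (j + 1)))).subtype) =
        idl F (π ^ (k - j)) := by
      rw [LinearMap.range_comp, Submodule.range_subtype, ← LinearMap.range_comp,
        ← LinearMap.mulLeft_mul, ← pow_succ', show k - (j + 1) + 1 = k - j by omega]
    have h3 : LinearMap.ker (LinearMap.mulLeft F π) = idl F (π ^ (k - 1)) := by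
      ext b
      rw [mem_idl, ← h.mul_eq_zero_iff h.pos, pow_one, LinearMap.mem_ker, LinearMap.mulLeft_apply]
    rw [h2, LinearMap.ker_comp, h3, (Submodule.comapSubtypeEquivOfLe fun c hc =>
      mem_idl.2 ((pow_dvd_pow π (by omega)).trans (mem_idl.1 hc))).finrank_eq, ih (by omega)] at h1
    rw [← h1, add_mul, one_mul]

/-- The hypotheses on the involutions. -/
structure Invol (q : ℕ) (σ : F →+* F) (τ : B →+* B) : Prop where
  card : Nat.card F = q ^ 2
  ne : ∃ θ, σ θ ≠ θ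
  σσ : ∀ x, σ (σ x) = x
  ττ : ∀ x, τ (τ x) = x
  smul : ∀ (c : F) (x : B), τ (c • x) = σ c • τ x

theorem Invol.card_fix (h : Invol q σ τ) (I : Submodule F B) (hI : ∀ x ∈ I, τ x ∈ I) :
    Nat.card {x : B // x ∈ I ∧ τ x = x} = q ^ finrank F I := by
  obtain ⟨θ, hθ⟩ := h.ne
  have h0 : θ - σ θ ≠ 0 := sub_ne_zero.2 hθ.symm
  have h1 := Nat.card_congr (Equiv.ofBijective
    (fun p : {x : B // x ∈ I ∧ τ x = x} × {x : B // x ∈ I ∧ τ x = x} =>
      (⟨p.1.1 + θ • p.2.1, add_mem p.1.2.1 (I.smul_mem _ p.2.2.1)⟩ : I)) ⟨?_, ?_⟩)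
  · rw [Nat.card_prod, Module.natCard_eq_pow_finrank (K := F) (V := I), h.card, ← pow_mul,
      mul_comm 2, pow_mul, ← sq] at h1
    exact Nat.pow_left_injective two_ne_zero h1
  · rintro ⟨⟨x, hx, hx'⟩, y, hy, hy'⟩ ⟨⟨x', hx₁, hx₁'⟩, y', hy₁, hy₁'⟩ e
    have e1 : x + θ • y = x' + θ • y' := congrArg Subtype.val e
    have e2 := congrArg τ e1
    rw [map_add, map_add, h.smul, h.smul, hx', hy', hx₁', hy₁'] at e2
    obtain rfl : y = y' := smul_right_injective B h0 (by
      simp only [sub_smul]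
      linear_combination e1 - e2)
    obtain rfl : x = x' := add_right_cancel e1
    rfl
  · rintro ⟨b, hb⟩
    have h2 : τ ((θ - σ θ)⁻¹ • (b - τ b)) = (θ - σ θ)⁻¹ • (b - τ b) := by
      rw [h.smul, map_inv₀, map_sub, map_sub, h.σσ, h.ττ, ← neg_sub θ, ← neg_sub b, inv_neg,
        neg_smul_neg]
    have h3 := I.smul_mem (θ - σ θ)⁻¹ (sub_mem hb (hI b hb))
    refine ⟨(⟨b - θ • (θ - σ θ)⁻¹ • (b - τ b), sub_mem hb (I.smul_mem _ h3), ?_⟩, ⟨_, h3, h2⟩),
      Subtype.ext (sub_add_cancel _ _)⟩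
    rw [map_sub, h.smul θ, h2]
    have := smul_inv_smul₀ h0 (b - τ b)
    rw [sub_smul] at this
    linear_combination this

theorem card_eq_mul_of_h90 (h : Invol q σ τ) (P : B → Prop) (h1 : P 1)
    (hm : ∀ x y : Bˣ, P x → P y → P ↑(x * y)) (hi : ∀ x : Bˣ, P x → P ↑(x⁻¹))
    (hτ : ∀ x, P x → P (τ x))
    (h90 : ∀ u, u * τ u = 1 → P u → ∃ w : Bˣ, P w ∧ u * τ w = w) :
    Nat.card {x : B // IsUnit x ∧ P x} =
      Nat.card {x : B // IsUnit x ∧ P x ∧ τ x = x} * Nat.card {u : B // u * τ u = 1 ∧ P u} := by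
  let S : Subgroup Bˣ := ⟨⟨⟨{x | P x}, fun {x y} => hm x y⟩, h1⟩, fun {x} => hi x⟩
  let ψ : S →* Bˣ := (MonoidHom.id Bˣ / Units.map τ.toMonoidHom).comp S.subtype
  have hψ : ∀ x : S, (ψ x : B) * τ (x : Bˣ) = (x : Bˣ) := fun x =>
    congrArg Units.val (div_mul_cancel x.1 (Units.map τ.toMonoidHom x.1))
  have e1 : Nat.card {x : B // IsUnit x ∧ P x} = Nat.card S := (Nat.card_congr (Equiv.ofBijective
    (fun x : S => (⟨x.1, x.1.isUnit, x.2⟩ : {x : B // IsUnit x ∧ P x}))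
    ⟨fun x y e => Subtype.ext (Units.ext (congrArg Subtype.val e)),
      by rintro ⟨_, ⟨x, rfl⟩, hx⟩; exact ⟨⟨x, hx⟩, rfl⟩⟩)).symm
  have e2 : Nat.card {x : B // IsUnit x ∧ P x ∧ τ x = x} = Nat.card ψ.ker :=
    (Nat.card_congr (Equiv.ofBijective (fun x : ψ.ker => (⟨x.1.1, x.1.1.isUnit, x.1.2, by
      have := hψ x.1
      rwa [x.2, Units.val_one, one_mul] at this⟩ : {x : B // IsUnit x ∧ P x ∧ τ x = x}))
    ⟨fun x y e => Subtype.ext (Subtype.ext (Units.ext (congrArg Subtype.val e))), by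
      rintro ⟨_, ⟨x, rfl⟩, hx, hx'⟩
      refine ⟨⟨⟨x, hx⟩, Units.ext ?_⟩, rfl⟩
      have := hψ ⟨x, hx⟩
      rw [hx'] at this
      exact x.isUnit.mul_right_cancel (this.trans (one_mul _).symm)⟩)).symm
  have e3 : Nat.card {u : B // u * τ u = 1 ∧ P u} = Nat.card ψ.range :=
    (Nat.card_congr (Equiv.ofBijective (fun x : ψ.range => (⟨x.1, by
      obtain ⟨_, x, rfl⟩ := x
      refine ⟨?_, hm _ _ x.2 (hi _ (hτ _ x.2))⟩
      have h2 := congrArg τ (hψ x)
      rw [map_mul, h.ττ] at h2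
      refine x.1.isUnit.mul_right_cancel ?_
      rw [mul_assoc, h2, hψ, one_mul]⟩ : {u : B // u * τ u = 1 ∧ P u}))
    ⟨fun x y e => Subtype.ext (Units.ext (congrArg Subtype.val e)), by
      rintro ⟨u, hu, hu'⟩
      obtain ⟨w, hw, hw'⟩ := h90 u hu hu'
      refine ⟨⟨_, ⟨w, hw⟩, rfl⟩, Subtype.ext ?_⟩
      exact (w.isUnit.map τ).mul_right_cancel ((hψ ⟨w, hw⟩).trans hw'.symm)⟩)).symm
  rw [e1, e2, e3, ← Subgroup.index_ker, Subgroup.card_mul_index]

theorem Invol.exists_trace (h : Invol q σ τ) : ∃ c : F, c + σ c = 1 := by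
  obtain ⟨θ, hθ⟩ := h.ne
  have h0 : θ - σ θ ≠ 0 := sub_ne_zero.2 hθ.symm
  refine ⟨θ / (θ - σ θ), ?_⟩
  rw [map_div₀, map_sub, h.σσ, ← neg_sub θ, div_neg, ← sub_eq_add_neg, ← sub_div, div_self h0]

theorem Invol.two_le (h : Invol q σ τ) : 2 ≤ q := by
  have := Finite.one_lt_card (α := F)
  rw [h.card] at this
  by_contra h'
  interval_cases q <;> simp at this

theorem Invol.dvd_map (h : Invol q σ τ) (hc : Chain π k) (j : ℕ) {x : B} (hx : π ^ j ∣ x) :
    π ^ j ∣ τ x := by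
  have : π ∣ τ π := by_contra fun h' => hc.isUnit_iff.1
    (by simpa only [h.ττ] using (hc.isUnit_iff.2 h').map τ) dvd_rfl
  exact (pow_dvd_pow_of_dvd this j).trans (map_pow τ π j ▸ map_dvd τ hx)

theorem Invol.h90 (h : Invol q σ τ) {u : B} (hu : u * τ u = 1) (c : F) :
    u * τ (c • 1 + σ c • u) = c • 1 + σ c • u := by
  rw [map_add, h.smul, h.smul, map_one, h.σσ, mul_add, mul_smul_comm, mul_smul_comm, hu, mul_one,
    add_comm]

theorem Invol.card_unitary_pos (h : Invol q σ τ) (hc : Chain π k) {j : ℕ} (hj : 0 < j) :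
    Nat.card {u : B // u * τ u = 1 ∧ π ^ j ∣ u - 1} = q ^ finrank F (idl F (π ^ j)) := by
  have hu : ∀ x : B, π ^ j ∣ x - 1 → IsUnit x := fun x hx => hc.isUnit_iff.2 fun h' =>
    hc.isUnit_iff.1 isUnit_one ((dvd_sub_right h').1 ((dvd_pow_self π hj.ne').trans hx))
  have h1 := card_eq_mul_of_h90 h (fun x => π ^ j ∣ x - 1) (by simp)
    (fun x y hx hy => by
      rw [Units.val_mul, show (x * y - 1 : B) = (x - 1) * y + (y - 1) by ring]
      exact (hx.mul_right _).add hy)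
    (fun x hx => by
      rw [show ((x⁻¹ : Bˣ) - 1 : B) = (x - 1) * -(x⁻¹ : Bˣ) by
        rw [sub_mul, mul_neg, Units.mul_inv]; ring]
      exact hx.mul_right _)
    (fun x hx => by simpa using h.dvd_map hc j hx)
    (fun u hu' hP => by
      obtain ⟨c, hc'⟩ := h.exists_trace
      have : π ^ j ∣ c • 1 + σ c • u - 1 := by
        rw [show c • 1 + σ c • u - 1 = σ c • (u - 1) by
          have := congrArg (· • (1 : B)) hc'
          simp only [add_smul, one_smul] at this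
          rw [smul_sub]
          linear_combination this, Algebra.smul_def]
        exact hP.mul_left _
      obtain ⟨w, hw⟩ := hu _ this
      exact ⟨w, hw ▸ this, hw ▸ h.h90 hu' c⟩)
  have e1 : Nat.card {x : B // IsUnit x ∧ π ^ j ∣ x - 1} = Nat.card (idl F (π ^ j)) :=
    Nat.card_congr ((Equiv.subRight 1).subtypeEquiv fun x =>
      ⟨fun hx => mem_idl.2 hx.2, fun hx => ⟨hu x (mem_idl.1 hx), mem_idl.1 hx⟩⟩)
  have e2 : Nat.card {x : B // IsUnit x ∧ π ^ j ∣ x - 1 ∧ τ x = x} =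
      Nat.card {x : B // x ∈ idl F (π ^ j) ∧ τ x = x} :=
    Nat.card_congr ((Equiv.subRight 1).subtypeEquiv fun x => by
      rw [Equiv.subRight_apply, mem_idl, map_sub, map_one, sub_left_inj]
      exact ⟨fun hx => hx.2, fun hx => ⟨hu x hx.1, hx⟩⟩)
  rw [e1, e2, h.card_fix _ fun x hx => mem_idl.2 (h.dvd_map hc j (mem_idl.1 hx)),
    Module.natCard_eq_pow_finrank (K := F), h.card, ← pow_mul, mul_comm 2, pow_mul, sq] at h1
  exact (Nat.eq_of_mul_eq_mul_left (pow_pos (by have := h.two_le; omega) _) h1).symm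

theorem card_not_add {α : Type*} [Finite α] (P Q : α → Prop) :
    Nat.card {x // ¬ P x ∧ Q x} + Nat.card {x // P x ∧ Q x} = Nat.card {x // Q x} := by
  classical
  cases nonempty_fintype α
  simp only [Nat.card_eq_fintype_card, Fintype.card_subtype]
  rw [add_comm, ← Finset.card_filter_add_card_filter_not (s := {x | Q x}) P, filter_filter,
    filter_filter]
  simp only [and_comm]

theorem Invol.card_unitary (h : Invol q σ τ) (hc : Chain π k) :
    Nat.card {u : B // u * τ u = 1} = q ^ finrank F B + q ^ finrank F (idl F π) := by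
  have h1 := card_eq_mul_of_h90 h (fun _ => True) trivial (fun _ _ _ _ => trivial)
    (fun _ _ => trivial) (fun _ _ => trivial) (fun u hu _ => by
      obtain ⟨θ, hθ⟩ := h.ne
      by_contra! h'
      have h2 : ∀ c : F, π ∣ c • 1 + σ c • u := fun c => by_contra fun h3 => by
        obtain ⟨w, hw⟩ := hc.isUnit_iff.2 h3
        exact h' w trivial (hw ▸ h.h90 hu c)
      have h3 := dvd_sub (h2 θ) ((h2 1).mul_left (algebraMap F B (σ θ)))
      rw [map_one, one_smul, one_smul, ← Algebra.smul_def, smul_add, add_sub_add_right_eq_sub,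
        ← sub_smul, ← Algebra.algebraMap_eq_smul_one] at h3
      exact hc.isUnit_iff.1 ((sub_ne_zero.2 hθ.symm).isUnit.map _) h3)
  simp only [and_true, true_and, hc.isUnit_iff] at h1
  have h2 := card_not_add (fun x => π ∣ x) fun x : B => True
  have h3 := card_not_add (fun x => π ∣ x) fun x : B => τ x = x
  have h4 := h.card_fix (idl F π) fun x hx =>
    mem_idl.2 (by simpa using h.dvd_map hc 1 (by simpa using mem_idl.1 hx))
  have h5 := h.card_fix ⊤ fun _ _ => trivial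
  have h6 : Nat.card {x // π ∣ x} = (q ^ finrank F (idl F π)) ^ 2 := by
    rw [← pow_mul, mul_comm, pow_mul, ← h.card, ← Module.natCard_eq_pow_finrank (K := F)]
    simp only [← mem_idl (F := F)]
  have h7 : Nat.card B = (q ^ finrank F B) ^ 2 := by
    rw [← pow_mul, mul_comm, pow_mul, ← h.card, ← Module.natCard_eq_pow_finrank (K := F)]
  simp only [mem_idl, Submodule.mem_top, true_and, finrank_top, and_true,
    Nat.card_subtype_true] at h2 h4 h5
  rw [h1, h6, h7] at h2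
  rw [h4, h5] at h3
  have h8 : 0 < Nat.card {x // ¬ π ∣ x ∧ τ x = x} :=
    Nat.card_pos_iff.2 ⟨⟨⟨1, hc.isUnit_iff.1 isUnit_one, map_one τ⟩⟩, inferInstance⟩
  refine Nat.eq_of_mul_eq_mul_left h8 ?_
  rw [← h3] at h2 ⊢
  nlinarith

theorem Invol.sum_unitary (h : Invol q σ τ) (hc : Chain π k) (hodd : Odd (finrank F B))
    [Fintype B] [DecidableEq B] :
    ∑ u : B with u * τ u = 1,
      (-(q : ℂ)) ^ finrank F (LinearMap.ker (LinearMap.mulLeft F (u - 1))) = 0 := by
  classical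
  set e := finrank F (idl F (π ^ (k - 1)))
  have hD : ∀ j ≤ k, finrank F (idl F (π ^ j)) = (k - j) * e := fun j hj => by
    rw [← hc.finrank_idl (Nat.sub_le k j), Nat.sub_sub_self hj]
  have hB : finrank F B = k * e := by
    rw [← Nat.sub_zero k, ← hD 0 k.zero_le, pow_zero,
      show idl F (1 : B) = ⊤ from eq_top_iff.2 fun x _ => mem_idl.2 (one_dvd x), finrank_top]
  rw [hB, Nat.odd_mul] at hodd
  have key : ∀ u : B, (-(q : ℂ)) ^ finrank F (LinearMap.ker (LinearMap.mulLeft F (u - 1))) =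
      1 + ∑ i ∈ range k, if π ^ (i + 1) ∣ u - 1 then
        (-(q : ℂ) ^ e) ^ (i + 1) - (-(q : ℂ) ^ e) ^ i else 0 := fun u => by
    obtain ⟨j, hj, h1, h2⟩ : ∃ j ≤ k, LinearMap.ker (LinearMap.mulLeft F (u - 1)) =
        idl F (π ^ (k - j)) ∧ ∀ i < k, π ^ (i + 1) ∣ u - 1 ↔ i < j := by
      by_cases h0 : u - 1 = 0
      · refine ⟨k, le_rfl, ?_, fun i hi => by simp [h0, hi]⟩
        ext x
        simp [h0, mem_idl]
      · obtain ⟨j, hj, w, hw⟩ := hc.dec _ h0
        refine ⟨j, hj.le, ?_, fun i hi => ?_⟩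
        · ext x
          rw [mem_idl, ← hc.mul_eq_zero_iff hj.le, LinearMap.mem_ker, LinearMap.mulLeft_apply, hw,
            mul_right_comm, Units.mul_left_eq_zero]
        · rw [hw, Units.dvd_mul_right, hc.pow_dvd_iff hi hj, Nat.succ_le_iff]
    rw [h1, hc.finrank_idl hj, mul_comm, pow_mul, hodd.2.neg_pow, ← Finset.sum_filter,
      show ({i ∈ range k | π ^ (i + 1) ∣ u - 1} : Finset ℕ) = range j by
        ext i
        simp only [mem_filter, mem_range]
        exact ⟨fun hi => (h2 i hi.1).1 hi.2, fun hi => ⟨by omega, (h2 i (by omega)).2 hi⟩⟩,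
      Finset.sum_range_sub fun i => (-(q : ℂ) ^ e) ^ i]
    simp
  have hN : ∀ i ∈ range k, ∑ u : B with u * τ u = 1, (if π ^ (i + 1) ∣ u - 1 then
      (-(q : ℂ) ^ e) ^ (i + 1) - (-(q : ℂ) ^ e) ^ i else 0) =
      -(((q : ℂ) ^ e + 1) * ((q : ℂ) ^ e) ^ (k - 1)) * (-1) ^ i := fun i hi => by
    have hi' := mem_range.1 hi
    rw [← Finset.sum_filter, filter_filter, Finset.sum_const, nsmul_eq_mul, ← Fintype.card_subtype,
      ← Nat.card_eq_fintype_card, h.card_unitary_pos hc i.succ_pos, hD _ hi',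
      show k - 1 = (k - (i + 1)) + i by omega, neg_pow _ i, neg_pow _ (i + 1), mul_comm _ e, pow_mul]
    push_cast
    ring
  simp only [key]
  rw [Finset.sum_add_distrib, Finset.sum_comm, Finset.sum_congr rfl hN, ← Finset.mul_sum,
    neg_one_geom_sum, if_neg (Nat.not_even_iff_odd.2 hodd.1), Finset.sum_const, nsmul_eq_mul,
    ← Fintype.card_subtype, ← Nat.card_eq_fintype_card, h.card_unitary hc, hB,
    ← pow_one π, hD 1 hc.pos, mul_comm k, mul_comm _ e, pow_mul, pow_mul]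
  obtain ⟨k, rfl⟩ := Nat.exists_eq_succ_of_ne_zero hc.pos.ne'
  simp only [Nat.succ_eq_add_one, Nat.add_sub_cancel, pow_succ, pow_zero, one_mul]
  push_cast
  ring

end Cfsg.Hst

set_option linter.all false in
theorem Cfsg.Rz.Hst_ZeroA_0 : True := by
  have := @_root_.Cfsg.Hst.idl.eq_def.{0, 0}
  have := @_root_.Cfsg.Hst.idl.eq_1.{0, 0}
  have := @_root_.Cfsg.Hst.idl.fun_cases
  have := @_root_.Cfsg.Hst.Chain.mk.congr_simp.{0}
  have := @_root_.Cfsg.Hst.Invol.mk.congr_simp.{0, 0}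
  trivial
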